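import Cfsg.Agent.Lib.WeilGap.Defs

/-!
# Auxiliary results for `Classify`: `exists_nonsquare`, `R1all_mulShift`, `rk1_form`.
-/

set_option autoImplicit false
set_option linter.unusedSectionVars false
set_option linter.unusedVariables false

namespace Cfsg.Agent.Lib.WeilGap.ClassifyAux

open Module Matrix Cfsg.Agent.Lib.SpDeg.Main Cfsg.Agent.Lib.SpDeg.Odd Cfsg.Agent.Lib.Weil.Basic
  Cfsg.Agent.Lib.Weil.Minus Cfsg.Agent.Lib.WeilGap.Defs
open scoped _root_.Classical

universe u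

variable {F : Type u} [Field F] [Fintype F] {n : ℕ}

theorem exists_nonsquare_aux (h2 : (2 : F) ≠ 0) (ψ₀ : AddChar F ℂ) (hψ : ψ₀ 1 ≠ 1) :
    ∃ a₂ : F, a₂ ≠ 0 ∧ ¬ IsSquare a₂ ∧ ψ₀ a₂ ≠ 1 := by
  have hc : ringChar F ≠ 2 := by
    intro h
    apply h2
    have := ringChar.Nat.cast_ringChar (R := F)
    rw [h] at this
    exact_mod_cast this
  obtain ⟨b, hb⟩ := FiniteField.exists_nonsquare hc
  have hb0 : b ≠ 0 := by
    rintro rfl
    exact hb IsSquare.zero
  have key : ∃ c : F, ψ₀ (b * (c * c)) ≠ 1 := by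
    by_contra hcon
    push Not at hcon
    apply hψ
    have e : (1 : F) = b * (((b⁻¹ + 1) / 2) * ((b⁻¹ + 1) / 2)) + - (b * (((b⁻¹ - 1) / 2) * ((b⁻¹ - 1) / 2))) := by
      field_simp
      ring
    rw [e, AddChar.map_add_eq_mul, AddChar.map_neg_eq_inv, hcon, hcon]
    simp
  obtain ⟨c, hc'⟩ := key
  have hc0 : c ≠ 0 := by
    rintro rfl
    apply hc'
    simp
  refine ⟨b * (c * c), mul_ne_zero hb0 (mul_ne_zero hc0 hc0), ?_, hc'⟩
  rintro ⟨d, hd⟩
  apply hb
  refine ⟨d / c, ?_⟩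
  field_simp
  linear_combination hd

theorem R1all_mulShift_aux {V : Type*} [AddCommGroup V] [Module ℂ V] [FiniteDimensional ℂ V] (ψ₀ : AddChar F ℂ)
    (hψ₀ : ψ₀ 1 ≠ 1) (ρ : Gp F n →* Module.End ℂ V) (hR : R1all ψ₀ ρ) (a : F) (ha : a ≠ 0) (hψ : ψ₀ a ≠ 1) :
    R1all (ψ₀.mulShift a) ρ := by
  intro f hf
  have hψ' : (ψ₀.mulShift a) 1 ≠ 1 := by simpa [AddChar.mulShift_apply] using hψ
  obtain ⟨v, hv, hv0⟩ := Submodule.exists_mem_ne_zero_of_ne_bot hf
  have hv' := (mem_WW (ψ₀.mulShift a) ρ hψ').mp hv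
  have hw : WW ψ₀ ρ (a • f) ≠ ⊥ := by
    intro hbot
    have : v ∈ WW ψ₀ ρ (a • f) := by
      rw [mem_WW ψ₀ ρ hψ₀]
      intro B
      rw [hv' B, AddChar.mulShift_apply]
      simp
    rw [hbot] at this
    exact hv0 (by simpa using this)
  have h1 := hR (a • f) hw
  intro x y
  have h3 := h1 x y
  simp only [LinearMap.smul_apply, smul_eq_mul] at h3
  have ha2 : a * a ≠ 0 := mul_ne_zero ha ha
  apply mul_left_cancel₀ ha2
  linear_combination h3

theorem rk1_form_aux (h2 : (2 : F) ≠ 0) (f : Module.Dual F (SymM F n)) (hf : f ≠ 0) (hR : R1 f) :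
    ∃ (u : Fin n → F) (a : F), u ≠ 0 ∧ a ≠ 0 ∧ ∀ B : SymM F n, f B = - (a * qq B u) := by
  obtain ⟨x, hx⟩ := exists_qfo_ne h2 hf
  have hx' : f (rk1 x) ≠ 0 := hx
  have hQ := isQo_qfo f
  -- the linear form `y ↦ f (pl x y)`
  let L : (Fin n → F) →ₗ[F] F :=
    { toFun := fun y => f (pl x y)
      map_add' := fun y y' => by
        have := hQ.add_right x y y'
        simpa only [po_qfo] using this
      map_smul' := fun t y => by
        have := hQ.smul_right t x y
        simpa only [po_qfo, smul_eq_mul, RingHom.id_apply] using this }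
  have hL : ∀ y, f (pl x y) = L y := fun _ => rfl
  let u : Fin n → F := fun i => L (Pi.single i 1) / (2 * f (rk1 x))
  have hu : ∀ y, L y / (2 * f (rk1 x)) = u ⬝ᵥ y := by
    intro y
    have hy : L y = ∑ i, y i * L (Pi.single i 1) := by
      conv_lhs => rw [pi_eq_sum_univ' y]
      rw [map_sum]
      refine Finset.sum_congr rfl fun i _ => ?_
      rw [map_smul, smul_eq_mul]
    rw [hy, Finset.sum_div]
    simp only [dotProduct, u]
    refine Finset.sum_congr rfl fun i _ => ?_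
    ring
  have h4 : (4 : F) ≠ 0 := by
    have : (4 : F) = 2 * 2 := by norm_num
    rw [this]
    exact mul_ne_zero h2 h2
  have hval : ∀ y, f (rk1 y) = f (rk1 x) * (u ⬝ᵥ y) ^ 2 := by
    intro y
    have h1 := hR x y
    rw [← hu, ← hL]
    field_simp
    linear_combination h1
  have hu0 : u ≠ 0 := by
    intro h0
    have h1 := hu x
    rw [h0, zero_dotProduct, ← hL, ← po_qfo, hQ.po_self] at h1
    have h3 : qfo f x ≠ 0 := hx
    have h5 : (2 * qfo f x) / (2 * f (rk1 x)) = 1 := by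
      show (2 * f (rk1 x)) / (2 * f (rk1 x)) = 1
      exact div_self (mul_ne_zero h2 hx')
    rw [h5] at h1
    exact one_ne_zero h1
  have hq : ∀ y, qq (rk1 y) u = hh F * (u ⬝ᵥ y) ^ 2 := by
    intro y
    show hh F * (u ⬝ᵥ (vecMulVec y y) *ᵥ u) = _
    rw [Matrix.vecMulVec_mulVec]
    simp only [op_smul_eq_smul, dotProduct_smul, smul_eq_mul, dotProduct_comm y u]
    ring
  refine ⟨u, -(2 * f (rk1 x)), hu0, neg_ne_zero.mpr (mul_ne_zero h2 hx'), ?_⟩
  let g : Module.Dual F (SymM F n) :=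
    { toFun := fun B => (2 * f (rk1 x)) * qq B u
      map_add' := fun B B' => by rw [qq_add_left]; ring
      map_smul' := fun t B => by rw [qq_smul, smul_eq_mul, RingHom.id_apply]; ring }
  have hfg : f = g := by
    by_contra hne
    have hne' : f - g ≠ 0 := sub_ne_zero.mpr hne
    obtain ⟨y, hy⟩ := exists_qfo_ne h2 hne'
    apply hy
    show f (rk1 y) - (2 * f (rk1 x)) * qq (rk1 y) u = 0
    rw [hval, hq, hh]
    field_simp
    ring
  intro B
  calc f B = g B := LinearMap.congr_fun hfg B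
    _ = _ := by
      show (2 * f (rk1 x)) * qq B u = _
      ring

end Cfsg.Agent.Lib.WeilGap.ClassifyAux
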