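import Cfsg.Agent.Lib.WeilGap.Conj

/-!
# [WT] Existence of the Weil data, from `Cfsg.Agent.Lib.Weil.Rep.exists_weil` (`τ` with `T = c • τ g` for every `(g,T) ∈ EE ψ`).
The value on `dl 0` (a common eigenvector of the radical and the Levi) gives the scalars `d` and `κ`.
-/

set_option autoImplicit false
set_option linter.unusedSectionVars false
set_option linter.unusedVariables false

namespace Cfsg.Agent.Lib.WeilGap.Wt

open Module Matrix Cfsg.Agent.Lib.SpDeg.Main Cfsg.Agent.Lib.SpDeg.Odd Cfsg.Agent.Lib.Weil.Basic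
  Cfsg.Agent.Lib.Weil.Rep Cfsg.Agent.Lib.Weil.Minus Cfsg.Agent.Lib.WeilGap.Defs 
open scoped _root_.Classical

universe u

variable {F : Type u} [Field F] [Fintype F] {n : ℕ}

variable (ψ : AddChar F ℂ)

lemma dot_update_right (x a : Fin n → F) (i : Fin n) (c : F) :
    x ⬝ᵥ Function.update a i c = x ⬝ᵥ a + x i * (c - a i) := by
  have h : Function.update a i c = a + Pi.single i (c - a i) := by
    funext k
    by_cases hk : k = i
    · subst hk; simp
    · simp [Function.update_of_ne hk, Pi.single_eq_of_ne hk]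
  rw [h, dotProduct_add, dotProduct_single]

lemma dot_update_left (x a : Fin n → F) (i : Fin n) (c : F) :
    Function.update x i c ⬝ᵥ a = x ⬝ᵥ a + (c - x i) * a i := by
  rw [dotProduct_comm, dot_update_right, dotProduct_comm, mul_comm]

lemma wa_sw (i : Fin n) (v : WV F n) :
    wa ((sw (F := F) i).1 *ᵥ v) = Function.update (wa v) i (- wb v i) := by
  have hv : v = Sum.elim (wa v) (wb v) := by
    funext k; cases k <;> rfl
  funext k
  show ((swM (F := F) i) *ᵥ v) (Sum.inl k) = _
  conv_lhs => rw [hv, swM, Matrix.fromBlocks_mulVec]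
  by_cases hk : k = i
  · subst hk
    simp [Matrix.sub_mulVec, Matrix.neg_mulVec, Eii, Matrix.single_mulVec]
  · simp [Matrix.sub_mulVec, Matrix.neg_mulVec, Eii, Matrix.single_mulVec, Function.update_of_ne hk]

lemma wb_sw (i : Fin n) (v : WV F n) :
    wb ((sw (F := F) i).1 *ᵥ v) = Function.update (wb v) i (wa v i) := by
  have hv : v = Sum.elim (wa v) (wb v) := by
    funext k; cases k <;> rfl
  funext k
  show ((swM (F := F) i) *ᵥ v) (Sum.inr k) = _
  conv_lhs => rw [hv, swM, Matrix.fromBlocks_mulVec]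
  by_cases hk : k = i
  · subst hk
    simp [Matrix.sub_mulVec, Matrix.neg_mulVec, Eii, Matrix.single_mulVec]
  · simp [Matrix.sub_mulVec, Matrix.neg_mulVec, Eii, Matrix.single_mulVec, Function.update_of_ne hk]

/-- `FFs` intertwines. -/
lemma FFs_rr (h2 : (2 : F) ≠ 0) (i : Fin n) (v : WV F n) (φ : WS F n) :
    FFs ψ i (rr ψ v φ) = rr ψ ((sw (F := F) i).1 *ᵥ v) (FFs ψ i φ) := by
  funext x
  rw [rr_apply, FFs_apply, FFs_apply, wa_sw, wb_sw, Finset.mul_sum]
  refine Fintype.sum_equiv (Equiv.addRight (wb v i)) _ _ ?_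
  intro t
  simp only [rr_apply, Equiv.coe_addRight]
  have hup : Function.update x i t + wb v =
      Function.update (x + Function.update (wb v) i (wa v i)) i (t + wb v i) := by
    funext k
    by_cases hk : k = i
    · subst hk; simp
    · simp [Function.update_of_ne hk]
  have hi : (x + Function.update (wb v) i (wa v i)) i = x i + wa v i := by simp
  rw [hup, ← mul_assoc, ← mul_assoc, ← AddChar.map_add_eq_mul, ← AddChar.map_add_eq_mul, hi]
  congr 2
  have hh2 := hh_add (F := F) h2
  have hdot : Function.update (wa v) i (- wb v i) ⬝ᵥ Function.update (wb v) i (wa v i) =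
      wa v ⬝ᵥ wb v + (- wb v i - wa v i) * wb v i + (- wb v i) * (wa v i - wb v i) := by
    rw [dot_update_right, dot_update_left]
    simp
  rw [hdot, dot_update_left x (wa v) i t, dot_update_right x (wa v) i (- wb v i)]
  linear_combination (wa v i * wb v i) * hh2

lemma FFs_dl0 (i : Fin n) : FFs ψ i (dl 0) 0 = 1 := by
  rw [FFs_apply]
  rw [Finset.sum_eq_single (0 : F)]
  · simp [dl_apply]
  · intro t _ ht
    have : Function.update (0 : Fin n → F) i t ≠ 0 := by
      intro h
      have := congrFun h i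
      simp at this
      exact ht this
    simp [dl_apply, this]
  · simp

lemma MuE_dl0 (B : SymM F n) : MuE ψ B (dl 0) = dl 0 := by
  funext x
  rw [MuE_apply]
  by_cases hx : x = 0
  · subst hx
    have : qq B (0 : Fin n → F) = 0 := by simp [qq]
    simp [this]
  · simp [dl_apply, hx]

lemma TRE_dl0 (R : GL (Fin n) F) : TRE R (dl (0 : Fin n → F)) = dl 0 := by
  funext x
  rw [TRE_apply, dl_apply, dl_apply]
  congr 1
  apply propext
  constructor
  · intro h
    have h3 := congrArg (((R⁻¹ : GL (Fin n) F) : Matrix (Fin n) (Fin n) F)ᵀ *ᵥ ·) h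
    simp only [Matrix.mulVec_mulVec, ← Matrix.transpose_mul, ← Units.val_mul, mul_inv_cancel, Units.val_one,
      transpose_one, Matrix.one_mulVec, Matrix.mulVec_zero] at h3
    exact h3
  · rintro rfl
    simp

theorem exists_WT (hn : 2 ≤ n) (h2 : (2 : F) ≠ 0) (hψ : ψ 1 ≠ 1) : Nonempty (WT (F := F) (n := n) ψ) := by
  obtain ⟨τ, hτ⟩ := exists_weil (F := F) (n := n) ψ h2 hψ
  have hdl : (dl (0 : Fin n → F)) 0 = (1 : ℂ) := by simp [dl_apply]
  -- the scalar form
  have hτ' : ∀ (g : Gp F n) (T : WS F n ≃ₗ[ℂ] WS F n), (g, T) ∈ EE (F := F) (n := n) ψ →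
      ∃ c : ℂˣ, (τ g) = (c : ℂ) • (T : Module.End ℂ (WS F n)) := by
    intro g T h
    obtain ⟨c, hc⟩ := hτ ⟨(g, T), h⟩
    refine ⟨c⁻¹, ?_⟩
    have hc' : (T : Module.End ℂ (WS F n)) = (c : ℂ) • τ g := hc
    rw [hc', smul_smul, ← Units.val_mul, inv_mul_cancel, Units.val_one, one_smul]
  -- the radical
  let d : SymM F n → ℂ := fun B => τ (UU B) (dl 0) 0
  have hU : ∀ B : SymM F n, τ (UU B) = d B • ((MuE ψ (-B) : WS F n ≃ₗ[ℂ] WS F n) : Module.End ℂ (WS F n)) := by
    intro B
    obtain ⟨c, hc⟩ := hτ' (UU B) (MuE ψ (-B)) (by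
      have := MuE_mem ψ h2 (-B)
      rwa [neg_neg] at this)
    have h3 : d B = c := by
      show τ (UU B) (dl 0) 0 = _
      rw [hc]
      show (c : ℂ) • (MuE ψ (-B) (dl 0)) 0 = _
      rw [MuE_dl0]
      simp [dl_apply]
    rw [h3, hc]
  have hUdl : ∀ B : SymM F n, τ (UU B) (dl 0) = d B • dl 0 := by
    intro B
    rw [hU B]
    show d B • (MuE ψ (-B) (dl 0)) = _
    rw [MuE_dl0]
  have hdadd : ∀ A B : SymM F n, d (A + B) = d A * d B := by
    intro A B
    have h3 : τ (UU (A + B)) (dl 0) = τ (UU A) (τ (UU B) (dl 0)) := by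
      rw [UU_add, map_mul]; rfl
    rw [hUdl, hUdl, map_smul, hUdl, smul_smul] at h3
    have h4 := congrFun h3 0
    simp only [Pi.smul_apply, smul_eq_mul, hdl, mul_one] at h4
    rw [h4, mul_comm]
  have hd0 : d 0 = 1 := by
    show τ (UU 0) (dl 0) 0 = 1
    rw [UU_zero, map_one]
    exact hdl
  have hdne : ∀ B, d B ≠ 0 := by
    intro B h0
    have h3 := hdadd B (-B)
    rw [add_neg_cancel, hd0, h0, zero_mul] at h3
    exact one_ne_zero h3
  -- the Levi
  let κ0 : GL (Fin n) F → ℂ := fun R => τ (LL R) (dl 0) 0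
  have hL : ∀ R : GL (Fin n) F, τ (LL R) = κ0 R • ((TRE R : WS F n ≃ₗ[ℂ] WS F n) : Module.End ℂ (WS F n)) := by
    intro R
    obtain ⟨c, hc⟩ := hτ' (LL R) (TRE R) (TRE_mem ψ R)
    have h3 : κ0 R = c := by
      show τ (LL R) (dl 0) 0 = _
      rw [hc]
      show (c : ℂ) • (TRE R (dl 0)) 0 = _
      rw [TRE_dl0]
      simp [dl_apply]
    rw [h3, hc]
  have hLdl : ∀ R : GL (Fin n) F, τ (LL R) (dl 0) = κ0 R • dl 0 := by
    intro R
    rw [hL R]
    show κ0 R • (TRE R (dl 0)) = _
    rw [TRE_dl0]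
  have hκmul : ∀ R R' : GL (Fin n) F, κ0 (R * R') = κ0 R * κ0 R' := by
    intro R R'
    have h3 : τ (LL (R * R')) (dl 0) = τ (LL R) (τ (LL R') (dl 0)) := by
      rw [Conj.LL_mul, map_mul]; rfl
    rw [hLdl, hLdl, map_smul, hLdl, smul_smul] at h3
    have h4 := congrFun h3 0
    simp only [Pi.smul_apply, smul_eq_mul, hdl, mul_one] at h4
    rw [h4, mul_comm]
  have hκ1 : κ0 1 = 1 := by
    have hLL1 : LL (1 : GL (Fin n) F) = 1 := by
      have h3 := Conj.LL_mul (F := F) (n := n) 1 1
      rw [mul_one] at h3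
      exact (mul_eq_left.mp h3.symm)
    show τ (LL 1) (dl 0) 0 = 1
    rw [hLL1, map_one]
    exact hdl
  -- the invariance
  have hinv : ∀ (R : GL (Fin n) F) (B : SymM F n), d (cS (R : Matrix (Fin n) (Fin n) F) B) = d B := by
    intro R B
    have hκne : κ0 R ≠ 0 := by
      intro h0
      have h3 := hκmul R R⁻¹
      rw [mul_inv_cancel, hκ1, h0, zero_mul] at h3
      exact one_ne_zero h3
    have h3 : τ (LL R) (τ (UU B) (dl 0)) = τ (UU (cS (R : Matrix (Fin n) (Fin n) F) B)) (τ (LL R) (dl 0)) := by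
      have h4 := congrArg τ (LL_UU R B)
      rw [map_mul, map_mul] at h4
      exact LinearMap.congr_fun h4 (dl 0)
    rw [hUdl, map_smul, hLdl, map_smul, hUdl, smul_smul, smul_smul] at h3
    have h4 := congrFun h3 0
    simp only [Pi.smul_apply, smul_eq_mul, hdl, mul_one] at h4
    have h5 : κ0 R * (d (cS (R : Matrix (Fin n) (Fin n) F) B) - d B) = 0 := by
      linear_combination - h4
    exact sub_eq_zero.mp ((mul_eq_zero.mp h5).resolve_left hκne)
  -- the relations
  have hrk : ∀ (x y : Fin n → F), rk1 (x + y) = rk1 x + rk1 y + pl x y := by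
    intro x y
    apply Subtype.ext
    show vecMulVec (x + y) (x + y) = vecMulVec x x + vecMulVec y y + (vecMulVec x y + vecMulVec y x)
    rw [add_vecMulVec, vecMulVec_add, vecMulVec_add]
    abel
  have hrkneg : ∀ (x y : Fin n → F), rk1 (x + (- y)) = rk1 x + rk1 y + - pl x y := by
    intro x y
    apply Subtype.ext
    show vecMulVec (x + -y) (x + -y) = vecMulVec x x + vecMulVec y y + -(vecMulVec x y + vecMulVec y x)
    rw [add_vecMulVec, vecMulVec_add, vecMulVec_add]
    ext a b
    simp [vecMulVec_apply]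
    ring
  have helmul : ∀ (i j : Fin n) (hij : i ≠ j) (b : F),
      ((el i j hij b : GL (Fin n) F) : Matrix (Fin n) (Fin n) F) *ᵥ ev i = ev i + (- (b • ev j)) := by
    intro i j hij b
    show (1 - b • Matrix.single j i (1 : F)) *ᵥ ev i = _
    have h3 : (Matrix.single j i (1 : F)) *ᵥ ev i = ev j := by
      rw [Matrix.single_mulVec]; simp [ev]; rfl
    rw [Matrix.sub_mulVec, Matrix.one_mulVec, Matrix.smul_mulVec, h3, sub_eq_add_neg]
  have key : ∀ (i j : Fin n) (hij : i ≠ j) (a : F),
      d (a • rk1 (ev j)) * d (a • pl (ev i) (ev j)) = 1 ∧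
        d (a • rk1 (ev j)) = d (a • pl (ev i) (ev j)) := by
    intro i j hij a
    set w := d (a • rk1 (ev i)) with hw
    set y := d (a • rk1 (ev j)) with hy
    set z := d (a • pl (ev i) (ev j)) with hz
    have hwne : w ≠ 0 := hdne _
    have hzz : z * d (- (a • pl (ev i) (ev j))) = 1 := by
      rw [hz, ← hdadd, add_neg_cancel, hd0]
    have h1 : y * z = 1 := by
      have h3 := hinv (el i j hij (-1)) (a • rk1 (ev i))
      rw [map_smul, cS_rk1, helmul] at h3
      have h4 : (ev i : Fin n → F) + (- ((-1 : F) • ev j)) = ev i + ev j := by simp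
      rw [h4, hrk, smul_add, smul_add, hdadd, hdadd] at h3
      have h5 : w * (y * z - 1) = 0 := by linear_combination h3
      exact sub_eq_zero.mp ((mul_eq_zero.mp h5).resolve_left hwne)
    have h2' : y * d (- (a • pl (ev i) (ev j))) = 1 := by
      have h3 := hinv (el i j hij 1) (a • rk1 (ev i))
      rw [map_smul, cS_rk1, helmul] at h3
      have h4 : (ev i : Fin n → F) + (- ((1 : F) • ev j)) = ev i + (- ev j) := by simp
      rw [h4, hrkneg, smul_add, smul_add, smul_neg, hdadd, hdadd] at h3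
      have h5 : w * (y * d (- (a • pl (ev i) (ev j))) - 1) = 0 := by linear_combination h3
      exact sub_eq_zero.mp ((mul_eq_zero.mp h5).resolve_left hwne)
    refine ⟨h1, ?_⟩
    linear_combination z * h2' - y * hzz
  have hhalf : ∀ (a : F) (B : SymM F n), d (a • B) = d (hh F • a • B) ^ 2 := by
    intro a B
    rw [pow_two, ← hdadd, ← add_smul, hh_add h2, one_smul]
  have hrk1 : ∀ (j : Fin n) (a : F), d (a • rk1 (ev j)) = 1 := by
    intro j a
    obtain ⟨i, hij⟩ : ∃ i : Fin n, i ≠ j := by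
      haveI : Nontrivial (Fin n) := Fin.nontrivial_iff_two_le.mpr hn
      exact exists_ne j
    have hsq : ∀ a : F, d (a • rk1 (ev j)) ^ 2 = 1 := by
      intro a
      obtain ⟨h3, h4⟩ := key i j hij a
      rw [← h4] at h3
      rw [pow_two]; exact h3
    rw [hhalf, smul_smul]
    exact hsq _
  have hpl : ∀ (i j : Fin n) (a : F), d (a • pl (ev i) (ev j)) = 1 := by
    intro i j a
    by_cases hij : i = j
    · subst hij
      have h3 : a • pl (ev (F := F) i) (ev i) = (a * 2) • rk1 (ev i) := by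
        apply Subtype.ext
        show a • (vecMulVec (ev i) (ev i) + vecMulVec (ev i) (ev i)) = (a * 2) • vecMulVec (ev (F := F) i) (ev i)
        rw [mul_two, add_smul, smul_add]
      rw [h3]
      exact hrk1 _ _
    · rw [← (key i j hij a).2]
      exact hrk1 j a
  have hexp : ∀ B : SymM F n, B = ∑ i, ∑ j, (hh F * B.1 i j) • pl (ev i) (ev j) := by
    intro B
    apply Subtype.ext
    ext k l
    have hB : B.1 l k = B.1 k l := congrFun (congrFun B.2 k) l
    have h3 : ((∑ i, ∑ j, (hh F * B.1 i j) • pl (ev i) (ev j) : SymM F n) : Matrix (Fin n) (Fin n) F) k l =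
        ∑ i, ∑ j, ((hh F * B.1 i j) * (ev i k * ev j l) + (hh F * B.1 i j) * (ev j k * ev i l)) := by
      simp [Matrix.sum_apply, pl, vecMulVec_apply, mul_add]
    rw [h3]
    simp only [Finset.sum_add_distrib]
    have h4 : ∑ i, ∑ j, (hh F * B.1 i j) * (ev i k * ev j l) = hh F * B.1 k l := by
      rw [Finset.sum_eq_single k, Finset.sum_eq_single l]
      · simp [ev]
      · intro j _ hj
        simp [ev, Pi.single_eq_of_ne hj.symm]
      · simp
      · intro i _ hi
        apply Finset.sum_eq_zero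
        intro j _
        simp [ev, Pi.single_eq_of_ne hi.symm]
      · simp
    have h5 : ∑ i, ∑ j, (hh F * B.1 i j) * (ev j k * ev i l) = hh F * B.1 k l := by
      rw [Finset.sum_eq_single l, Finset.sum_eq_single k]
      · simp [ev, hB]
      · intro j _ hj
        simp [ev, Pi.single_eq_of_ne hj.symm]
      · simp
      · intro i _ hi
        apply Finset.sum_eq_zero
        intro j _
        simp [ev, Pi.single_eq_of_ne hi.symm]
      · simp
    rw [h4, h5, ← add_mul, hh_add h2, one_mul]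
  let Z : AddSubmonoid (SymM F n) :=
    { carrier := {B | d B = 1}
      add_mem' := by
        intro A B hA hB
        show d (A + B) = 1
        rw [hdadd, show d A = 1 from hA, show d B = 1 from hB, one_mul]
      zero_mem' := hd0 }
  have hd1 : ∀ B : SymM F n, d B = 1 := by
    intro B
    have h3 : B ∈ Z := by
      rw [hexp B]
      exact sum_mem fun i _ => sum_mem fun j _ => hpl i j _
    exact h3
  -- the Weyl elements
  have hS : ∀ i : Fin n, ∃ c : ℂˣ, τ (sw i) = (c : ℂ) • FFs ψ i := by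
    intro i
    obtain ⟨T, hT⟩ := exists_T ψ h2 hψ (sw (F := F) i)
    let Y : Module.End ℂ (WS F n) := (T.symm : WS F n →ₗ[ℂ] WS F n) ∘ₗ FFs ψ i
    have hY : ∀ φ, Y φ = T.symm (FFs ψ i φ) := fun φ => rfl
    have hcomm : ∀ v, Y * rr ψ v = rr ψ v * Y := by
      intro v
      apply LinearMap.ext
      intro φ
      show Y (rr ψ v φ) = rr ψ v (Y φ)
      rw [hY, hY, FFs_rr ψ h2]
      apply T.injective
      rw [LinearEquiv.apply_symm_apply, hT, LinearEquiv.apply_symm_apply]
    obtain ⟨c, hc⟩ := commutant ψ h2 hψ Y hcomm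
    have hFT : ∀ φ, FFs ψ i φ = c • T φ := by
      intro φ
      have h4 := LinearMap.congr_fun hc φ
      rw [hY] at h4
      have h5 := congrArg T h4
      rw [LinearEquiv.apply_symm_apply] at h5
      rw [h5]
      show T (c • φ) = _
      rw [map_smul]
    obtain ⟨c', hc'⟩ := hτ' (sw i) T hT
    have hc0 : c ≠ 0 := by
      intro h0
      have h3 := FFs_dl0 ψ i
      rw [hFT, h0, zero_smul] at h3
      exact zero_ne_one h3
    refine ⟨c' * (Units.mk0 c hc0)⁻¹, ?_⟩
    apply LinearMap.ext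
    intro φ
    rw [hc']
    show (c' : ℂ) • T φ = ((c' * (Units.mk0 c hc0)⁻¹ : ℂˣ) : ℂ) • FFs ψ i φ
    rw [hFT, smul_smul]
    congr 1
    simp only [Units.val_mul, Units.val_inv_eq_inv_val, Units.val_mk0]
    field_simp
  choose cs hcs using hS
  refine ⟨{ τ := τ
            U := ?_
            κ := MonoidHom.toHomUnits { toFun := κ0, map_one' := hκ1, map_mul' := hκmul }
            L := ?_
            cs := cs
            S := hcs }⟩
  · intro B φ x
    rw [hU B, hd1 B, one_smul]
    show MuE ψ (-B) φ x = _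
    rw [MuE_apply]
    have h3 : qq (-B) x = - qq B x := by
      have h4 := qq_smul (-1 : F) B x
      rw [neg_one_smul F B, neg_one_mul] at h4
      exact h4
    rw [h3]
  · intro R
    rw [hL R]
    rfl

end Cfsg.Agent.Lib.WeilGap.Wt
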