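import Cfsg.Agent.Lib.WeilGap.Hom
import Cfsg.Agent.Lib.WeilGap.IrrPar
import Cfsg.Agent.Lib.WeilGap.OrbitGap
import Cfsg.Agent.Lib.WeilGap.Wt
import Cfsg.Agent.Lib.WeilGap.ClassifyAux

/-!
# Assembly of `Classify.classify`.
-/

set_option autoImplicit false
set_option linter.unusedSectionVars false
set_option linter.unusedVariables false

namespace Cfsg.Agent.Lib.WeilGap.ClassifyIns

open Module Matrix Cfsg.Agent.Lib.SpDeg.Main Cfsg.Agent.Lib.SpDeg.Odd Cfsg.Agent.Lib.Weil.Basic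
  Cfsg.Agent.Lib.Weil.Minus Cfsg.Agent.Lib.WeilGap.Defs
open scoped _root_.Classical

universe u

variable {F : Type u} [Field F] [Fintype F] {n : ℕ}

open Cfsg.Agent.Lib.WeilGap.Stab Cfsg.Agent.Lib.WeilGap.IrrPar Cfsg.Agent.Lib.WeilGap.OrbitGap

/-- Schur for the central element. -/
lemma exists_scalar {k : ℕ} (hk : 2 ≤ k) (ρ : Representation ℂ (Gp F n) (Fin k → ℂ)) (hirr : ρ.IsIrreducible) :
    ∃ c : ℂ, ρ (zI : Gp F n) = c • (1 : Module.End ℂ (Fin k → ℂ)) := by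
  haveI : Nonempty (Fin k) := ⟨⟨0, by omega⟩⟩
  obtain ⟨c, hc⟩ := Module.End.exists_eigenvalue (ρ (zI : Gp F n) : Module.End ℂ (Fin k → ℂ))
  obtain ⟨v, hv⟩ := hc.exists_hasEigenvector
  refine ⟨c, ?_⟩
  have hcomm : ∀ g : Gp F n, ρ (zI : Gp F n) * ρ g = ρ g * ρ (zI : Gp F n) := by
    intro g
    rw [← map_mul, ← map_mul, Cfsg.Agent.Lib.WeilGap.Conj.zI_comm]
  let E : Submodule ℂ (Fin k → ℂ) := Module.End.eigenspace (ρ (zI : Gp F n) : Module.End ℂ (Fin k → ℂ)) c
  let L : Subrepresentation ρ := ⟨E, fun g x hx => by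
    have hx' : ρ (zI : Gp F n) x = c • x := Module.End.mem_eigenspace_iff.mp hx
    apply Module.End.mem_eigenspace_iff.mpr
    have h1 := LinearMap.congr_fun (hcomm g) x
    simp only [Module.End.mul_apply] at h1
    rw [h1, hx', map_smul]⟩
  rcases hirr.eq_bot_or_eq_top L with h | h
  · exfalso
    have h1 : L.toSubmodule = ⊥ := congrArg Subrepresentation.toSubmodule h
    have h3 : v ∈ L.toSubmodule := hv.1
    rw [h1] at h3
    exact hv.2 (by simpa using h3)
  · have h1 : L.toSubmodule = ⊤ := congrArg Subrepresentation.toSubmodule h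
    apply LinearMap.ext
    intro x
    have h3 : x ∈ L.toSubmodule := by
      rw [h1]
      trivial
    have h4 : ρ (zI : Gp F n) x = c • x := Module.End.mem_eigenspace_iff.mp h3
    rw [h4]
    rfl

lemma zI_mul_self : (zI : Gp F n) * zI = 1 := by
  have h : ((-1 : GL (Fin n) F)) * (-1) = 1 := by simp
  have h1 := Cfsg.Agent.Lib.WeilGap.Conj.LL_mul (F := F) (n := n) (-1) (-1)
  have h3 := Cfsg.Agent.Lib.WeilGap.Conj.LL_mul (F := F) (n := n) 1 1
  rw [mul_one] at h3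
  have h4 : (LL (1 : GL (Fin n) F) : Gp F n) = 1 := by
    have h5 : (LL (1 : GL (Fin n) F) : Gp F n) * 1 = LL 1 * LL 1 := by rw [mul_one]; exact h3
    exact (mul_left_cancel h5).symm
  unfold zI
  rw [← h1, h, h4]

lemma qq_smul_right (B : SymM F n) (e : F) (x : Fin n → F) : qq B (e • x) = e * e * qq B x := by
  simp only [qq, Matrix.mulVec_smul, dotProduct_smul, smul_dotProduct, smul_eq_mul]
  ring

/-- The core case. -/
theorem core (hn : 2 ≤ n) (h2 : (2 : F) ≠ 0) (ψ₀ : AddChar F ℂ) (hψ : ψ₀ 1 ≠ 1) (b : F) (hb : b ≠ 0) (hψb : ψ₀ b ≠ 1)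
    (W : WT (F := F) (n := n) (ψ₀.mulShift b))
    {k : ℕ} (hk : 2 ≤ k) (ρ : Representation ℂ (Gp F n) (Fin k → ℂ)) (hirr : ρ.IsIrreducible) (hR : R1all ψ₀ ρ)
    (c : ℂ) (hc : ρ (zI : Gp F n) = c • (1 : Module.End ℂ (Fin k → ℂ))) (hc2 : c * c = 1)
    (u' : Fin n → F) (hu' : u' ≠ 0) (m₀ : Fin k → ℂ) (hm₀0 : m₀ ≠ 0)
    (hm₀ : ∀ B : SymM F n, ρ (UU B) m₀ = (ψ₀.mulShift b) (- qq B u') • m₀) :
    ρ.character = chiPar W 1 ∨ ρ.character = chiPar W (-1) := by
  have hψ' : (ψ₀.mulShift b) 1 ≠ 1 := by simpa [AddChar.mulShift_apply] using hψb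
  have hR' : R1all (ψ₀.mulShift b) (ρ : Gp F n →* Module.End ℂ (Fin k → ℂ)) :=
    Cfsg.Agent.Lib.WeilGap.ClassifyAux.R1all_mulShift_aux ψ₀ hψ ρ hR b hb hψb
  let i₀ : Fin n := ⟨0, by omega⟩
  obtain ⟨R, hRu⟩ := Cfsg.Agent.Lib.WeilGap.Gen.gl_trans i₀ u' hu'
  -- the weight vector
  let g : Module.Dual F (SymM F n) :=
    { toFun := fun B => - qq B u'
      map_add' := fun B B' => by rw [qq_add_left]; ring
      map_smul' := fun t B => by rw [qq_smul, smul_eq_mul, RingHom.id_apply]; ring }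
  have hm₀W : m₀ ∈ WW (ψ₀.mulShift b) ρ g := (mem_WW (ψ₀.mulShift b) ρ hψ').mpr hm₀
  have hmW := map_WW (ψ₀.mulShift b) ρ hψ' R hm₀W
  have hmW' := (mem_WW (ψ₀.mulShift b) ρ hψ').mp hmW
  let m : Fin k → ℂ := ρ (LL R⁻¹) m₀
  have hm0 : m ≠ 0 := by
    intro h0
    apply hm₀0
    exact inj_rho ρ (LL R⁻¹) (by rw [map_zero]; exact h0)
  have hRu2 : (R : Matrix (Fin n) (Fin n) F)ᵀ *ᵥ u' = ev i₀ := by
    rw [← hRu, Matrix.mulVec_mulVec, ← Matrix.transpose_mul, ← Units.val_mul, inv_mul_cancel, Units.val_one,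
      Matrix.transpose_one, Matrix.one_mulVec]
  have hm : IsM (ψ₀.mulShift b) ρ i₀ m := by
    intro B
    have h1 := hmW' B
    have h3 : g (cS (R : Matrix (Fin n) (Fin n) F) B) = - qq B (ev i₀) := by
      show - qq (cS (R : Matrix (Fin n) (Fin n) F) B) u' = _
      rw [Cfsg.Agent.Lib.WeilGap.Phi0.Phi0Aux.qq_cS, hRu2]
    have h4 : (g.comp (cS (R : Matrix (Fin n) (Fin n) F))) B = - qq B (ev i₀) := h3
    rw [h4] at h1
    exact h1
  -- the sign
  have hκ : (W.κ (-1) : ℂ) * (W.κ (-1) : ℂ) = 1 := by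
    have h1 : W.κ (-1) * W.κ (-1) = 1 := by
      rw [← map_mul]
      simp
    have := congrArg (fun z : ℂˣ => (z : ℂ)) h1
    simpa using this
  set s : ℂ := c * (W.κ (-1) : ℂ) with hs
  have hs2 : s * s = 1 := by
    rw [hs]
    linear_combination (W.κ (-1) : ℂ) * (W.κ (-1) : ℂ) * hc2 + hκ
  have hs1 : s = 1 ∨ s = -1 := by
    have : (s - 1) * (s + 1) = 0 := by linear_combination hs2
    rcases mul_eq_zero.mp this with h | h
    · left
      linear_combination h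
    · right
      linear_combination h
  have hsc : ρ (zI : Gp F n) = (s * (W.κ (-1) : ℂ)) • (1 : Module.End ℂ (Fin k → ℂ)) := by
    rw [hc, hs]
    congr 1
    linear_combination (-c) * hκ
  obtain ⟨Φ, hΦ, hΦe⟩ := Cfsg.Agent.Lib.WeilGap.Hom.exists_hom W (ρ : Gp F n →* Module.End ℂ (Fin k → ℂ)) hn h2 hψ' hR' s hs1 hsc
    i₀ m hm0 hm
  have hfin := char_eq_of_hom W hn h2 hψ' s hs1 ρ hirr Φ hΦ hΦe
  rcases hs1 with h | h
  · left
    rw [h] at hfin
    exact hfin
  · right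
    rw [h] at hfin
    exact hfin

theorem classify_aux (hn : 2 ≤ n) (h2 : (2 : F) ≠ 0) (ψ₀ : AddChar F ℂ) (hψ : ψ₀ 1 ≠ 1) (a₂ : F) (ha₂ : a₂ ≠ 0) (hns : ¬ IsSquare a₂) (hψ₂ : ψ₀ a₂ ≠ 1)
    (W₁ : WT (F := F) (n := n) (ψ₀.mulShift 1)) (W₂ : WT (F := F) (n := n) (ψ₀.mulShift a₂))
    {k : ℕ} (hk : 2 ≤ k) (ρ : Representation ℂ (Gp F n) (Fin k → ℂ)) (hirr : ρ.IsIrreducible) (hR : R1all ψ₀ ρ) :
    ρ.character = chiPar W₁ 1 ∨ ρ.character = chiPar W₁ (-1) ∨ ρ.character = chiPar W₂ 1 ∨ ρ.character = chiPar W₂ (-1) := by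
  obtain ⟨c, hc⟩ := exists_scalar hk ρ hirr
  have hc2 : c * c = 1 := by
    have h1 : ρ ((zI : Gp F n) * zI) = 1 := by rw [zI_mul_self, map_one]
    rw [map_mul, hc] at h1
    haveI : Nonempty (Fin k) := ⟨⟨0, by omega⟩⟩
    obtain ⟨v, hv⟩ := exists_ne (0 : Fin k → ℂ)
    have h3 : c • c • v = v := by
      have := LinearMap.congr_fun h1 v
      simpa using this
    have h4 : (c * c - 1) • v = 0 := by
      rw [sub_smul, one_smul, mul_smul, h3, sub_self]
    rcases smul_eq_zero.mp h4 with h | h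
    · linear_combination h
    · exact absurd h hv
  -- a nonzero weight
  have hq3 : n = 2 → 3 ≤ Nat.card F := by
    intro _
    rw [Nat.card_eq_fintype_card]
    have h3 : Fintype.card F ≠ 2 := by
      intro hc
      have h4 := (Cfsg.Agent.Lib.Classical.SympSimple.two_eq_zero_iff_even_card (F := F)).mpr (by rw [hc]; exact even_two)
      exact h2 h4
    have h5 : 2 ≤ Fintype.card F := Fintype.one_lt_card
    omega
  have hρ := Cfsg.Agent.Lib.SUDeg.Final.exists_ne_one_of_irr ρ hirr hk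
  have hsimple := Cfsg.Agent.Lib.Classical.SympSimple.isSimpleGroup_PSp (m := n) (F := F) hn hq3
  have hperf := Cfsg.Agent.Lib.Classical.SympSimple.commutator_symplecticGroup (m := n) (F := F) (by
    by_cases h : n = 2
    · exact Or.inr (Or.inl ⟨h, hq3 h⟩)
    · exact Or.inl (by omega))
  let i0 : Fin n := ⟨0, by omega⟩
  let i1 : Fin n := ⟨1, by omega⟩
  have hi : i0 ≠ i1 := by
    intro h
    have := congrArg Fin.val h
    simp [i0, i1] at this
  let a0 : SymM F n := pl (Pi.single i0 1) (Pi.single i1 1)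
  have hnot : UU a0 ∉ Subgroup.center (Matrix.symplecticGroup (Fin n) F) := by
    intro hc
    have h3 := (Cfsg.Agent.Lib.Classical.SympSimple.mem_center_symplecticGroup_iff (by omega) (UU a0)).mp hc
    have hentry : (UU a0).1 (Sum.inl i0) (Sum.inr i1) = 1 := by
      rw [UU_coe]
      simp [a0, pl, vecMulVec_apply, hi, hi.symm]
    rcases h3 with h3 | h3
    · rw [h3] at hentry
      have : (1 : Matrix.symplecticGroup (Fin n) F).1 (Sum.inl i0) (Sum.inr i1) = 0 := by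
        show (1 : Matrix _ _ F) (Sum.inl i0) (Sum.inr i1) = 0
        simp
      rw [this] at hentry
      exact zero_ne_one hentry
    · rw [h3] at hentry
      have : (Cfsg.Agent.Lib.Classical.SympSimple.negOne n F).1 (Sum.inl i0) (Sum.inr i1) = 0 := by
        show (-1 : Matrix _ _ F) (Sum.inl i0) (Sum.inr i1) = 0
        simp
      rw [this] at hentry
      exact zero_ne_one hentry
  have hU : ρ (UU a0) ≠ 1 := by
    intro h6
    have hK := Cfsg.Agent.Lib.WtSpace.Basic.eq_top_of_not_le_center hsimple hperf ρ.ker inferInstance (x := UU a0) h6 hnot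
    obtain ⟨g, hg⟩ := hρ
    apply hg
    have : g ∈ ρ.ker := by
      rw [hK]
      trivial
    exact this
  have hex2 : ∃ f : Module.Dual F (SymM F n), f ≠ 0 ∧ WW ψ₀ ρ f ≠ ⊥ := by
    by_contra hcon
    push Not at hcon
    apply hU
    apply LinearMap.ext
    intro v
    have := Cfsg.Agent.Lib.WtSpace.Basic.tau_of_zero (pp_pairing ψ₀ hψ) (tt_add ρ) (tt_zero ρ) (x₀ := (0 : Module.Dual F (SymM F n)))
      (fun x hx => hcon x hx) a0 v
    simpa [Cfsg.Agent.Lib.SpDeg.Odd.tt, Cfsg.Agent.Lib.SpDeg.Odd.pp] using this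
  obtain ⟨f, hf0, hf⟩ := hex2
  obtain ⟨u, a, hu, ha, hform⟩ := Cfsg.Agent.Lib.WeilGap.ClassifyAux.rk1_form_aux h2 f hf0 (hR f hf)
  obtain ⟨m₀, hm₀, hm₀0⟩ := Submodule.exists_mem_ne_zero_of_ne_bot hf
  have hm₀' := (mem_WW ψ₀ ρ hψ).mp hm₀
  have key : ∀ b e : F, a = b * (e * e) → ∀ B : SymM F n, ρ (UU B) m₀ = (ψ₀.mulShift b) (- qq B (e • u)) • m₀ := by
    intro b e hab B
    rw [hm₀' B, hform B, AddChar.mulShift_apply, qq_smul_right, hab]
    congr 2
    ring
  by_cases hsq : IsSquare a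
  · obtain ⟨e, he⟩ := hsq
    have he0 : e ≠ 0 := by
      rintro rfl
      exact ha (by simpa using he)
    have hψ1 : ψ₀ (1 : F) ≠ 1 := hψ
    rcases core hn h2 ψ₀ hψ 1 one_ne_zero hψ1 W₁ hk ρ hirr hR c hc hc2 (e • u) (smul_ne_zero he0 hu) m₀ hm₀0
      (key 1 e (by rw [one_mul]; exact he)) with h | h
    · exact Or.inl h
    · exact Or.inr (Or.inl h)
  · have hch : ringChar F ≠ 2 := by
      intro h
      apply h2
      have := ringChar.Nat.cast_ringChar (R := F)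
      rw [h] at this
      exact_mod_cast this
    have h1 : quadraticChar F a = -1 := quadraticChar_neg_one_iff_not_isSquare.mpr hsq
    have h3 : quadraticChar F a₂ = -1 := quadraticChar_neg_one_iff_not_isSquare.mpr hns
    have h4 : quadraticChar F (a / a₂) = 1 := by
      have h5 : a = (a / a₂) * a₂ := by field_simp
      have h6 := congrArg (quadraticChar F) h5
      rw [map_mul, h1, h3] at h6
      linarith
    have hne : a / a₂ ≠ 0 := div_ne_zero ha ha₂
    obtain ⟨e, he⟩ := (quadraticChar_one_iff_isSquare hne).mp h4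
    have he0 : e ≠ 0 := by
      rintro rfl
      exact hne (by simpa using he)
    have hab : a = a₂ * (e * e) := by
      rw [← he]
      field_simp
    rcases core hn h2 ψ₀ hψ a₂ ha₂ hψ₂ W₂ hk ρ hirr hR c hc hc2 (e • u) (smul_ne_zero he0 hu) m₀ hm₀0
      (key a₂ e hab) with h | h
    · exact Or.inr (Or.inr (Or.inl h))
    · exact Or.inr (Or.inr (Or.inr h))

end Cfsg.Agent.Lib.WeilGap.ClassifyIns
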