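import Cfsg.Agent.Lib.WeilGap.Hom
import Cfsg.Agent.Lib.WeilGap.IrrPar
import Cfsg.Agent.Lib.WeilGap.OrbitGap
import Cfsg.Agent.Lib.WeilGap.Wt
import Cfsg.Agent.Lib.WeilGap.ClassifyAux
import Cfsg.Agent.Lib.WeilGap.ClassifyIns

/-!
# [CLASSIFY] Irreducibles with only rank-one weights.
PAPER PROOF of `classify`. `ρ` irreducible on `Fin k → ℂ`, `k ≥ 2`, `R1all ψ₀ ρ`, `ψ₀ 1 ≠ 1`.
(1) `ρ zI` is scalar `c`, `c² = 1` (Schur; `zI` central `Conj.zI_comm`, `zI * zI = 1`). `κ_i (-1)² = 1`. `s := c * κ(-1)` has `s = ±1`.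
(2) A nonzero weight `f ≠ 0` occurs: else by `WtSpace.Basic.sum_ee`-decomposition `ρ (UU B) = 1` for all `B`, and as in `SpDeg.Odd.final` (`SUDeg.Final.exists_ne_one_of_irr`, `WtSpace.Basic.eq_top_of_not_le_center`) `ρ = 1`, contra `k ≥ 2`.
(3) `rk1_form`: `R1 f`, `f ≠ 0` gives `x` with `δ := f (rk1 x) ≠ 0` (`SpDeg.Odd.exists_qfo_ne`); `ℓ y := f (pl x y)/(2δ)` is linear with `f (rk1 y) = δ (ℓ y)²`, `ℓ y = u ⬝ᵥ y`; `rk1` spans `SymM`: `f B = δ (u ⬝ᵥ B *ᵥ u) = -a * qq B u`, `a = -2δ`.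
(4) either `a` or `a / a₂` is a square (`a₂ = exists_nonsquare`: `ψ₀ a₂ ≠ 1`, `¬ IsSquare a₂`: `b` nonsquare, if `ψ₀ (b c²) = 1` ∀c then since `b⁻¹ = y² - z²`, `ψ₀ 1 = 1`). `a = a_i c²`, `a_1 = 1`. So `ρ (UU B) m₀ = ψ_i (-qq B (c • u)) • m₀`, `ψ_i = ψ₀.mulShift a_i`.
(5) `R1all_mulShift`: nonzero `v ∈ WW (ψ₀.mulShift a) ρ f` is in `WW ψ₀ ρ (a • f)`; `R1 (a • f) ↔ R1 f`.
(6) `Gen.gl_trans`: `R⁻ᵀ e_{i₀} = c • u`; `m := ρ (LL R⁻¹) m₀` satisfies `IsM ψ_i ρ i₀ m` (`SpDeg.Odd.map_WW`). `Hom.exists_hom` + `IrrPar.char_eq_of_hom` (with `V = Fin k → ℂ`, `ρ` as a monoid hom into `Module.End`).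
Output: `ρ.character = chiPar W s`, for `W = W₁` or `W₂`, `s = ±1`.
-/

set_option autoImplicit false
set_option linter.unusedSectionVars false
set_option linter.unusedVariables false

namespace Cfsg.Agent.Lib.WeilGap.Classify

open Module Matrix Cfsg.Agent.Lib.SpDeg.Main Cfsg.Agent.Lib.SpDeg.Odd Cfsg.Agent.Lib.Weil.Basic
  Cfsg.Agent.Lib.Weil.Minus Cfsg.Agent.Lib.WeilGap.Defs
open scoped _root_.Classical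

universe u

variable {F : Type u} [Field F] [Fintype F] {n : ℕ}

open Cfsg.Agent.Lib.WeilGap.Stab Cfsg.Agent.Lib.WeilGap.IrrPar Cfsg.Agent.Lib.WeilGap.OrbitGap

theorem exists_nonsquare (h2 : (2 : F) ≠ 0) (ψ₀ : AddChar F ℂ) (hψ : ψ₀ 1 ≠ 1) : ∃ a₂ : F, a₂ ≠ 0 ∧ ¬ IsSquare a₂ ∧ ψ₀ a₂ ≠ 1 :=
  Cfsg.Agent.Lib.WeilGap.ClassifyAux.exists_nonsquare_aux h2 ψ₀ hψ

theorem R1all_mulShift {V : Type*} [AddCommGroup V] [Module ℂ V] [FiniteDimensional ℂ V] (ψ₀ : AddChar F ℂ) (hψ₀ : ψ₀ 1 ≠ 1)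
    (ρ : Gp F n →* Module.End ℂ V) (hR : R1all ψ₀ ρ) (a : F) (ha : a ≠ 0) (hψ : ψ₀ a ≠ 1) : R1all (ψ₀.mulShift a) ρ :=
  Cfsg.Agent.Lib.WeilGap.ClassifyAux.R1all_mulShift_aux ψ₀ hψ₀ ρ hR a ha hψ

theorem rk1_form (h2 : (2 : F) ≠ 0) (f : Module.Dual F (SymM F n)) (hf : f ≠ 0) (hR : R1 f) :
    ∃ (u : Fin n → F) (a : F), u ≠ 0 ∧ a ≠ 0 ∧ ∀ B : SymM F n, f B = - (a * qq B u) :=
  Cfsg.Agent.Lib.WeilGap.ClassifyAux.rk1_form_aux h2 f hf hR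

theorem classify (hn : 2 ≤ n) (h2 : (2 : F) ≠ 0) (ψ₀ : AddChar F ℂ) (hψ : ψ₀ 1 ≠ 1) (a₂ : F) (ha₂ : a₂ ≠ 0) (hns : ¬ IsSquare a₂) (hψ₂ : ψ₀ a₂ ≠ 1)
    (W₁ : WT (F := F) (n := n) (ψ₀.mulShift 1)) (W₂ : WT (F := F) (n := n) (ψ₀.mulShift a₂))
    {k : ℕ} (hk : 2 ≤ k) (ρ : Representation ℂ (Gp F n) (Fin k → ℂ)) (hirr : ρ.IsIrreducible) (hR : R1all ψ₀ ρ) :
    ρ.character = chiPar W₁ 1 ∨ ρ.character = chiPar W₁ (-1) ∨ ρ.character = chiPar W₂ 1 ∨ ρ.character = chiPar W₂ (-1) :=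
  Cfsg.Agent.Lib.WeilGap.ClassifyIns.classify_aux hn h2 ψ₀ hψ a₂ ha₂ hns hψ₂ W₁ W₂ hk ρ hirr hR


end Cfsg.Agent.Lib.WeilGap.Classify
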