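import Cfsg.Agent.Lib.WeilGap.ConjAux

/-!
# [CONJ] Matrix identities in `Sp_{2n}`. All are block computations: on the coordinate `i` (rows/columns `inl i, inr i`)
`UU (a • rk1 (ev i))` is `[[1,a],[0,1]]`, `sw i` is `[[0,-1],[1,0]]`, `D i d` is `[[1,0],[-d,1]]`,
`LL (dg i t)` is `[[t,0],[0,1/t]]`; elsewhere they are the identity.  Prove by `Subtype.ext`, `ext` on the 4 blocks
(`fromBlocks_multiply`), or compare the action on vectors (`Matrix.mulVec` injective).
`sw i⁻¹` is `fromBlocks (1 - E) E (-E) (1 - E)`; it may help to prove `sw_inv` first.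
-/

set_option autoImplicit false
set_option linter.unusedSectionVars false
set_option linter.unusedVariables false

namespace Cfsg.Agent.Lib.WeilGap.Conj

open Module Matrix Cfsg.Agent.Lib.SpDeg.Main Cfsg.Agent.Lib.SpDeg.Odd Cfsg.Agent.Lib.Weil.Basic
  Cfsg.Agent.Lib.Weil.Minus Cfsg.Agent.Lib.WeilGap.Defs 
open scoped _root_.Classical

universe u

variable {F : Type u} [Field F] [Fintype F] {n : ℕ}

/-- The inverse of `sw i`. -/
theorem sw_inv_coe (i : Fin n) : (((sw i)⁻¹ : Gp F n) : Matrix (Fin n ⊕ Fin n) (Fin n ⊕ Fin n) F) =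
    fromBlocks (1 - Eii i) (Eii i) (- Eii i) (1 - Eii i) := ConjAux.sw_inv_coe i

theorem sw_UU_comm (i : Fin n) (B : SymM F n) (hB : ∀ k, B.1 i k = 0) : sw i * UU B = UU B * sw i := ConjAux.sw_UU_comm i B hB

theorem sw_comm (i j : Fin n) : sw (F := F) i * sw j = sw j * sw i := ConjAux.sw_comm i j

theorem sw_pl (i j : Fin n) (hij : i ≠ j) (b : F) :
    sw i * UU (b • pl (ev i) (ev j)) = LL (el i j hij b) * sw i := ConjAux.sw_pl i j hij b

theorem UU_pl_sw (i j : Fin n) (hij : i ≠ j) (b : F) :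
    UU (b • pl (ev i) (ev j)) * sw i = sw i * LL (el i j hij (-b)) := ConjAux.UU_pl_sw i j hij b

theorem sw_sq (i : Fin n) : sw (F := F) i * sw i = LL (dg i (-1)) := ConjAux.sw_sq i

theorem sw_eq (i : Fin n) : sw (F := F) i = UU (-(rk1 (ev i))) * D i (-1) * UU (-(rk1 (ev i))) := ConjAux.sw_eq ConjAux.sw_inv_coe i

theorem dg_eq (i : Fin n) (t : Fˣ) :
    LL (dg i t) = UU ((-(t : F)) • rk1 (ev i)) * D i (-((t⁻¹ : Fˣ) : F)) * UU ((-(t : F)) • rk1 (ev i)) * (sw i)⁻¹ := ConjAux.dg_eq ConjAux.sw_inv_coe i t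

/-- `-1` is central. -/
theorem zI_comm (g : Gp F n) : zI * g = g * zI := ConjAux.zI_comm g

theorem LL_mul (R R' : GL (Fin n) F) : LL (R * R') = LL R * LL R' := ConjAux.LL_mul R R'

end Cfsg.Agent.Lib.WeilGap.Conj
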