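import Cfsg.Agent.Lib.WeilGap.Defs

set_option autoImplicit false
set_option linter.unusedSectionVars false
set_option linter.unusedVariables false

namespace Cfsg.Agent.Lib.WeilGap.ConjAux

open Module Matrix Cfsg.Agent.Lib.SpDeg.Main Cfsg.Agent.Lib.SpDeg.Odd Cfsg.Agent.Lib.Weil.Basic
  Cfsg.Agent.Lib.Weil.Minus Cfsg.Agent.Lib.WeilGap.Defs
open scoped _root_.Classical

universe u

variable {F : Type u} [Field F] [Fintype F] {n : ℕ}

theorem zI_coe : ((zI : Gp F n) : Matrix (Fin n ⊕ Fin n) (Fin n ⊕ Fin n) F) = -1 := by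
  show fromBlocks (((-1 : GL (Fin n) F)) : Matrix (Fin n) (Fin n) F) 0 0
    (((-1 : GL (Fin n) F)⁻¹ : GL (Fin n) F) : Matrix (Fin n) (Fin n) F)ᵀ = -1
  have h : ((-1 : GL (Fin n) F)⁻¹ : GL (Fin n) F) = -1 := by simp
  rw [h]
  simp only [Units.val_neg, Units.val_one, transpose_neg, transpose_one]
  rw [← Matrix.fromBlocks_one, Matrix.fromBlocks_neg]
  simp

theorem zI_comm (g : Gp F n) : zI * g = g * zI := by
  apply Subtype.ext
  show ((zI : Gp F n) : Matrix (Fin n ⊕ Fin n) (Fin n ⊕ Fin n) F) * (g : Matrix _ _ F) =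
    (g : Matrix _ _ F) * ((zI : Gp F n) : Matrix (Fin n ⊕ Fin n) (Fin n ⊕ Fin n) F)
  rw [zI_coe]
  simp

theorem LL_mul (R R' : GL (Fin n) F) : LL (R * R') = LL R * LL R' := by
  apply Subtype.ext
  show fromBlocks ((R * R' : GL (Fin n) F) : Matrix (Fin n) (Fin n) F) 0 0
      (((R * R')⁻¹ : GL (Fin n) F) : Matrix (Fin n) (Fin n) F)ᵀ =
    fromBlocks (R : Matrix (Fin n) (Fin n) F) 0 0 ((R⁻¹ : GL (Fin n) F) : Matrix (Fin n) (Fin n) F)ᵀ *
      fromBlocks (R' : Matrix (Fin n) (Fin n) F) 0 0 ((R'⁻¹ : GL (Fin n) F) : Matrix (Fin n) (Fin n) F)ᵀ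
  rw [fromBlocks_multiply, _root_.mul_inv_rev, Units.val_mul, Units.val_mul, transpose_mul]
  simp

theorem rk1_ev_coe (i : Fin n) : (rk1 (ev (F := F) i)).1 = Eii i := by
  ext a b
  show vecMulVec (ev (F := F) i) (ev i) a b = Matrix.single i i (1 : F) a b
  by_cases ha : a = i
  · by_cases hb : b = i
    · subst ha; subst hb; simp [vecMulVec_apply, ev]
    · subst ha; simp [vecMulVec_apply, ev, Matrix.single_apply, Pi.single_apply, hb, Ne.symm hb]
  · simp [vecMulVec_apply, ev, Matrix.single_apply, Pi.single_apply, ha, Ne.symm ha]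

theorem smul_rk1_ev_coe (i : Fin n) (d : F) : (d • rk1 (ev (F := F) i)).1 = d • Eii i := by
  show d • (rk1 (ev (F := F) i)).1 = d • Eii i
  rw [rk1_ev_coe]

/-- The matrix of `D i d`, given the matrix of the inverse of `sw i`. -/
theorem D_coe (hinv : ∀ i : Fin n, (((sw i)⁻¹ : Gp F n) : Matrix (Fin n ⊕ Fin n) (Fin n ⊕ Fin n) F) =
    fromBlocks (1 - Eii i) (Eii i) (- Eii i) (1 - Eii i)) (i : Fin n) (d : F) :
    ((D i d : Gp F n) : Matrix (Fin n ⊕ Fin n) (Fin n ⊕ Fin n) F) = fromBlocks 1 0 (-(d • Eii i)) 1 := by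
  have h := Eii_mul_self (F := F) i
  show (swM i * fromBlocks 1 (d • rk1 (ev (F := F) i)).1 0 1) * (((sw i)⁻¹ : Gp F n) : Matrix (Fin n ⊕ Fin n) (Fin n ⊕ Fin n) F) = _
  rw [hinv, smul_rk1_ev_coe, swM, fromBlocks_multiply, fromBlocks_multiply]
  congr 1 <;> simp [Matrix.sub_mul, Matrix.mul_sub, h, Matrix.add_mul, Matrix.mul_add, Matrix.smul_mul, Matrix.mul_smul]

theorem sw_eq (hinv : ∀ i : Fin n, (((sw i)⁻¹ : Gp F n) : Matrix (Fin n ⊕ Fin n) (Fin n ⊕ Fin n) F) =
    fromBlocks (1 - Eii i) (Eii i) (- Eii i) (1 - Eii i)) (i : Fin n) :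
    sw (F := F) i = UU (-(rk1 (ev i))) * D i (-1) * UU (-(rk1 (ev i))) := by
  have h := Eii_mul_self (F := F) i
  apply Subtype.ext
  show swM i = (fromBlocks 1 (-(rk1 (ev (F := F) i))).1 0 1 * ((D i (-1) : Gp F n) : Matrix (Fin n ⊕ Fin n) (Fin n ⊕ Fin n) F)) *
    fromBlocks 1 (-(rk1 (ev (F := F) i))).1 0 1
  have hn : (-(rk1 (ev (F := F) i))).1 = - Eii i := by
    show - (rk1 (ev (F := F) i)).1 = - Eii i
    rw [rk1_ev_coe]
  rw [D_coe hinv, hn, swM, fromBlocks_multiply, fromBlocks_multiply]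
  congr 1 <;> simp [Matrix.sub_mul, Matrix.mul_sub, h, Matrix.add_mul, Matrix.mul_add, Matrix.smul_mul, Matrix.mul_smul] <;> abel

theorem dg_diag (i : Fin n) (t : F) : Matrix.diagonal (Function.update 1 i t) = (1 - Eii i) + t • Eii (F := F) i := by
  ext a b
  by_cases hab : a = b
  · subst hab
    by_cases ha : a = i
    · subst ha; simp [Eii]
    · simp [Eii, Matrix.single_apply, Function.update_of_ne ha, ha, Ne.symm ha]
  · have h1 : ¬ (i = a ∧ i = b) := fun h => hab (h.1.symm.trans h.2)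
    simp [Eii, Matrix.single_apply, hab, h1, Matrix.one_apply]

theorem dg_eq (hinv : ∀ i : Fin n, (((sw i)⁻¹ : Gp F n) : Matrix (Fin n ⊕ Fin n) (Fin n ⊕ Fin n) F) =
    fromBlocks (1 - Eii i) (Eii i) (- Eii i) (1 - Eii i)) (i : Fin n) (t : Fˣ) :
    LL (dg i t) = UU ((-(t : F)) • rk1 (ev i)) * D i (-((t⁻¹ : Fˣ) : F)) * UU ((-(t : F)) • rk1 (ev i)) * (sw i)⁻¹ := by
  have h := Eii_mul_self (F := F) i
  set s : F := ((t⁻¹ : Fˣ) : F) with hs
  have hts : (t : F) * s = 1 := by rw [hs, ← Units.val_mul, mul_inv_cancel, Units.val_one]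
  have hst : s * (t : F) = 1 := by rw [mul_comm]; exact hts
  apply Subtype.ext
  show fromBlocks (Matrix.diagonal (Function.update 1 i (t : F))) 0 0
      (Matrix.diagonal (Function.update 1 i s))ᵀ =
    ((fromBlocks 1 ((-(t : F)) • rk1 (ev (F := F) i)).1 0 1 * ((D i (-s) : Gp F n) : Matrix (Fin n ⊕ Fin n) (Fin n ⊕ Fin n) F)) *
      fromBlocks 1 ((-(t : F)) • rk1 (ev (F := F) i)).1 0 1) * (((sw i)⁻¹ : Gp F n) : Matrix (Fin n ⊕ Fin n) (Fin n ⊕ Fin n) F)
  rw [hinv, D_coe hinv, smul_rk1_ev_coe, dg_diag, dg_diag, fromBlocks_multiply, fromBlocks_multiply, fromBlocks_multiply]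
  have hT : (Eii (F := F) i)ᵀ = Eii i := Eii_transpose i
  simp only [transpose_add, transpose_sub, transpose_one, transpose_smul, hT]
  congr 1 <;> simp [Matrix.sub_mul, Matrix.mul_sub, h, Matrix.add_mul, Matrix.mul_add, Matrix.smul_mul, Matrix.mul_smul, smul_smul, hts, hst] <;> abel


theorem swM_sq (i : Fin n) : swM (F := F) i * swM i = fromBlocks ((1 - Eii i) - Eii i) 0 0 ((1 - Eii i) - Eii i) := by
  have h := Eii_mul_self (F := F) i
  rw [swM, fromBlocks_multiply]
  congr 1 <;> simp [Matrix.sub_mul, Matrix.mul_sub, h] <;> abel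

theorem sw_inv_coe (i : Fin n) : (((sw i)⁻¹ : Gp F n) : Matrix (Fin n ⊕ Fin n) (Fin n ⊕ Fin n) F) =
    fromBlocks (1 - Eii i) (Eii i) (- Eii i) (1 - Eii i) := by
  have h := Eii_mul_self (F := F) i
  have hc : swM (F := F) i * swM i * swM i = fromBlocks (1 - Eii i) (Eii i) (- Eii i) (1 - Eii i) := by
    rw [swM_sq, swM, fromBlocks_multiply]
    congr 1 <;> simp [Matrix.sub_mul, Matrix.mul_sub, h] <;> abel
  have h4 : sw (F := F) i * (sw i * sw i * sw i) = 1 := by
    apply Subtype.ext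
    show swM (F := F) i * (swM i * swM i * swM i) = 1
    rw [hc, swM, fromBlocks_multiply, ← Matrix.fromBlocks_one]
    congr 1 <;> simp [Matrix.sub_mul, Matrix.mul_sub, h]
  rw [inv_eq_of_mul_eq_one_right h4]
  exact hc

theorem Eii_mul_zero (i : Fin n) (B : SymM F n) (hB : ∀ k, B.1 i k = 0) : Eii i * B.1 = 0 := by
  ext a b
  by_cases ha : i = a
  · subst ha; simp [Eii, Matrix.mul_apply, Matrix.single_apply, hB]
  · simp [Eii, Matrix.mul_apply, Matrix.single_apply, ha]

theorem mul_Eii_zero (i : Fin n) (B : SymM F n) (hB : ∀ k, B.1 i k = 0) : B.1 * Eii i = 0 := by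
  have h1 : (B.1)ᵀ = B.1 := B.2
  have := congrArg Matrix.transpose (Eii_mul_zero i B hB)
  rw [Matrix.transpose_mul, h1, Eii_transpose, Matrix.transpose_zero] at this
  exact this

theorem sw_UU_comm (i : Fin n) (B : SymM F n) (hB : ∀ k, B.1 i k = 0) : sw i * UU B = UU B * sw i := by
  have h1 := Eii_mul_zero i B hB
  have h2 := mul_Eii_zero i B hB
  apply Subtype.ext
  show swM (F := F) i * fromBlocks 1 B.1 0 1 = fromBlocks 1 B.1 0 1 * swM i
  rw [swM, fromBlocks_multiply, fromBlocks_multiply]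
  congr 1 <;> simp [Matrix.sub_mul, Matrix.mul_sub, h1, h2] <;> abel

theorem sw_comm (i j : Fin n) : sw (F := F) i * sw j = sw j * sw i := by
  by_cases hij : i = j
  · subst hij; rfl
  have h1 : Eii (F := F) i * Eii j = 0 := by
    rw [Eii, Eii, Matrix.single_mul_single_of_ne (h := hij)]
  have h2 : Eii (F := F) j * Eii i = 0 := by
    rw [Eii, Eii, Matrix.single_mul_single_of_ne (h := Ne.symm hij)]
  apply Subtype.ext
  show swM (F := F) i * swM j = swM j * swM i
  rw [swM, swM, fromBlocks_multiply, fromBlocks_multiply]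
  congr 1 <;> simp [Matrix.sub_mul, Matrix.mul_sub, h1, h2] <;> abel

theorem vmv_ev (i j : Fin n) : vecMulVec (ev (F := F) i) (ev j) = Matrix.single i j (1 : F) := by
  ext a c
  by_cases ha : a = i
  · by_cases hc : c = j
    · subst ha; subst hc; simp [vecMulVec_apply, ev]
    · subst ha; simp [vecMulVec_apply, ev, Matrix.single_apply, Pi.single_apply, hc, Ne.symm hc]
  · simp [vecMulVec_apply, ev, Matrix.single_apply, Pi.single_apply, ha, Ne.symm ha]

theorem pl_ev_coe (i j : Fin n) (b : F) :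
    (b • pl (ev (F := F) i) (ev j)).1 = b • (Matrix.single i j (1 : F) + Matrix.single j i 1) := by
  show b • (vecMulVec (ev (F := F) i) (ev j) + vecMulVec (ev (F := F) j) (ev i)) = _
  rw [vmv_ev, vmv_ev]

theorem sw_sq (i : Fin n) : sw (F := F) i * sw i = LL (dg i (-1)) := by
  apply Subtype.ext
  show swM (F := F) i * swM i = fromBlocks (Matrix.diagonal (Function.update 1 i (((-1 : Fˣ)) : F))) 0 0
      (Matrix.diagonal (Function.update 1 i (((-1 : Fˣ)⁻¹ : Fˣ) : F)))ᵀ
  rw [swM_sq, dg_diag, dg_diag]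
  have hT : (Eii (F := F) i)ᵀ = Eii i := Eii_transpose i
  simp only [transpose_add, transpose_sub, transpose_one, transpose_smul, hT]
  simp [sub_eq_add_neg]

theorem sw_pl (i j : Fin n) (hij : i ≠ j) (b : F) :
    sw i * UU (b • pl (ev i) (ev j)) = LL (el i j hij b) * sw i := by
  have hE := Eii_mul_self (F := F) i
  have e1 : Eii (F := F) i * Matrix.single i j (1 : F) = Matrix.single i j 1 := by
    rw [Eii, Matrix.single_mul_single_same, one_mul]
  have e2 : Eii (F := F) i * Matrix.single j i (1 : F) = 0 := by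
    rw [Eii, Matrix.single_mul_single_of_ne (h := hij)]
  have e3 : Matrix.single i j (1 : F) * Eii i = 0 := by
    rw [Eii, Matrix.single_mul_single_of_ne (h := Ne.symm hij)]
  have e4 : Matrix.single j i (1 : F) * Eii i = Matrix.single j i 1 := by
    rw [Eii, Matrix.single_mul_single_same, one_mul]
  apply Subtype.ext
  show swM (F := F) i * fromBlocks 1 (b • pl (ev (F := F) i) (ev j)).1 0 1 =
    fromBlocks (1 - b • Matrix.single j i 1) 0 0 (1 + b • Matrix.single j i (1 : F))ᵀ * swM i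
  rw [pl_ev_coe, swM, fromBlocks_multiply, fromBlocks_multiply]
  simp only [transpose_add, transpose_one, transpose_smul, Matrix.transpose_single]
  generalize Matrix.single i j (1 : F) = A at e1 e3 ⊢
  generalize Matrix.single j i (1 : F) = A' at e2 e4 ⊢
  congr 1 <;> simp [Matrix.sub_mul, Matrix.mul_sub, Matrix.add_mul, Matrix.mul_add, Matrix.smul_mul, Matrix.mul_smul, hE, e1, e2, e3, e4] <;> abel

theorem UU_pl_sw (i j : Fin n) (hij : i ≠ j) (b : F) :
    UU (b • pl (ev i) (ev j)) * sw i = sw i * LL (el i j hij (-b)) := by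
  have hE := Eii_mul_self (F := F) i
  have e1 : Eii (F := F) i * Matrix.single i j (1 : F) = Matrix.single i j 1 := by
    rw [Eii, Matrix.single_mul_single_same, one_mul]
  have e2 : Eii (F := F) i * Matrix.single j i (1 : F) = 0 := by
    rw [Eii, Matrix.single_mul_single_of_ne (h := hij)]
  have e3 : Matrix.single i j (1 : F) * Eii i = 0 := by
    rw [Eii, Matrix.single_mul_single_of_ne (h := Ne.symm hij)]
  have e4 : Matrix.single j i (1 : F) * Eii i = Matrix.single j i 1 := by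
    rw [Eii, Matrix.single_mul_single_same, one_mul]
  apply Subtype.ext
  show fromBlocks 1 (b • pl (ev (F := F) i) (ev j)).1 0 1 * swM (F := F) i =
    swM i * fromBlocks (1 - (-b) • Matrix.single j i 1) 0 0 (1 + (-b) • Matrix.single j i (1 : F))ᵀ
  rw [pl_ev_coe, swM, fromBlocks_multiply, fromBlocks_multiply]
  simp only [transpose_add, transpose_one, transpose_smul, Matrix.transpose_single]
  generalize Matrix.single i j (1 : F) = A at e1 e3 ⊢
  generalize Matrix.single j i (1 : F) = A' at e2 e4 ⊢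
  congr 1 <;> simp [Matrix.sub_mul, Matrix.mul_sub, Matrix.add_mul, Matrix.mul_add, Matrix.smul_mul, Matrix.mul_smul, hE, e1, e2, e3, e4] <;> abel

end Cfsg.Agent.Lib.WeilGap.ConjAux
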