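import Cfsg.Agent.Lib.SpDeg.Odd
import Cfsg.Agent.Lib.Weil.Final

/-!
# S2524: the gap above the Weil characters of `Sp_{2n}(q)`, `q` odd. Definitions.

`G = Sp_{2n}(F)`, `UU B` (Siegel radical), `LL R` (Levi), `sw i` (Weyl element at coordinate `i`),
`el i j b = 1 - b E_{j i}`, `dg i t = diag(t at i)`, `D i d = sw i * UU (d • rk1 (ev i)) * (sw i)⁻¹`.

See `PLAN` in the forum topic S2524.
-/

set_option autoImplicit false
set_option linter.unusedSectionVars false
set_option linter.unusedVariables false

namespace Cfsg.Agent.Lib.WeilGap.Defs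

open Module Matrix Cfsg.Agent.Lib.SpDeg.Main Cfsg.Agent.Lib.SpDeg.Odd Cfsg.Agent.Lib.Weil.Basic
  Cfsg.Agent.Lib.Weil.Minus
open scoped _root_.Classical

universe u

variable {F : Type u} [Field F] [Fintype F] {n : ℕ}

/-- The symplectic group. -/
abbrev Gp (F : Type u) [Field F] [Fintype F] (n : ℕ) := Matrix.symplecticGroup (Fin n) F

/-- The unit vector. -/
noncomputable def ev (i : Fin n) : Fin n → F := Pi.single i 1

/-- The idempotent `E_ii`. -/
noncomputable def Eii (i : Fin n) : Matrix (Fin n) (Fin n) F := Matrix.single i i 1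

lemma Eii_mul_self (i : Fin n) : Eii (F := F) i * Eii i = Eii i := by
  simp [Eii, Matrix.single_mul_single_same]

lemma Eii_transpose (i : Fin n) : (Eii (F := F) i)ᵀ = Eii i := by
  simp [Eii, Matrix.transpose_single]

/-- The matrix of the Weyl element at `i`: on the coordinate `i` it is `(a, b) ↦ (-b, a)`. -/
noncomputable def swM (i : Fin n) : Matrix (Fin n ⊕ Fin n) (Fin n ⊕ Fin n) F :=
  fromBlocks (1 - Eii i) (- Eii i) (Eii i) (1 - Eii i)

lemma swM_mem (i : Fin n) : swM (F := F) i ∈ Matrix.symplecticGroup (Fin n) F := by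
  rw [SymplecticGroup.mem_iff, Matrix.J, swM, fromBlocks_transpose, fromBlocks_multiply, fromBlocks_multiply]
  have h := Eii_mul_self (F := F) i
  have ht := Eii_transpose (F := F) i
  simp only [transpose_sub, transpose_one, ht, transpose_neg]
  ext a b
  simp only [fromBlocks, Matrix.of_apply]
  rcases a with a | a <;> rcases b with b | b <;>
    (simp [Matrix.sub_mul, Matrix.mul_sub, h, Matrix.add_mul, Matrix.mul_add] <;> ring)

/-- The Weyl element at `i`. -/
noncomputable def sw (i : Fin n) : Gp F n := ⟨swM i, swM_mem i⟩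

/-- The elementary matrix `1 - b E_{j i}`, `i ≠ j`, as an element of `GL`. -/
noncomputable def el (i j : Fin n) (hij : i ≠ j) (b : F) : GL (Fin n) F where
  val := 1 - b • Matrix.single j i 1
  inv := 1 + b • Matrix.single j i 1
  val_inv := by
    have h0 : (b • Matrix.single j i (1 : F)) * (b • Matrix.single j i 1) = 0 := by
      rw [smul_mul_assoc, mul_smul_comm, Matrix.single_mul_single_of_ne (h := hij)]
      simp
    rw [sub_mul, one_mul, mul_add, mul_one, h0]
    abel
  inv_val := by
    have h0 : (b • Matrix.single j i (1 : F)) * (b • Matrix.single j i 1) = 0 := by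
      rw [smul_mul_assoc, mul_smul_comm, Matrix.single_mul_single_of_ne (h := hij)]
      simp
    rw [add_mul, one_mul, mul_sub, mul_one, h0]
    abel

/-- The diagonal matrix with `t` at `i` and `1` elsewhere. -/
noncomputable def dg (i : Fin n) (t : Fˣ) : GL (Fin n) F where
  val := Matrix.diagonal (Function.update 1 i (t : F))
  inv := Matrix.diagonal (Function.update 1 i ((t⁻¹ : Fˣ) : F))
  val_inv := by
    rw [Matrix.diagonal_mul_diagonal, ← Matrix.diagonal_one]
    congr 1
    funext k
    by_cases h : k = i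
    · subst h; simp
    · simp [Function.update_of_ne h]
  inv_val := by
    rw [Matrix.diagonal_mul_diagonal, ← Matrix.diagonal_one]
    congr 1
    funext k
    by_cases h : k = i
    · subst h; simp
    · simp [Function.update_of_ne h]

/-- The opposite long root element at `i`. -/
noncomputable def D (i : Fin n) (d : F) : Gp F n := sw i * UU (d • rk1 (ev i)) * (sw i)⁻¹

/-- A weight of rank at most one. -/
def R1 (f : Module.Dual F (SymM F n)) : Prop :=
  ∀ x y : Fin n → F, 4 * f (rk1 x) * f (rk1 y) = f (pl x y) ^ 2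

/-- All the weights of `ρ` (for the radical, with respect to `ψ`) have rank at most one. -/
def R1all {V : Type*} [AddCommGroup V] [Module ℂ V] [FiniteDimensional ℂ V] (ψ : AddChar F ℂ)
    (ρ : Gp F n →* Module.End ℂ V) : Prop :=
  ∀ f : Module.Dual F (SymM F n), WW ψ ρ f ≠ ⊥ → R1 f

/-- The partial Fourier transform at the coordinate `i`. -/
noncomputable def FFs (ψ : AddChar F ℂ) (i : Fin n) : Module.End ℂ (WS F n) where
  toFun φ := fun x => ∑ t : F, ψ (t * x i) * φ (Function.update x i t)
  map_add' φ φ' := by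
    funext x
    simp [mul_add, Finset.sum_add_distrib]
  map_smul' c φ := by
    funext x
    simp [Finset.mul_sum, mul_left_comm]

lemma FFs_apply (ψ : AddChar F ℂ) (i : Fin n) (φ : WS F n) (x : Fin n → F) :
    FFs ψ i φ x = ∑ t : F, ψ (t * x i) * φ (Function.update x i t) := rfl

/-- The `s`-parity functions. -/
def Par (F : Type u) [Field F] [Fintype F] (n : ℕ) (s : ℂ) : Submodule ℂ (WS F n) where
  carrier := {φ | ∀ x, φ (-x) = s * φ x}
  add_mem' := by
    intro a b ha hb x
    simp only [Pi.add_apply, ha x, hb x]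
    ring
  zero_mem' := by
    intro x
    simp
  smul_mem' := by
    intro c a ha x
    simp only [Pi.smul_apply, ha x, smul_eq_mul]
    ring

lemma mem_Par {s : ℂ} {φ : WS F n} : φ ∈ Par F n s ↔ ∀ x, φ (-x) = s * φ x := Iff.rfl

/-- The function `dl u + s dl (-u)`. -/
noncomputable def fu (s : ℂ) (u : Fin n → F) : WS F n := dl u + s • dl (-u)

/-- The central element `-1`. -/
noncomputable def zI : Gp F n := LL (-1)

/-- The data of a Weil representation. -/
structure WT (ψ : AddChar F ℂ) where
  τ : Gp F n →* Module.End ℂ (WS F n)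
  U : ∀ (B : SymM F n) (φ : WS F n) (x : Fin n → F), τ (UU B) φ x = ψ (- qq B x) * φ x
  κ : GL (Fin n) F →* ℂˣ
  L : ∀ (R : GL (Fin n) F), τ (LL R) = (κ R : ℂ) • ((TRE R : WS F n ≃ₗ[ℂ] WS F n) : Module.End ℂ (WS F n))
  cs : Fin n → ℂˣ
  S : ∀ i : Fin n, τ (sw i) = (cs i : ℂ) • FFs ψ i

end Cfsg.Agent.Lib.WeilGap.Defs
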