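import Cfsg.Agent.Lib.WeilGap.Defs

/-!
# Auxiliary result for `OrbitGap.deg_gap`: the bound from a weight of rank at least two,
given the orbit bound.
-/

set_option autoImplicit false
set_option linter.unusedSectionVars false
set_option linter.unusedVariables false

namespace Cfsg.Agent.Lib.WeilGap.DegGapAux

open Module Matrix Cfsg.Agent.Lib.SpDeg.Main Cfsg.Agent.Lib.SpDeg.Odd Cfsg.Agent.Lib.Weil.Basic
  Cfsg.Agent.Lib.Weil.Minus Cfsg.Agent.Lib.WeilGap.Defs Cfsg.Agent.Lib.SpDeg.Orbit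
  Cfsg.Agent.Lib.WtSpace.Basic
open scoped _root_.Classical

universe u

variable {F : Type u} [Field F] [Fintype F] {n : ℕ}

theorem deg_gap_aux {V : Type*} [AddCommGroup V] [Module ℂ V] [FiniteDimensional ℂ V] {ψ : AddChar F ℂ}
    (ρ : Gp F n →* Module.End ℂ V) (hψ : ψ 1 ≠ 1)
    (gap : ∀ {Q : (Fin n → F) → F}, IsQo Q → (∃ x y, 4 * Q x * Q y ≠ po Q x y ^ 2) →
      (Fintype.card F ^ n - 1) * (Fintype.card F ^ n - Fintype.card F) ≤ 2 * (Fintype.card F + 1) * (orb Q).card)
    {f : Module.Dual F (SymM F n)} (hf : WW ψ ρ f ≠ ⊥) (hnot : ¬ R1 f) :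
    (Fintype.card F ^ n - 1) * (Fintype.card F ^ n - Fintype.card F) ≤ 2 * (Fintype.card F + 1) * finrank ℂ V := by
  let s : Finset (Module.Dual F (SymM F n)) :=
    Finset.univ.filter (fun f' => ∃ R : GL (Fin n) F, f' = f.comp (cS (R : Matrix (Fin n) (Fin n) F)))
  have h1 : s.card * 1 ≤ finrank ℂ V := by
    apply card_mul_le (pp_pairing ψ hψ) (tt_add ρ) (tt_zero ρ) s 1
    intro x hx
    obtain ⟨R, rfl⟩ := (Finset.mem_filter.mp hx).2
    have hd1 : 1 ≤ finrank ℂ (WW ψ ρ f) := by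
      rw [Nat.one_le_iff_ne_zero, Ne, Submodule.finrank_eq_zero]
      exact hf
    refine hd1.trans ?_
    exact finrank_le_of_map (inj_rho ρ (LL R⁻¹)) (fun v hv => map_WW ψ ρ hψ R hv)
  rw [mul_one] at h1
  have h3 : (orb (qfo f)).card ≤ s.card := by
    have hsub : orb (qfo f) ⊆ s.image qfo := by
      intro Q' hQ'
      obtain ⟨g, rfl⟩ := mem_orb.mp hQ'
      rw [Finset.mem_image]
      let R : GL (Fin n) F := Cfsg.Agent.Lib.Classical.MatrixBridge.glToLin.symm g
      refine ⟨f.comp (cS (R : Matrix (Fin n) (Fin n) F)), Finset.mem_filter.mpr ⟨Finset.mem_univ _, R, rfl⟩, ?_⟩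
      funext x
      show f (cS (R : Matrix (Fin n) (Fin n) F) (rk1 x)) = f (rk1 (g x))
      rw [cS_rk1]
      congr 2
      have : Cfsg.Agent.Lib.Classical.MatrixBridge.glToLin R x = g x := by
        simp [R]
      simpa using this
    exact (Finset.card_le_card hsub).trans Finset.card_image_le
  have hnot' : ∃ x y, 4 * qfo f x * qfo f y ≠ po (qfo f) x y ^ 2 := by
    by_contra hcon
    push Not at hcon
    apply hnot
    intro x y
    have := hcon x y
    rw [po_qfo] at this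
    exact this
  have h4 := gap (isQo_qfo f) hnot'
  calc _ ≤ _ := h4
    _ ≤ _ := Nat.mul_le_mul_left _ (h3.trans h1)

end Cfsg.Agent.Lib.WeilGap.DegGapAux
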