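import Cfsg.Agent.Lib.WeilGap.Defs

/-!
# [FOURIER] Identities of the partial Fourier transforms. All by evaluating at `x` (`FFs_apply`, `dl_apply`).
`Dt i j t := ∑_{y ≠ 0} dl (t e_i + y e_j)`.
`F1`: `FFs ψ j (Dt i j t) x = [x k = t δ_{k i} for k ≠ j] * ∑_{z ≠ 0} ψ (z x_j)`, and `∑_{z ≠ 0} ψ (z a) = q [a = 0] - 1` (`Weil.Basic.sum_char`-style).
`F2`: `FFs ψ i (Dt i j t) x = ψ (t x_i) * [x_k = 0 for k ≠ i, j; x_j ≠ 0]`. `F3` same. `F4`: swap sums, `Function.update_comm`.
-/

set_option autoImplicit false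
set_option linter.unusedSectionVars false
set_option linter.unusedVariables false

namespace Cfsg.Agent.Lib.WeilGap.Fourier

open Module Matrix Cfsg.Agent.Lib.SpDeg.Main Cfsg.Agent.Lib.SpDeg.Odd Cfsg.Agent.Lib.Weil.Basic
  Cfsg.Agent.Lib.Weil.Minus Cfsg.Agent.Lib.WeilGap.Defs
open scoped _root_.Classical

universe u

variable {F : Type u} [Field F] [Fintype F] {n : ℕ}

variable (ψ : AddChar F ℂ)

/-- The sum of `dl (t e_i + y e_j)`, `y ≠ 0`. -/
noncomputable def Dt (i j : Fin n) (t : F) : WS F n := ∑ y ∈ Finset.univ.erase (0 : F), dl (t • ev i + y • ev j)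

omit [Fintype F] in
lemma ev_self (i : Fin n) : (ev i : Fin n → F) i = 1 := by simp [ev]

omit [Fintype F] in
lemma ev_ne (i k : Fin n) (h : k ≠ i) : (ev i : Fin n → F) k = 0 := by simp [ev, h]

omit [Fintype F] in
lemma eq_iff2 {i j : Fin n} (hij : i ≠ j) (t y : F) (x : Fin n → F) :
    x = t • ev i + y • ev j ↔ (x i = t ∧ x j = y ∧ ∀ k, k ≠ i → k ≠ j → x k = 0) := by
  constructor
  · rintro rfl
    refine ⟨?_, ?_, ?_⟩
    · simp [ev_self, ev_ne _ _ hij]
    · simp [ev_self, ev_ne _ _ hij.symm]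
    · intro k hi hj
      simp [ev_ne _ _ hi, ev_ne _ _ hj]
  · rintro ⟨h1, h2, h3⟩
    funext k
    by_cases hi : k = i
    · subst hi
      simp [h1, ev_self, ev_ne _ _ hij]
    · by_cases hj : k = j
      · subst hj
        simp [h2, ev_self, ev_ne _ _ hi]
      · simp [h3 k hi hj, ev_ne _ _ hi, ev_ne _ _ hj]

omit [Fintype F] in
lemma eq_iff1 (i : Fin n) (t : F) (x : Fin n → F) :
    x = t • ev i ↔ (x i = t ∧ ∀ k, k ≠ i → x k = 0) := by
  constructor
  · rintro rfl
    refine ⟨by simp [ev_self], fun k hk => by simp [ev_ne _ _ hk]⟩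
  · rintro ⟨h1, h3⟩
    funext k
    by_cases hi : k = i
    · subst hi
      simp [h1, ev_self]
    · simp [h3 k hi, ev_ne _ _ hi]

lemma Dt_apply {i j : Fin n} (hij : i ≠ j) (t : F) (x : Fin n → F) :
    Dt i j t x = if x i = t ∧ x j ≠ 0 ∧ ∀ k, k ≠ i → k ≠ j → x k = 0 then 1 else 0 := by
  unfold Dt
  rw [Finset.sum_apply]
  simp_rw [dl_apply, eq_iff2 hij]
  split_ifs with h
  · obtain ⟨h1, h2, h3⟩ := h
    rw [Finset.sum_eq_single (x j)]
    · rw [if_pos ⟨h1, rfl, h3⟩]
    · intro y _ hy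
      rw [if_neg (fun h0 => hy h0.2.1.symm)]
    · intro h0
      exact absurd (Finset.mem_erase.mpr ⟨h2, Finset.mem_univ _⟩) h0
  · refine Finset.sum_eq_zero fun y hy => ?_
    rw [if_neg]
    rintro ⟨h1, h2, h3⟩
    exact h ⟨h1, h2 ▸ (Finset.mem_erase.mp hy).1, h3⟩

variable {ψ} in
lemma sum_psi (hψ : ψ 1 ≠ 1) (a : F) : ∑ s : F, ψ (s * a) = if a = 0 then (Fintype.card F : ℂ) else 0 := by
  split_ifs with h
  · subst h
    simp
  · have hne : ψ ≠ 1 := by
      intro h1
      apply hψ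
      rw [h1]
      simp
    have h1 : ∑ s : F, ψ (s * a) = ∑ u : F, ψ u :=
      Fintype.sum_equiv (Equiv.mulRight₀ a h) _ _ (fun s => by simp)
    rw [h1]
    exact AddChar.sum_eq_zero_of_ne_one hne

theorem F1 (hψ : ψ 1 ≠ 1) (i j : Fin n) (hij : i ≠ j) (t : F) :
    FFs ψ j (Dt i j t) = ((Fintype.card F : ℂ) - 1) • dl (t • ev i) - Dt i j t := by
  funext x
  rw [FFs_apply, Pi.sub_apply, Pi.smul_apply, smul_eq_mul, Dt_apply hij, dl_apply]
  have e0 : ∀ s, Function.update x j s i = x i := fun s => Function.update_of_ne hij _ _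
  have e1 : ∀ s, Function.update x j s j = s := fun s => Function.update_self _ _ _
  have e2 : ∀ s k, k ≠ j → Function.update x j s k = x k := fun s k hk => Function.update_of_ne hk _ _
  have hterm : ∀ s, Dt i j t (Function.update x j s) =
      if (x i = t ∧ ∀ k, k ≠ i → k ≠ j → x k = 0) ∧ s ≠ 0 then 1 else 0 := by
    intro s
    rw [Dt_apply hij, e0, e1]
    congr 1
    apply propext
    constructor
    · rintro ⟨h1, h2, h3⟩
      exact ⟨⟨h1, fun k hk hk' => by rw [← e2 s k hk']; exact h3 k hk hk'⟩, h2⟩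
    · rintro ⟨⟨h1, h3⟩, h2⟩
      exact ⟨h1, h2, fun k hk hk' => by rw [e2 s k hk']; exact h3 k hk hk'⟩
  simp_rw [hterm, eq_iff1]
  by_cases hB : x i = t ∧ ∀ k, k ≠ i → k ≠ j → x k = 0
  · have hsum : ∑ s : F, ψ (s * x j) * (if (x i = t ∧ ∀ k, k ≠ i → k ≠ j → x k = 0) ∧ s ≠ 0 then (1 : ℂ) else 0) =
        (if x j = 0 then (Fintype.card F : ℂ) else 0) - 1 := by
      have h1 : ∀ s : F, ψ (s * x j) * (if (x i = t ∧ ∀ k, k ≠ i → k ≠ j → x k = 0) ∧ s ≠ 0 then (1 : ℂ) else 0) =
          ψ (s * x j) - (if s = 0 then 1 else 0) := by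
        intro s
        by_cases hs : s = 0
        · subst hs
          simp
        · rw [if_pos ⟨hB, hs⟩, if_neg hs, mul_one, sub_zero]
      simp_rw [h1]
      rw [Finset.sum_sub_distrib, sum_psi hψ, Finset.sum_ite_eq']
      simp
    rw [hsum]
    by_cases hj : x j = 0
    · rw [if_pos hj, if_pos ⟨hB.1, fun k hk => by
        by_cases hk' : k = j
        · rw [hk']; exact hj
        · exact hB.2 k hk hk'⟩, if_neg (fun h0 => h0.2.1 hj)]
      ring
    · rw [if_neg hj, if_neg (fun h0 => hj (h0.2 j hij.symm)), if_pos ⟨hB.1, hj, hB.2⟩]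
      ring
  · have h0 : ∀ s : F, (if (x i = t ∧ ∀ k, k ≠ i → k ≠ j → x k = 0) ∧ s ≠ 0 then (1 : ℂ) else 0) = 0 := fun s =>
      if_neg (fun h => hB h.1)
    simp_rw [h0, mul_zero, Finset.sum_const_zero]
    rw [if_neg (fun h => hB ⟨h.1, fun k hk _ => h.2 k hk⟩), if_neg (fun h => hB ⟨h.1, h.2.2⟩)]
    ring

theorem F2 (i j : Fin n) (hij : i ≠ j) (t : F) : FFs ψ i (Dt i j t) = ∑ z : F, ψ (z * t) • Dt i j z := by
  funext x
  rw [FFs_apply, Finset.sum_apply]
  simp only [Pi.smul_apply, smul_eq_mul]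
  have e0 : ∀ s, Function.update x i s j = x j := fun s => Function.update_of_ne hij.symm _ _
  have e1 : ∀ s, Function.update x i s i = s := fun s => Function.update_self _ _ _
  have e2 : ∀ s k, k ≠ i → Function.update x i s k = x k := fun s k hk => Function.update_of_ne hk _ _
  have hterm : ∀ s, Dt i j t (Function.update x i s) =
      if s = t ∧ x j ≠ 0 ∧ ∀ k, k ≠ i → k ≠ j → x k = 0 then 1 else 0 := by
    intro s
    rw [Dt_apply hij, e0, e1]
    congr 1
    apply propext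
    constructor
    · rintro ⟨h1, h2, h3⟩
      exact ⟨h1, h2, fun k hk hk' => by rw [← e2 s k hk]; exact h3 k hk hk'⟩
    · rintro ⟨h1, h2, h3⟩
      exact ⟨h1, h2, fun k hk hk' => by rw [e2 s k hk]; exact h3 k hk hk'⟩
  simp_rw [hterm, Dt_apply hij]
  by_cases hA : x j ≠ 0 ∧ ∀ k, k ≠ i → k ≠ j → x k = 0
  · rw [Finset.sum_eq_single t, Finset.sum_eq_single (x i)]
    · rw [if_pos ⟨rfl, hA⟩, if_pos ⟨rfl, hA⟩, mul_comm t]
    · intro z _ hz
      rw [if_neg (fun h => hz h.1.symm), mul_zero]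
    · intro h
      exact absurd (Finset.mem_univ _) h
    · intro z _ hz
      rw [if_neg (fun h => hz h.1), mul_zero]
    · intro h
      exact absurd (Finset.mem_univ _) h
  · rw [Finset.sum_eq_zero, Finset.sum_eq_zero]
    · intro z _
      rw [if_neg (fun h => hA h.2), mul_zero]
    · intro z _
      rw [if_neg (fun h => hA h.2), mul_zero]

theorem F3 (i : Fin n) (t : F) : FFs ψ i (dl (t • ev i)) = ∑ z : F, ψ (z * t) • dl (z • ev i) := by
  funext x
  rw [FFs_apply, Finset.sum_apply]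
  simp only [Pi.smul_apply, smul_eq_mul]
  have e1 : ∀ s, Function.update x i s i = s := fun s => Function.update_self _ _ _
  have e2 : ∀ s k, k ≠ i → Function.update x i s k = x k := fun s k hk => Function.update_of_ne hk _ _
  have hterm : ∀ s, dl (t • ev i) (Function.update x i s) =
      if s = t ∧ ∀ k, k ≠ i → x k = 0 then 1 else 0 := by
    intro s
    rw [dl_apply]
    have hiff : Function.update x i s = t • ev i ↔ (s = t ∧ ∀ k, k ≠ i → x k = 0) := by
      rw [eq_iff1, e1]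
      constructor
      · rintro ⟨h1, h3⟩
        exact ⟨h1, fun k hk => by rw [← e2 s k hk]; exact h3 k hk⟩
      · rintro ⟨h1, h3⟩
        exact ⟨h1, fun k hk => by rw [e2 s k hk]; exact h3 k hk⟩
    by_cases h : s = t ∧ ∀ k, k ≠ i → x k = 0
    · rw [if_pos h, if_pos (hiff.mpr h)]
    · rw [if_neg h, if_neg (fun h' => h (hiff.mp h'))]
  simp_rw [hterm, dl_apply, eq_iff1]
  by_cases hA : ∀ k, k ≠ i → x k = 0
  · rw [Finset.sum_eq_single t, Finset.sum_eq_single (x i)]
    · rw [if_pos ⟨rfl, hA⟩, if_pos ⟨rfl, hA⟩, mul_comm t]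
    · intro z _ hz
      rw [if_neg (fun h => hz h.1.symm), mul_zero]
    · intro h
      exact absurd (Finset.mem_univ _) h
    · intro z _ hz
      rw [if_neg (fun h => hz h.1), mul_zero]
    · intro h
      exact absurd (Finset.mem_univ _) h
  · rw [Finset.sum_eq_zero, Finset.sum_eq_zero]
    · intro z _
      rw [if_neg (fun h => hA h.2), mul_zero]
    · intro z _
      rw [if_neg (fun h => hA h.2), mul_zero]

theorem F4 (i j : Fin n) (hij : i ≠ j) (φ : WS F n) : FFs ψ i (FFs ψ j φ) = FFs ψ j (FFs ψ i φ) := by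
  funext x
  simp only [FFs_apply]
  have e1 : ∀ s, Function.update x i s j = x j := fun s => Function.update_of_ne hij.symm _ _
  have e2 : ∀ t, Function.update x j t i = x i := fun t => Function.update_of_ne hij _ _
  simp only [e1, e2, Finset.mul_sum]
  rw [Finset.sum_comm]
  refine Finset.sum_congr rfl fun t _ => Finset.sum_congr rfl fun s _ => ?_
  rw [Function.update_comm hij.symm]
  ring

end Cfsg.Agent.Lib.WeilGap.Fourier
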