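import Cfsg.Agent.Lib.WeilGap.Lemma1
import Cfsg.Agent.Lib.WeilGap.Fourier

/-!
# [EXT1] `Φ₀` and `sw i` on the line `F e_i`: the formula (F).
`nu j := (q-1)⁻¹ • ((cs j)⁻¹ • ρ (sw j) (Φ Ψ_j) + Φ Ψ_j)`, `Ψ_j := ∑_{y ≠ 0} dl (y e_j) = Dt i j 0`.
PAPER PROOF of `sw_line` (`s² = 1`). Put `φ_t := Dt i j t + s • Dt i j (-t)`, `g_t := fu s (t e_i)`. `F1` gives `(q-1) g_t = (cs j)⁻¹ τ(sw j) φ_t + φ_t`.
Apply `Φ`; for `t ≠ 0`, `φ_t` vanishes on `x_i = 0`, `lemma1` (for `sw j`): (1) `(q-1) Φ g_t = (cs j)⁻¹ ρ(sw j) Φ φ_t + Φ φ_t`. Apply `ρ (sw i)`, commuting with `ρ (sw j)` (`Conj.sw_comm`), `lemma1` for `sw i` (`φ_t` vanishes on `x_j = 0`):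
(2) `(q-1) ρ(sw i) Φ g_t = (cs j)⁻¹ ρ(sw j) Φ τ(sw i) φ_t + Φ τ(sw i) φ_t`. By `F2`, with `a_z := ψ(z t) + s ψ(-z t)` (`a_{-z} = s a_z`):
`τ(sw i) φ_t = cs i • FFs ψ i φ_t = cs i • ((1+s) Ψ_j + (1/2) ∑_{z ≠ 0} a_z φ_z)`. Substituting, and using `lemma1` for `sw j` on `φ_z` and (1) for each `z ≠ 0`:
RHS of (2) `= cs i (q-1) [ (1+s) nu j + (1/2) ∑_{z≠0} a_z Φ g_z ]`. By `F3`, `FFs ψ i g_t = ∑_z a_z dl (z e_i)`, so (`P.D0`, `fu_eq`) `Φ (FFs ψ i g_t) = (1/2) ∑_{z≠0} a_z Φ g_z`. Divide by `q - 1`.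
-/

set_option autoImplicit false
set_option linter.unusedSectionVars false
set_option linter.unusedVariables false

namespace Cfsg.Agent.Lib.WeilGap.Ext1

open Module Matrix Cfsg.Agent.Lib.SpDeg.Main Cfsg.Agent.Lib.SpDeg.Odd Cfsg.Agent.Lib.Weil.Basic
  Cfsg.Agent.Lib.Weil.Minus Cfsg.Agent.Lib.WeilGap.Defs
open scoped _root_.Classical

universe u

variable {F : Type u} [Field F] [Fintype F] {n : ℕ}

open Cfsg.Agent.Lib.WeilGap.Stab Cfsg.Agent.Lib.WeilGap.Phi0 Cfsg.Agent.Lib.WeilGap.Lemma1 Cfsg.Agent.Lib.WeilGap.Fourier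

variable {V : Type*} [AddCommGroup V] [Module ℂ V] [FiniteDimensional ℂ V]
variable {ψ : AddChar F ℂ} (W : WT (F := F) (n := n) ψ) (ρ : Gp F n →* Module.End ℂ V)

variable {W ρ}
variable {s : ℂ} {i₀ : Fin n} {m : V} (P : PhiD W ρ s i₀ m)

/-- The vector `ν_j`. -/
noncomputable def nu (j : Fin n) : V :=
  (((Fintype.card F : ℂ) - 1)⁻¹) • (((W.cs j : ℂ)⁻¹) • ρ (sw j) (P.Φ (∑ y ∈ Finset.univ.erase (0 : F), dl (y • ev j))) +
    P.Φ (∑ y ∈ Finset.univ.erase (0 : F), dl (y • ev j)))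

omit [FiniteDimensional ℂ V] in
lemma Dt_van_i (i j : Fin n) (hij : i ≠ j) {z : F} (hz : z ≠ 0) (x : Fin n → F) (hx : x i = 0) :
    Dt i j z x = 0 := by
  simp only [Dt, Finset.sum_apply]
  apply Finset.sum_eq_zero
  intro y hy
  rw [dl_apply, if_neg]
  intro h
  apply hz
  have h1 := congrFun h i
  simpa [ev, Pi.single_apply, hij, hij.symm, hx] using h1.symm

omit [FiniteDimensional ℂ V] in
lemma Dt_van_j (i j : Fin n) (hij : i ≠ j) (z : F) (x : Fin n → F) (hx : x j = 0) :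
    Dt i j z x = 0 := by
  simp only [Dt, Finset.sum_apply]
  apply Finset.sum_eq_zero
  intro y hy
  rw [dl_apply, if_neg]
  intro h
  have hy0 : y ≠ 0 := (Finset.mem_erase.mp hy).1
  apply hy0
  have h1 := congrFun h j
  simpa [ev, Pi.single_apply, hij, hij.symm, hx] using h1.symm

theorem sw_line (h2 : (2 : F) ≠ 0) (hψ : ψ 1 ≠ 1) (hR : R1all ψ ρ) (hs1 : s = 1 ∨ s = -1) (i j : Fin n) (hij : i ≠ j)
    (t : F) (ht : t ≠ 0) :
    ρ (sw i) (P.Φ (fu s (t • ev i))) =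
      (W.cs i : ℂ) • (P.Φ (FFs ψ i (fu s (t • ev i))) + (1 + s) • nu P j) := by
  have hss : s * s = 1 := by rcases hs1 with rfl | rfl <;> norm_num
  set q1 : ℂ := (Fintype.card F : ℂ) - 1 with hq1
  have hq0 : q1 ≠ 0 := by
    have h1 : 1 < Fintype.card F := Fintype.one_lt_card
    rw [hq1, sub_ne_zero]
    exact_mod_cast h1.ne'
  have hcj : ((W.cs j : ℂ)⁻¹) * (W.cs j : ℂ) = 1 := inv_mul_cancel₀ (W.cs j).ne_zero
  -- the operator `T`
  let T : WS F n →ₗ[ℂ] V := (((W.cs j : ℂ)⁻¹) • ρ (sw j) + 1) ∘ₗ P.Φ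
  have hT : ∀ f, T f = ((W.cs j : ℂ)⁻¹) • ρ (sw j) (P.Φ f) + P.Φ f := fun f => rfl
  let φ : F → WS F n := fun z => Dt i j z + s • Dt i j (-z)
  have hφi : ∀ z : F, z ≠ 0 → ∀ x : Fin n → F, x i = 0 → φ z x = 0 := by
    intro z hz x hx
    simp only [φ, Pi.add_apply, Pi.smul_apply, Dt_van_i i j hij hz x hx,
      Dt_van_i i j hij (neg_ne_zero.mpr hz) x hx, smul_zero, add_zero]
  have hφj : ∀ z : F, ∀ x : Fin n → F, x j = 0 → φ z x = 0 := by
    intro z x hx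
    simp only [φ, Pi.add_apply, Pi.smul_apply, Dt_van_j i j hij z x hx,
      Dt_van_j i j hij (-z) x hx, smul_zero, add_zero]
  have hFj : ∀ f : WS F n, W.τ (sw j) f = (W.cs j : ℂ) • FFs ψ j f := by
    intro f
    rw [W.S]
    rfl
  have hFi : ∀ f : WS F n, W.τ (sw i) f = (W.cs i : ℂ) • FFs ψ i f := by
    intro f
    rw [W.S]
    rfl
  -- (1)
  have hb : ∀ z : F, z ≠ 0 → T (φ z) = q1 • P.Φ (fu s (z • ev i)) := by
    intro z hz
    have h1 : FFs ψ j (φ z) = q1 • fu s (z • ev i) - φ z := by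
      simp only [φ, map_add, map_smul, Fourier.F1 ψ hψ i j hij, fu, neg_smul]
      module
    have h3 : P.Φ (W.τ (sw j) (φ z)) = ρ (sw j) (P.Φ (φ z)) :=
      lemma1 P h2 hψ hR j i hij.symm (φ z) (hφi z hz)
    rw [hT, ← h3, hFj, map_smul, smul_smul, hcj, one_smul, h1, map_sub, map_smul]
    abel
  -- the vector `ν`
  have hΨ : Dt i j (0 : F) = ∑ y ∈ Finset.univ.erase (0 : F), dl (y • ev j) := by
    simp [Dt]
  have hnu : T (Dt i j 0) = q1 • nu P j := by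
    rw [hT, hΨ, nu, smul_smul, mul_inv_cancel₀ hq0, one_smul]
  -- the coefficients
  let a : F → ℂ := fun z => ψ (z * t) + s * ψ (z * (-t))
  have ha0 : a 0 = 1 + s := by simp [a]
  have haneg : ∀ z, a (-z) = s * a z := by
    intro z
    simp only [a, neg_mul, mul_neg, neg_neg]
    linear_combination (- ψ (-(z * t))) * hss
  -- (d)
  have hd : FFs ψ i (φ t) = ∑ z : F, a z • Dt i j z := by
    simp only [φ, map_add, map_smul, Fourier.F2 ψ i j hij, Finset.smul_sum, ← Finset.sum_add_distrib, smul_smul, a, add_smul]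
  have hg : P.Φ (FFs ψ i (fu s (t • ev i))) = ∑ z : F, a z • P.Φ (dl (z • ev i)) := by
    have h1 : -(t • ev (F := F) i) = (-t) • ev i := (neg_smul t (ev i)).symm
    simp only [fu, h1, map_add, map_smul, Fourier.F3 ψ i, map_sum, Finset.smul_sum,
      ← Finset.sum_add_distrib, smul_smul, a, add_smul]
  -- symmetrisation
  have hsym : (2 : ℂ) • ∑ z : F, a z • T (Dt i j z) = ∑ z : F, a z • T (φ z) := by
    have h1 : ∑ z : F, a z • T (Dt i j z) = ∑ z : F, a (-z) • T (Dt i j (-z)) :=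
      (Equiv.sum_comp (Equiv.neg F) (fun z => a z • T (Dt i j z))).symm
    rw [two_smul]
    nth_rewrite 2 [h1]
    rw [← Finset.sum_add_distrib]
    apply Finset.sum_congr rfl
    intro z _
    simp only [φ, map_add, map_smul, haneg, smul_add, smul_smul]
    rw [mul_comm s]
  have hterm : ∀ z : F, a z • T (φ z) = ((2 : ℂ) * q1) • (a z • P.Φ (dl (z • ev i))) +
      (if z = 0 then ((1 + s) * (1 + s) * q1) • nu P j else 0) := by
    intro z
    by_cases hz : z = 0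
    · subst hz
      have hφ0 : φ 0 = (1 + s) • Dt i j 0 := by
        simp only [φ, neg_zero, add_smul, one_smul]
      have h00 : (0 : F) • ev (F := F) i = 0 := zero_smul _ _
      rw [if_pos rfl, h00, P.D0, smul_zero, smul_zero, zero_add, hφ0, map_smul, hnu, ha0, smul_smul, smul_smul]
    · rw [if_neg hz, add_zero, hb z hz, fu_eq P hs1, smul_smul, smul_smul, smul_smul]
      congr 1
      ring
  have hS : (2 : ℂ) • ∑ z : F, a z • T (Dt i j z) =
      (2 : ℂ) • (((1 + s) * q1) • nu P j + q1 • P.Φ (FFs ψ i (fu s (t • ev i)))) := by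
    rw [hsym, Finset.sum_congr rfl (fun z _ => hterm z), Finset.sum_add_distrib, Finset.sum_ite_eq',
      if_pos (Finset.mem_univ _), ← Finset.smul_sum, ← hg]
    have h4 : (1 + s) * (1 + s) = 2 * (1 + s) := by linear_combination hss
    rw [h4, smul_add, smul_smul, smul_smul, add_comm]
    congr 2
    ring
  have h20 : (2 : ℂ) ≠ 0 := two_ne_zero
  have hS' : ∑ z : F, a z • T (Dt i j z) = ((1 + s) * q1) • nu P j + q1 • P.Φ (FFs ψ i (fu s (t • ev i))) :=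
    smul_right_injective V h20 hS
  -- (2)
  have hmain : q1 • ρ (sw i) (P.Φ (fu s (t • ev i))) =
      (W.cs i : ℂ) • T (FFs ψ i (φ t)) := by
    have h3 : T (φ t) = q1 • P.Φ (fu s (t • ev i)) := hb t ht
    have h4 : P.Φ (W.τ (sw i) (φ t)) = ρ (sw i) (P.Φ (φ t)) :=
      lemma1 P h2 hψ hR i j hij (φ t) (hφj t)
    have hcomm : ρ (sw i) (ρ (sw j) (P.Φ (φ t))) = ρ (sw j) (ρ (sw i) (P.Φ (φ t))) := by
      have h5 : ρ (sw i * sw j) = ρ (sw j * sw i) := by rw [Conj.sw_comm]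
      simpa using congrArg (fun f : Module.End ℂ V => f (P.Φ (φ t))) h5
    rw [← map_smul, ← h3, hT, map_add, map_smul, hcomm, ← h4, hT, hFi, map_smul, map_smul,
      smul_add, smul_comm]
  have hfinal : q1 • ρ (sw i) (P.Φ (fu s (t • ev i))) =
      q1 • ((W.cs i : ℂ) • (P.Φ (FFs ψ i (fu s (t • ev i))) + (1 + s) • nu P j)) := by
    rw [hmain, hd, map_sum, Finset.sum_congr rfl (fun z _ => map_smul T (a z) (Dt i j z)), hS',
      smul_comm q1, smul_add q1, smul_smul q1 (1 + s), mul_comm q1, add_comm]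
  exact smul_right_injective V hq0 hfinal


end Cfsg.Agent.Lib.WeilGap.Ext1
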