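import Cfsg.Agent.Lib.WeilGap.Ext1

/-!
# [EXT2] For `s = 1`: the vector `ν` does not depend on `j` and is fixed by the radical.
`nu_eq` PAPER PROOF. `u := e_i + e_j`, `G := fu 1 u`. `lemma1`: `ρ(sw j) Φ G = cs j • Φ (FFs ψ j G)`. `FFs ψ j G = fu 1 e_i + ∑_{z≠0} (ψ z • dl(e_i + z e_j) + ψ (-z) • dl(-e_i + z e_j))`: the sum vanishes on `x_j = 0`; so applying `ρ (sw i)`:
`lemma1` on the sum, `Ext1.sw_line` on `fu 1 e_i`: `ρ(sw i) ρ(sw j) Φ G = cs i cs j • (Φ (FFs ψ i (FFs ψ j G)) + 2 • nu P j)`. Exchanging `i, j`, and `sw_comm`, `Fourier.F4`: `nu P j = nu P i`.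
`nu_fix` PAPER PROOF. `SymM` is spanned (additively) by `d • rk1 e_i` and `b • pl e_i e_j`, `i ≠ j`. Since `UU` is additive it suffices:
 * `UU (d • rk1 e_i)`: choose `j ≠ i`, `ν = nu P j`. `UU (d • rk1 e_i)` commutes with `sw j` (`sw_UU_comm`), fixes `Φ Ψ_j` (`P.U`, `qq (d • rk1 e_i) (y e_j) = 0`).
 * `UU (b • pl e_i e_j)`: `Conj.UU_pl_sw`. For `g_1 := fu 1 e_i`, `τ(LL (el i j (-b))) g_1 = g_1` (`tau_dl_L`, `kappa_el`), so `ρ(UU (b•pl)) ρ(sw i) Φ g_1 = ρ (sw i) ρ (LL (el ..)) Φ g_1 = ρ(sw i) Φ g_1`. By `sw_line` this is `cs i • (Φ (FFs ψ i g_1) + 2 • nu P j)`; `FFs ψ i g_1` is supported on `F e_i` where `qq (b•pl e_i e_j)` vanishes, so `ρ(UU(b•pl))` fixes `Φ (FFs ψ i g_1)` (`P.U`). Hence fixes `nu P j`.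
-/

set_option autoImplicit false
set_option linter.unusedSectionVars false
set_option linter.unusedVariables false

namespace Cfsg.Agent.Lib.WeilGap.Ext2

open Module Matrix Cfsg.Agent.Lib.SpDeg.Main Cfsg.Agent.Lib.SpDeg.Odd Cfsg.Agent.Lib.Weil.Basic
  Cfsg.Agent.Lib.Weil.Minus Cfsg.Agent.Lib.WeilGap.Defs
open scoped _root_.Classical

universe u

variable {F : Type u} [Field F] [Fintype F] {n : ℕ}

open Cfsg.Agent.Lib.WeilGap.Stab Cfsg.Agent.Lib.WeilGap.Phi0 Cfsg.Agent.Lib.WeilGap.Lemma1 Cfsg.Agent.Lib.WeilGap.Fourier Cfsg.Agent.Lib.WeilGap.Ext1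

variable {V : Type*} [AddCommGroup V] [Module ℂ V] [FiniteDimensional ℂ V]
variable {ψ : AddChar F ℂ} (W : WT (F := F) (n := n) ψ) (ρ : Gp F n →* Module.End ℂ V)

variable {W ρ}
variable {i₀ : Fin n} {m : V} (P : PhiD W ρ 1 i₀ m)

omit [FiniteDimensional ℂ V] in
lemma rho_comm {a b : Gp F n} (h : a * b = b * a) (v : V) : ρ a (ρ b v) = ρ b (ρ a v) := by
  have := congrArg (fun g => ρ g v) h
  simpa [map_mul] using this

omit [FiniteDimensional ℂ V] in
lemma rho_mul (a b : Gp F n) (v : V) : ρ (a * b) v = ρ a (ρ b v) := by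
  simp [map_mul]

lemma ev_dot (i : Fin n) (x : Fin n → F) : ev i ⬝ᵥ x = x i := by
  simp [ev]

lemma dot_ev (i : Fin n) (x : Fin n → F) : x ⬝ᵥ ev i = x i := by
  simp [ev]

lemma ev_same (i : Fin n) : ev (F := F) i i = 1 := by
  simp [ev]

lemma ev_ne {i k : Fin n} (h : i ≠ k) : ev (F := F) i k = 0 := by
  simp [ev, Pi.single_apply, h.symm]

lemma dot_vmv (a b x z : Fin n → F) : x ⬝ᵥ (vecMulVec a b *ᵥ z) = (x ⬝ᵥ a) * (b ⬝ᵥ z) := by
  rw [Matrix.vecMulVec_mulVec, dotProduct_smul, op_smul_eq_mul]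

lemma qq_rk1 (a x : Fin n → F) : qq (rk1 a) x = hh F * ((x ⬝ᵥ a) * (a ⬝ᵥ x)) := by
  show hh F * (x ⬝ᵥ (vecMulVec a a) *ᵥ x) = _
  rw [dot_vmv]

lemma qq_pl (a b x : Fin n → F) : qq (pl a b) x = hh F * ((x ⬝ᵥ a) * (b ⬝ᵥ x) + (x ⬝ᵥ b) * (a ⬝ᵥ x)) := by
  show hh F * (x ⬝ᵥ (vecMulVec a b + vecMulVec b a) *ᵥ x) = _
  rw [Matrix.add_mulVec, dotProduct_add, dot_vmv, dot_vmv]

lemma tau_fix_of_qq (W : WT (F := F) (n := n) ψ) (B : SymM F n) (x : Fin n → F) (h : qq B x = 0) :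
    W.τ (UU B) (dl x) = dl x := by
  rw [WtApi.tau_dl_U, h, neg_zero, AddChar.map_zero_eq_one, one_smul]

lemma card_ge_three (h2 : (2 : F) ≠ 0) : 3 ≤ Fintype.card F := by
  have h1 : 1 < Fintype.card F := Fintype.one_lt_card
  by_contra hcon
  have h3 : Fintype.card F = 2 := by omega
  have h4 := FiniteField.cast_card_eq_zero F
  rw [h3] at h4
  exact h2 (by exact_mod_cast h4)

lemma el_inv_mulVec (i k : Fin n) (hik : i ≠ k) (c : F) (v : Fin n → F) (hv : v k = 0) :
    ((((el i k hik c)⁻¹ : GL (Fin n) F) : Matrix (Fin n) (Fin n) F)ᵀ) *ᵥ v = v := by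
  show (1 + c • Matrix.single k i (1 : F))ᵀ *ᵥ v = v
  rw [transpose_add, transpose_one, transpose_smul, transpose_single, add_mulVec, one_mulVec, smul_mulVec,
    Matrix.single_mulVec, hv]
  ext a
  simp [Function.update_apply]

/-- Generators 1. -/
theorem nu_fix_rk1 (d : F) (i j : Fin n) (hij : i ≠ j) :
    ρ (UU (d • rk1 (ev i))) (nu P j) = nu P j := by
  have hB : ∀ k, (d • rk1 (ev (F := F) i)).1 j k = 0 := by
    intro k
    show d • (vecMulVec (ev (F := F) i) (ev i)) j k = 0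
    simp [vecMulVec_apply, ev_ne hij]
  have hcomm := Conj.sw_UU_comm j (d • rk1 (ev (F := F) i)) hB
  have hΨ : ρ (UU (d • rk1 (ev i))) (P.Φ (∑ y ∈ Finset.univ.erase (0 : F), dl (y • ev j))) =
      P.Φ (∑ y ∈ Finset.univ.erase (0 : F), dl (y • ev j)) := by
    rw [← P.U]
    congr 1
    rw [map_sum]
    refine Finset.sum_congr rfl fun y _ => ?_
    apply tau_fix_of_qq
    rw [qq_smul, qq_rk1, dot_ev, ev_dot]
    simp [ev_ne hij, ev_ne hij.symm]
  unfold nu
  simp only [map_smul, map_add]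
  rw [hΨ, rho_comm hcomm.symm, hΨ]

/-- Generators 2. -/
theorem nu_fix_pl (h2 : (2 : F) ≠ 0) (hψ : ψ 1 ≠ 1) (hR : R1all ψ ρ) (b : F) (i k : Fin n) (hik : i ≠ k) :
    ρ (UU (b • pl (ev i) (ev k))) (nu P k) = nu P k := by
  have h3 := card_ge_three h2
  set g₁ : WS F n := fu 1 ((1 : F) • ev i) with hg₁
  have hv1 : ((1 : F) • ev (F := F) i) k = 0 := by simp [ev_ne hik]
  have hv2 : (-((1 : F) • ev (F := F) i)) k = 0 := by simp [ev_ne hik]
  have hL : W.τ (LL (el i k hik (-b))) g₁ = g₁ := by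
    rw [hg₁, fu, map_add, map_smul, WtApi.tau_dl_L, WtApi.tau_dl_L, WtApi.kappa_el W h3,
      el_inv_mulVec i k hik _ _ hv1, el_inv_mulVec i k hik _ _ hv2]
    simp
  have h1 : ρ (UU (b • pl (ev i) (ev k))) (ρ (sw i) (P.Φ g₁)) = ρ (sw i) (P.Φ g₁) := by
    rw [← rho_mul, Conj.UU_pl_sw i k hik b, rho_mul, ← P.L, hL]
  have hline := sw_line P h2 hψ hR (Or.inl rfl) i k hik 1 one_ne_zero
  have hqq : ∀ z : F, W.τ (UU (b • pl (ev i) (ev k))) (dl (z • ev i)) = dl (z • ev i) := by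
    intro z
    apply tau_fix_of_qq
    rw [qq_smul, qq_pl, dot_ev, dot_ev, ev_dot, ev_dot]
    simp [ev_ne hik]
  have hneg : -((1 : F) • ev (F := F) i) = (-1 : F) • ev i := by simp
  have hFF : W.τ (UU (b • pl (ev i) (ev k))) (FFs ψ i g₁) = FFs ψ i g₁ := by
    rw [hg₁, fu, map_add, map_smul, hneg, F3, F3, map_add, map_smul, map_sum, map_sum]
    simp only [map_smul, hqq]
  have hA : ρ (UU (b • pl (ev i) (ev k))) (P.Φ (FFs ψ i g₁)) = P.Φ (FFs ψ i g₁) := by
    rw [← P.U, hFF]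
  rw [hline] at h1
  simp only [map_smul, map_add] at h1
  rw [hA] at h1
  have hcs : (W.cs i : ℂ) ≠ 0 := (W.cs i).ne_zero
  have h4 := smul_right_injective V hcs h1
  have h5 := add_left_cancel h4
  have h2' : (1 + 1 : ℂ) ≠ 0 := by norm_num
  exact smul_right_injective V h2' h5

lemma sum_dl_update (j : Fin n) (x : Fin n → F) (hx : x j = 0) (v : Fin n → F) (hv : v j = 0) (c : F) :
    ∑ t : F, dl (v + c • ev j) (Function.update x j t) = dl v x := by
  have key : ∀ t : F, (Function.update x j t = v + c • ev j) ↔ (t = c ∧ x = v) := by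
    intro t
    constructor
    · intro h
      have h1 : t = c := by
        have := congrFun h j
        simpa [hv, ev_same] using this
      refine ⟨h1, ?_⟩
      ext a
      by_cases ha : a = j
      · subst ha; rw [hx, hv]
      · have := congrFun h a
        rw [Function.update_of_ne ha] at this
        simpa [ev_ne (Ne.symm ha)] using this
    · rintro ⟨rfl, rfl⟩
      ext a
      by_cases ha : a = j
      · subst ha; simp [hv, ev_same]
      · rw [Function.update_of_ne ha]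
        simp [ev_ne (Ne.symm ha)]
  simp only [dl_apply, key]
  by_cases hxv : x = v
  · simp [hxv]
  · simp [hxv]

/-- The computation of `ρ (sw i) ρ (sw j) Φ G`. -/
theorem nu_aux (h2 : (2 : F) ≠ 0) (hψ : ψ 1 ≠ 1) (hR : R1all ψ ρ) (i j : Fin n) (hij : i ≠ j) :
    ρ (sw i) (ρ (sw j) (P.Φ (fu 1 (ev i + ev j)))) =
      ((W.cs i : ℂ) * (W.cs j : ℂ)) • (P.Φ (FFs ψ i (FFs ψ j (fu 1 (ev i + ev j)))) + (1 + 1 : ℂ) • nu P j) := by
  set G : WS F n := fu 1 (ev i + ev j) with hG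
  have hone : (1 : F) ≠ 0 := one_ne_zero
  have hG0 : ∀ x, x i = 0 → G x = 0 := by
    intro x hx
    have h1 : x ≠ ev i + ev j := by
      rintro rfl
      simp [ev_same, ev_ne hij.symm] at hx
    have h3 : x ≠ -(ev i + ev j) := by
      rintro rfl
      simp [ev_same, ev_ne hij.symm] at hx
    show ((dl (ev i + ev j) + (1 : ℂ) • dl (-(ev i + ev j)) : WS F n)) x = 0
    rw [Pi.add_apply, Pi.smul_apply, dl_apply, dl_apply, if_neg h1, if_neg h3]
    simp
  have h1 := lemma1 P h2 hψ hR j i hij.symm G hG0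
  rw [W.S j] at h1
  simp only [LinearMap.smul_apply, map_smul] at h1
  set H : WS F n := FFs ψ j G with hH
  set f₁ : WS F n := fu 1 ((1 : F) • ev i) with hf₁
  have hH' : ∀ x, x j = 0 → (H - f₁) x = 0 := by
    intro x hx
    have h3 : H x = dl (ev i) x + dl (-ev i) x := by
      rw [hH, FFs_apply]
      simp only [hx, mul_zero, AddChar.map_zero_eq_one, one_mul]
      have hu1 : ev (F := F) i + ev j = ev i + (1 : F) • ev j := by simp
      have hu2 : -(ev (F := F) i + ev j) = -ev i + (-1 : F) • ev j := by simp [add_comm]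
      simp only [hG, fu, Pi.add_apply, Pi.smul_apply, one_smul]
      rw [Finset.sum_add_distrib, hu2]
      nth_rewrite 1 [hu1]
      rw [sum_dl_update j x hx _ (ev_ne hij) 1, sum_dl_update j x hx _ (by simp [ev_ne hij]) (-1)]
    have h4 : f₁ x = dl (ev i) x + dl (-ev i) x := by
      simp [hf₁, fu]
    simp [h3, h4]
  have h5 := lemma1 P h2 hψ hR i j hij (H - f₁) hH'
  rw [W.S i] at h5
  simp only [LinearMap.smul_apply, map_smul] at h5
  have hline := sw_line P h2 hψ hR (Or.inl rfl) i j hij 1 one_ne_zero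
  rw [← h1, map_smul]
  have hsplit : P.Φ H = P.Φ (H - f₁) + P.Φ f₁ := by
    rw [← map_add]; simp
  have hline' : ρ (sw i) (P.Φ f₁) = (W.cs i : ℂ) • (P.Φ (FFs ψ i f₁) + (1 + 1 : ℂ) • nu P j) := hline
  rw [hsplit, map_add, ← h5, hline']
  have h6 : P.Φ (FFs ψ i H) = P.Φ (FFs ψ i (H - f₁)) + P.Φ (FFs ψ i f₁) := by
    rw [← map_add, ← map_add]; simp
  rw [h6]
  module

theorem nu_eq (h2 : (2 : F) ≠ 0) (hψ : ψ 1 ≠ 1) (hR : R1all ψ ρ) (i j : Fin n) (hij : i ≠ j) : nu P i = nu P j := by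
  have h1 := nu_aux P h2 hψ hR i j hij
  have h3 := nu_aux P h2 hψ hR j i hij.symm
  rw [add_comm (ev j) (ev i), F4 ψ j i hij.symm, rho_comm (Conj.sw_comm j i)] at h3
  rw [h1] at h3
  have hcs : ((W.cs i : ℂ) * (W.cs j : ℂ)) ≠ 0 := mul_ne_zero (W.cs i).ne_zero (W.cs j).ne_zero
  rw [mul_comm (W.cs j : ℂ)] at h3
  have h4 := smul_right_injective V hcs h3
  have h5 := add_left_cancel h4
  have h2' : (1 + 1 : ℂ) ≠ 0 := by norm_num
  exact (smul_right_injective V h2' h5).symm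

theorem nu_fix (h2 : (2 : F) ≠ 0) (hψ : ψ 1 ≠ 1) (hR : R1all ψ ρ) (hn : 2 ≤ n) (j : Fin n) (B : SymM F n) :
    ρ (UU B) (nu P j) = nu P j := by
  have hall : ∀ j' : Fin n, nu P j' = nu P j := by
    intro j'
    by_cases h : j' = j
    · rw [h]
    · exact nu_eq P h2 hψ hR j' j h
  have hex : ∀ i : Fin n, ∃ k : Fin n, i ≠ k := by
    intro i
    have : Nontrivial (Fin n) := by
      obtain ⟨m, rfl⟩ : ∃ m, n = m + 2 := ⟨n - 2, by omega⟩
      infer_instance
    exact exists_ne i |>.imp fun _ h => h.symm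
  have hhh : hh F * 2 = 1 := by
    have := hh_add (F := F) h2
    linear_combination this
  have hB : B = ∑ i, ∑ k, (hh F * B.1 i k) • pl (ev i) (ev k) := by
    apply Subtype.ext
    ext a c
    have hsym : B.1 c a = B.1 a c := by
      have := congrFun (congrFun (show B.1ᵀ = B.1 from B.2) a) c
      simpa using this
    have h5 : ∀ i k : Fin n, ((hh F * B.1 i k) • pl (ev (F := F) i) (ev k)).1 a c =
        hh F * B.1 i k * (ev i a * ev k c + ev k a * ev i c) := by
      intro i k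
      show ((hh F * B.1 i k) • (vecMulVec (ev (F := F) i) (ev k) + vecMulVec (ev k) (ev i)) : Matrix (Fin n) (Fin n) F) a c = _
      simp [vecMulVec_apply]
    have h6 : (∑ i, ∑ k, (hh F * B.1 i k) • pl (ev (F := F) i) (ev k)).1 a c =
        ∑ i, ∑ k, ((hh F * B.1 i k) • pl (ev (F := F) i) (ev k)).1 a c := by
      simp only [AddSubmonoidClass.coe_finsetSum, Matrix.sum_apply]
    rw [h6]
    simp only [h5, mul_add, Finset.sum_add_distrib]
    have h7 : ∑ i, ∑ k, hh F * B.1 i k * (ev i a * ev k c) = hh F * B.1 a c := by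
      rw [Finset.sum_eq_single a]
      · rw [Finset.sum_eq_single c]
        · simp [ev_same]
        · intro k _ hk
          simp [ev_ne hk]
        · simp
      · intro i _ hi
        apply Finset.sum_eq_zero
        intro k _
        simp [ev_ne hi]
      · simp
    have h8 : ∑ i, ∑ k, hh F * B.1 i k * (ev k a * ev i c) = hh F * B.1 a c := by
      rw [Finset.sum_eq_single c]
      · rw [Finset.sum_eq_single a]
        · simp [ev_same, hsym]
        · intro k _ hk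
          simp [ev_ne hk]
        · simp
      · intro i _ hi
        apply Finset.sum_eq_zero
        intro k _
        simp [ev_ne hi]
      · simp
    rw [h7, h8]
    linear_combination (-B.1 a c) * hhh
  have hsum : ∀ {ι : Type} (s : Finset ι) (f : ι → SymM F n), (∀ x ∈ s, ρ (UU (f x)) (nu P j) = nu P j) →
      ρ (UU (∑ x ∈ s, f x)) (nu P j) = nu P j := by
    intro ι s f hf
    classical
    induction s using Finset.induction_on with
    | empty => simp [UU_zero]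
    | insert a s ha ih =>
      rw [Finset.sum_insert ha, UU_add, rho_mul, ih (fun x hx => hf x (Finset.mem_insert_of_mem hx))]
      exact hf a (Finset.mem_insert_self a s)
  rw [hB]
  refine hsum _ _ fun i _ => hsum _ _ fun k _ => ?_
  by_cases hik : i = k
  · subst hik
    obtain ⟨k, hk⟩ := hex i
    have h9 : (hh F * B.1 i i) • pl (ev (F := F) i) (ev i) = B.1 i i • rk1 (ev i) := by
      apply Subtype.ext
      ext a c
      show ((hh F * B.1 i i) • (vecMulVec (ev (F := F) i) (ev i) + vecMulVec (ev i) (ev i)) : Matrix (Fin n) (Fin n) F) a c = (B.1 i i • (vecMulVec (ev (F := F) i) (ev i)) : Matrix (Fin n) (Fin n) F) a c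
      simp only [Matrix.smul_apply, Matrix.add_apply, smul_eq_mul]
      linear_combination (B.1 i i * vecMulVec (ev (F := F) i) (ev i) a c) * hhh
    rw [h9, ← hall k]
    exact nu_fix_rk1 P _ i k hk
  · rw [← hall k]
    exact nu_fix_pl P h2 hψ hR _ i k hik


end Cfsg.Agent.Lib.WeilGap.Ext2
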