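import Cfsg.Agent.Lib.WeilGap.Classify
import Cfsg.Agent.Lib.CharDeep.Det

/-!
# [FINAL] Assembly of S2524.
-/

set_option autoImplicit false
set_option linter.unusedSectionVars false
set_option linter.unusedVariables false

namespace Cfsg.Agent.Lib.WeilGap.Final

open Module Matrix Cfsg.Agent.Lib.SpDeg.Main Cfsg.Agent.Lib.SpDeg.Odd Cfsg.Agent.Lib.Weil.Basic
  Cfsg.Agent.Lib.Weil.Minus Cfsg.Agent.Lib.WeilGap.Defs Cfsg.Agent.Lib.WeilGap.IrrPar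
  Cfsg.Agent.Lib.WeilGap.OrbitGap Cfsg.Agent.Lib.WeilGap.Classify
open scoped _root_.Classical

universe u

variable {F : Type u} [Field F] [Fintype F] {n : ℕ}

/-- Arithmetic: the gap exceeds the Weil degrees. -/
lemma arith_gap (q N k : ℕ) (hq : 3 ≤ q) (hN : q * q ≤ N) (hk : (N - 1) * (N - q) ≤ 2 * (q + 1) * k) : N + 1 < 2 * k := by
  have hN9 : 9 ≤ N := le_trans (by nlinarith) hN
  obtain ⟨M, rfl⟩ : ∃ M, N = M + 1 := ⟨N - 1, by omega⟩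
  have hqN : q ≤ M + 1 := by nlinarith
  obtain ⟨D, hD⟩ : ∃ D, M + 1 = q + D := ⟨M + 1 - q, by omega⟩
  have hDq : q * q - q ≤ D := by
    have : q * q ≤ q + D := by omega
    omega
  simp only [Nat.add_sub_cancel] at hk
  have h1 : M + 1 - q = D := by omega
  rw [h1] at hk
  by_contra hcon
  push Not at hcon
  have h3 : 2 * (q + 1) * k ≤ (q + 1) * (M + 1 + 1) := by nlinarith
  have h4 : M * D ≤ (q + 1) * (M + 1 + 1) := hk.trans h3
  obtain ⟨Q, rfl⟩ : ∃ Q, q = Q + 3 := ⟨q - 3, by omega⟩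
  have h5 : (Q + 3) * (Q + 3) ≤ (Q + 3) + D := by omega
  have h6 : Q * Q + 5 * Q + 6 ≤ D := by nlinarith
  have h7 : (Q + 3) * (Q + 3) ≤ M + 1 := hN
  nlinarith [Nat.zero_le Q, Nat.zero_le M, Nat.zero_le D, Nat.mul_le_mul_left M h6, Nat.zero_le (Q * Q), Nat.zero_le (Q * M), Nat.zero_le (Q * Q * M)]

/-- The degree of an irreducible `ρ` is nonzero. -/
lemma k_ne_zero {G : Type*} [Group G] {k : ℕ} (ρ : Representation ℂ G (Fin k → ℂ)) (hirr : ρ.IsIrreducible) : k ≠ 0 := by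
  rintro rfl
  obtain ⟨⟨a, b, hab⟩⟩ := hirr.toNontrivial
  apply hab
  apply Subrepresentation.toSubmodule_injective
  apply Subsingleton.elim

lemma card_eq_two' {α : Type*} (p : α → Prop) (x y : α) (hx : p x) (hy : p y) (hne : x ≠ y)
    (h : ∀ z, p z → z = x ∨ z = y) : Nat.card {z // p z} = 2 := by
  rw [Nat.card_eq_two_iff]
  refine ⟨⟨x, hx⟩, ⟨y, hy⟩, fun h' => hne (congrArg Subtype.val h'), ?_⟩
  ext ⟨z, hz⟩
  simp only [Set.mem_insert_iff, Set.mem_singleton_iff, Set.mem_univ, iff_true, Subtype.mk.injEq]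
  exact h z hz

/-- The dichotomy. -/
theorem dichotomy (hn : 2 ≤ n) (h2 : (2 : F) ≠ 0) (ψ₀ : AddChar F ℂ) (hψ : ψ₀ 1 ≠ 1) (a₂ : F) (ha₂ : a₂ ≠ 0) (hns : ¬ IsSquare a₂) (hψ₂ : ψ₀ a₂ ≠ 1)
    (W₁ : WT (F := F) (n := n) (ψ₀.mulShift 1)) (W₂ : WT (F := F) (n := n) (ψ₀.mulShift a₂))
    {k : ℕ} (hk : 2 ≤ k) (ρ : Representation ℂ (Gp F n) (Fin k → ℂ)) (hirr : ρ.IsIrreducible) :
    (Fintype.card F ^ n - 1) * (Fintype.card F ^ n - Fintype.card F) ≤ 2 * (Fintype.card F + 1) * k ∨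
    ρ.character = chiPar W₁ 1 ∨ ρ.character = chiPar W₁ (-1) ∨ ρ.character = chiPar W₂ 1 ∨ ρ.character = chiPar W₂ (-1) := by
  by_cases hR : R1all ψ₀ (ρ : Gp F n →* Module.End ℂ (Fin k → ℂ))
  · exact Or.inr (classify hn h2 ψ₀ hψ a₂ ha₂ hns hψ₂ W₁ W₂ hk ρ hirr hR)
  · left
    unfold R1all at hR
    push Not at hR
    obtain ⟨f, hf, hnot⟩ := hR
    have := deg_gap (V := Fin k → ℂ) (ψ := ψ₀) ρ h2 hψ hn hf hnot
    simpa using this

theorem main {F : Type u} [Field F] [Fintype F] (hodd : Odd (Fintype.card F)) (n : ℕ) (hn : 2 ≤ n) :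
    Nat.card {χ : Cfsg.IrrCharacter ↥(Matrix.symplecticGroup (Fin n) F) // (χ : ↥(Matrix.symplecticGroup (Fin n) F) → ℂ) 1 = (((Fintype.card F) ^ n + 1 : ℕ) : ℂ) / 2} = 2 ∧
    Nat.card {χ : Cfsg.IrrCharacter ↥(Matrix.symplecticGroup (Fin n) F) // (χ : ↥(Matrix.symplecticGroup (Fin n) F) → ℂ) 1 = (((Fintype.card F) ^ n - 1 : ℕ) : ℂ) / 2} = 2 ∧
    ∀ χ : Cfsg.IrrCharacter ↥(Matrix.symplecticGroup (Fin n) F),
      (χ : ↥(Matrix.symplecticGroup (Fin n) F) → ℂ) 1 ≠ 1 →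
      (χ : ↥(Matrix.symplecticGroup (Fin n) F) → ℂ) 1 ≠ (((Fintype.card F) ^ n + 1 : ℕ) : ℂ) / 2 →
      (χ : ↥(Matrix.symplecticGroup (Fin n) F) → ℂ) 1 ≠ (((Fintype.card F) ^ n - 1 : ℕ) : ℂ) / 2 →
      (((Fintype.card F) ^ n - 1 : ℕ) : ℝ) * (((Fintype.card F) ^ n - Fintype.card F : ℕ) : ℝ) / (2 * ((Fintype.card F : ℕ) + 1 : ℝ)) ≤ ‖(χ : ↥(Matrix.symplecticGroup (Fin n) F) → ℂ) 1‖ := by
  classical
  have h2 : (2 : F) ≠ 0 := by
    intro h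
    have h1 := (Cfsg.Agent.Lib.Classical.SympSimple.two_eq_zero_iff_even_card (F := F)).mp h
    exact (Nat.not_even_iff_odd.mpr hodd) h1
  have hq3 : 3 ≤ Fintype.card F := by
    have h1 : 2 ≤ Fintype.card F := Fintype.one_lt_card
    obtain ⟨m, hm⟩ := hodd
    omega
  set q := Fintype.card F with hq
  set N := q ^ n with hN
  have hNqq : q * q ≤ N := by
    rw [hN, ← pow_two]
    exact Nat.pow_le_pow_right (by omega) hn
  have hN9 : 9 ≤ N := le_trans (by nlinarith) hNqq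
  have hNodd : Odd N := hodd.pow
  obtain ⟨ψ₀, hψ⟩ := Cfsg.Agent.Lib.SUDeg.Final.exists_psi (F := F)
  obtain ⟨a₂, ha₂, hns, hψ₂⟩ := exists_nonsquare h2 ψ₀ hψ
  have hψ1 : (ψ₀.mulShift 1) 1 ≠ 1 := by simpa [AddChar.mulShift_apply] using hψ
  have hψa : (ψ₀.mulShift a₂) 1 ≠ 1 := by simpa [AddChar.mulShift_apply] using hψ₂
  obtain ⟨W₁⟩ := Cfsg.Agent.Lib.WeilGap.Wt.exists_WT (n := n) (ψ₀.mulShift 1) hn h2 hψ1
  obtain ⟨W₂⟩ := Cfsg.Agent.Lib.WeilGap.Wt.exists_WT (n := n) (ψ₀.mulShift a₂) hn h2 hψa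
  have hdim1 : ((finrank ℂ (Par F n 1) : ℕ) : ℂ) = ((N + 1 : ℕ) : ℂ) / 2 := by
    have : 2 * finrank ℂ (Par F n 1) = N + 1 := finrank_Par_one (F := F) (n := n) h2
    rw [← this]
    push_cast
    ring
  have hdim2 : ((finrank ℂ (Par F n (-1)) : ℕ) : ℂ) = ((N - 1 : ℕ) : ℂ) / 2 := by
    have : 2 * finrank ℂ (Par F n (-1)) + 1 = N := finrank_Par_neg (F := F) (n := n) h2
    have h3 : N - 1 = 2 * finrank ℂ (Par F n (-1)) := by omega
    rw [h3]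
    push_cast
    ring
  -- the values at `1`
  have hv1 : ∀ {ψ : AddChar F ℂ} (W : WT (F := F) (n := n) ψ), chiPar W 1 1 = ((N + 1 : ℕ) : ℂ) / 2 := by
    intro ψ W
    rw [chiPar_one, hdim1]
  have hv2 : ∀ {ψ : AddChar F ℂ} (W : WT (F := F) (n := n) ψ), chiPar W (-1) 1 = ((N - 1 : ℕ) : ℂ) / 2 := by
    intro ψ W
    rw [chiPar_one, hdim2]
  have hne12 : ((N + 1 : ℕ) : ℂ) / 2 ≠ ((N - 1 : ℕ) : ℂ) / 2 := by
    intro h
    have h3 : ((N + 1 : ℕ) : ℂ) = ((N - 1 : ℕ) : ℂ) := by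
      have h4 : (2 : ℂ) ≠ 0 := two_ne_zero
      field_simp at h
      exact h
    have h5 : N + 1 = N - 1 := by exact_mod_cast h3
    omega
  -- the four characters
  let c1p : Cfsg.IrrCharacter (Gp F n) := ⟨chiPar W₁ 1, isIrr_chiPar W₁ hn h2 hψ1 1 (Or.inl rfl)⟩
  let c1m : Cfsg.IrrCharacter (Gp F n) := ⟨chiPar W₁ (-1), isIrr_chiPar W₁ hn h2 hψ1 (-1) (Or.inr rfl)⟩
  let c2p : Cfsg.IrrCharacter (Gp F n) := ⟨chiPar W₂ 1, isIrr_chiPar W₂ hn h2 hψa 1 (Or.inl rfl)⟩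
  let c2m : Cfsg.IrrCharacter (Gp F n) := ⟨chiPar W₂ (-1), isIrr_chiPar W₂ hn h2 hψa (-1) (Or.inr rfl)⟩
  have hns' : ¬ IsSquare ((1 : F) / a₂) := by
    intro h
    apply hns
    have h3 : a₂ = ((1 : F) / a₂)⁻¹ := by simp
    rw [h3]
    exact h.inv
  have hψ11 : ψ₀ 1 ≠ 1 := hψ
  have hcp : c1p ≠ c2p := by
    intro h
    exact chiPar_ne hn h2 ψ₀ 1 a₂ one_ne_zero ha₂ hns' W₁ W₂ hψ11 hψ₂ 1 (Or.inl rfl) (congrArg Subtype.val h)
  have hcm : c1m ≠ c2m := by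
    intro h
    exact chiPar_ne hn h2 ψ₀ 1 a₂ one_ne_zero ha₂ hns' W₁ W₂ hψ11 hψ₂ (-1) (Or.inr rfl) (congrArg Subtype.val h)
  -- every irreducible
  have hall : ∀ χ : Cfsg.IrrCharacter (Gp F n), ∃ k : ℕ, k ≠ 0 ∧ (χ.1 1 = (k : ℂ)) ∧ (2 ≤ k →
      (N - 1) * (N - q) ≤ 2 * (q + 1) * k ∨ χ = c1p ∨ χ = c1m ∨ χ = c2p ∨ χ = c2m) := by
    rintro ⟨χ, k, ρ, hirr, rfl⟩
    refine ⟨k, k_ne_zero ρ hirr, Cfsg.Agent.Lib.CharDeep.Det.deg_eq ρ, fun hk => ?_⟩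
    rcases dichotomy hn h2 ψ₀ hψ a₂ ha₂ hns hψ₂ W₁ W₂ hk ρ hirr with h | h | h | h | h
    · exact Or.inl h
    · exact Or.inr (Or.inl (Subtype.ext h))
    · exact Or.inr (Or.inr (Or.inl (Subtype.ext h)))
    · exact Or.inr (Or.inr (Or.inr (Or.inl (Subtype.ext h))))
    · exact Or.inr (Or.inr (Or.inr (Or.inr (Subtype.ext h))))
  refine ⟨?_, ?_, ?_⟩
  · apply card_eq_two' _ c1p c2p (hv1 W₁) (hv1 W₂) hcp
    intro χ hχ
    obtain ⟨k, hk0, hk1, hk⟩ := hall χ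
    have hk2 : 2 * k = N + 1 := by
      rw [hk1] at hχ
      have h4 : (2 : ℂ) ≠ 0 := two_ne_zero
      have h5 : (k : ℂ) * 2 = ((N + 1 : ℕ) : ℂ) := by
        rw [hχ]; field_simp
      have h6 : k * 2 = N + 1 := by exact_mod_cast h5
      omega
    rcases hk (by omega) with h | h | h | h | h
    · have := arith_gap q N k hq3 hNqq h
      omega
    · exact Or.inl h
    · exfalso
      rw [h] at hχ
      exact hne12 (hχ.symm.trans (hv2 W₁))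
    · exact Or.inr h
    · exfalso
      rw [h] at hχ
      exact hne12 (hχ.symm.trans (hv2 W₂))
  · apply card_eq_two' _ c1m c2m (hv2 W₁) (hv2 W₂) hcm
    intro χ hχ
    obtain ⟨k, hk0, hk1, hk⟩ := hall χ
    have hk2 : 2 * k + 1 = N := by
      rw [hk1] at hχ
      have h4 : (2 : ℂ) ≠ 0 := two_ne_zero
      have h5 : (k : ℂ) * 2 = ((N - 1 : ℕ) : ℂ) := by
        rw [hχ]; field_simp
      have h6 : k * 2 = N - 1 := by exact_mod_cast h5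
      omega
    rcases hk (by omega) with h | h | h | h | h
    · have := arith_gap q N k hq3 hNqq h
      omega
    · exfalso
      rw [h] at hχ
      exact hne12 ((hv1 W₁).symm.trans hχ)
    · exact Or.inl h
    · exfalso
      rw [h] at hχ
      exact hne12 ((hv1 W₂).symm.trans hχ)
    · exact Or.inr h
  · intro χ h1 hp hm
    obtain ⟨k, hk0, hk1, hk⟩ := hall χ
    have hk2 : 2 ≤ k := by
      by_contra hcon
      have h3 : k = 1 := by omega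
      apply h1
      rw [hk1, h3]
      simp
    rcases hk hk2 with h | h | h | h | h
    · rw [hk1, Complex.norm_natCast]
      have h3 : 0 < (2 * ((q : ℕ) + 1 : ℝ)) := by positivity
      rw [div_le_iff₀ h3]
      have h4 : (((N - 1) * (N - q) : ℕ) : ℝ) ≤ ((2 * (q + 1) * k : ℕ) : ℝ) := by exact_mod_cast h
      push_cast at h4
      have h5 : ((N - 1 : ℕ) : ℝ) * ((N - q : ℕ) : ℝ) ≤ 2 * ((q : ℝ) + 1) * (k : ℝ) := by exact_mod_cast h4
      linarith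
    · exfalso; rw [h] at hp; exact hp (hv1 W₁)
    · exfalso; rw [h] at hm; exact hm (hv2 W₁)
    · exfalso; rw [h] at hp; exact hp (hv1 W₂)
    · exfalso; rw [h] at hm; exact hm (hv2 W₂)

end Cfsg.Agent.Lib.WeilGap.Final
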