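import Cfsg.Agent.Lib.WeilGap.Defs

/-!
# [GEN] `stab_gen` and `gl_trans`, by Gaussian elimination.
-/

set_option autoImplicit false
set_option linter.unusedSectionVars false
set_option linter.unusedVariables false

namespace Cfsg.Agent.Lib.WeilGap.GenAux

open Module Matrix Cfsg.Agent.Lib.WeilGap.Defs
open scoped _root_.Classical

universe u

variable {F : Type u} [Field F] [Fintype F] {n : ℕ}

theorem gl_trans' (i₀ : Fin n) (u : Fin n → F) (hu : u ≠ 0) :
    ∃ R : GL (Fin n) F, ((R⁻¹ : GL (Fin n) F) : Matrix (Fin n) (Fin n) F)ᵀ *ᵥ ev i₀ = u := by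
  obtain ⟨k, hk⟩ := Function.ne_iff.mp hu
  have hk' : u k ≠ 0 := by simpa using hk
  let σ : Equiv.Perm (Fin n) := Equiv.swap i₀ k
  have hσσ : ∀ i, σ (σ i) = i := fun i => Equiv.swap_apply_self _ _ _
  let u' : Fin n → F := fun i => u (σ i)
  let A : Matrix (Fin n) (Fin n) F := (1 : Matrix (Fin n) (Fin n) F).updateCol i₀ u'
  have hA : A.det = u k := by
    have := Matrix.cramer_apply (1 : Matrix (Fin n) (Fin n) F) u' i₀
    rw [← this, Matrix.cramer_one]
    simp [u', σ]
  let B : Matrix (Fin n) (Fin n) F := A.submatrix σ id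
  have hB : B.det ≠ 0 := by
    have h1 := Matrix.det_permute σ A
    show (A.submatrix σ id).det ≠ 0
    rw [h1, hA]
    have h2 : (((Equiv.Perm.sign σ : ℤˣ) : ℤ) : F) ≠ 0 := by
      rcases Int.units_eq_one_or (Equiv.Perm.sign σ) with h | h <;> simp [h]
    exact mul_ne_zero h2 hk'
  have hBt : (Bᵀ).det ≠ 0 := by rwa [Matrix.det_transpose]
  let g : GL (Fin n) F := Matrix.GeneralLinearGroup.mkOfDetNeZero Bᵀ hBt
  refine ⟨g⁻¹, ?_⟩
  rw [inv_inv]
  have hg : ((g : GL (Fin n) F) : Matrix (Fin n) (Fin n) F) = Bᵀ := rfl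
  rw [hg, Matrix.transpose_transpose]
  funext i
  have e : (B *ᵥ ev i₀) i = B i i₀ := by
    simp [Matrix.mulVec, dotProduct, ev, Pi.single_apply]
  rw [e]
  show A (σ i) i₀ = u i
  simp [A, Matrix.updateCol_apply, u', hσσ]

section Block

variable (i₀ : Fin n)

/-- The subtype of the other coordinates. -/
abbrev Sb (i₀ : Fin n) := {k : Fin n // k ≠ i₀}

/-- The block embedding. -/
noncomputable def phi (M : Matrix (Sb i₀) (Sb i₀) F) : Matrix (Fin n) (Fin n) F := fun a b =>
  if ha : a = i₀ then (if b = i₀ then 1 else 0) else if hb : b = i₀ then 0 else M ⟨a, ha⟩ ⟨b, hb⟩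

omit [Fintype F] in
lemma sum_split (f : Fin n → F) : ∑ c, f c = f i₀ + ∑ c : Sb i₀, f c.1 := by
  rw [← Finset.add_sum_erase Finset.univ f (Finset.mem_univ i₀)]
  congr 1
  symm
  apply Finset.sum_bij (fun (c : Sb i₀) _ => c.1)
  · intro c _
    simp [c.2]
  · intro a _ b _ h
    exact Subtype.ext h
  · intro b hb
    exact ⟨⟨b, (Finset.mem_erase.mp hb).1⟩, Finset.mem_univ _, rfl⟩
  · intro _ _
    rfl

lemma phi_mul (A B : Matrix (Sb i₀) (Sb i₀) F) : phi i₀ (A * B) = phi i₀ A * phi i₀ B := by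
  ext a b
  rw [Matrix.mul_apply, sum_split i₀]
  have h0 : ∀ c : Sb i₀, c.1 ≠ i₀ := fun c => c.2
  by_cases ha : a = i₀
  · subst ha
    by_cases hb : b = a
    · subst hb
      simp [phi, h0]
    · simp [phi, hb, h0]
  · by_cases hb : b = i₀
    · subst hb
      simp [phi, ha, h0]
    · simp [phi, ha, hb, Matrix.mul_apply, h0]

lemma phi_one : phi i₀ (1 : Matrix (Sb i₀) (Sb i₀) F) = 1 := by
  ext a b
  by_cases ha : a = i₀
  · subst ha
    by_cases hb : b = a
    · subst hb
      simp [phi]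
    · simp [phi, hb, Matrix.one_apply, Ne.symm hb]
  · by_cases hb : b = i₀
    · subst hb
      simp [phi, ha, Matrix.one_apply]
    · simp [phi, ha, hb, Matrix.one_apply, Subtype.ext_iff]

lemma phi_inj {A B : Matrix (Sb i₀) (Sb i₀) F} (h : phi i₀ A = phi i₀ B) : A = B := by
  ext a b
  have := congrFun (congrFun h a.1) b.1
  simpa [phi, a.2, b.2] using this

/-- The compression. -/
noncomputable def cp (R : Matrix (Fin n) (Fin n) F) : Matrix (Sb i₀) (Sb i₀) F := R.submatrix (·.1) (·.1)

lemma phi_cp {R : Matrix (Fin n) (Fin n) F} (h1 : ∀ k, R i₀ k = if k = i₀ then 1 else 0)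
    (h2 : ∀ j, j ≠ i₀ → R j i₀ = 0) : phi i₀ (cp i₀ R) = R := by
  ext a b
  by_cases ha : a = i₀
  · subst ha
    simp [phi, h1]
  · by_cases hb : b = i₀
    · subst hb
      simp [phi, ha, h2 a ha]
    · simp [phi, ha, hb, cp]

/-- The diagonal part. -/
lemma diag_mem (Z : Subgroup (GL (Fin n) F)) (h1 : ∀ j, j ≠ i₀ → ∀ t : Fˣ, dg j t ∈ Z) (s : Finset (Sb i₀))
    (D : Sb i₀ → F) (hD : ∀ k, D k ≠ 0) (hs : ∀ k, k ∉ s → D k = 1) :
    ∃ g ∈ Z, (g : Matrix (Fin n) (Fin n) F) = phi i₀ (Matrix.diagonal D) := by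
  induction s using Finset.induction_on generalizing D with
  | empty =>
    have : D = 1 := by
      funext k
      exact hs k (by simp)
    refine ⟨1, Z.one_mem, ?_⟩
    have e : Matrix.diagonal (1 : Sb i₀ → F) = 1 := Matrix.diagonal_one
    rw [this, e, phi_one]
    rfl
  | insert a s ha ih =>
    obtain ⟨g, hg, hg'⟩ := ih (Function.update D a 1) (by
      intro k
      by_cases h : k = a
      · subst h; simp
      · simp [Function.update_of_ne h, hD k]) (by
      intro k hk
      by_cases h : k = a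
      · subst h; simp
      · rw [Function.update_of_ne h]
        exact hs k (by simp [h, hk]))
    refine ⟨g * dg a.1 (Units.mk0 (D a) (hD a)), Z.mul_mem hg (h1 _ a.2 _), ?_⟩
    rw [Units.val_mul, hg']
    have hdg : ((dg a.1 (Units.mk0 (D a) (hD a)) : GL (Fin n) F) : Matrix (Fin n) (Fin n) F) =
        phi i₀ (Matrix.diagonal (Function.update 1 a (D a))) := by
      ext x y
      show (Matrix.diagonal (Function.update 1 a.1 (D a))) x y = _
      by_cases hx : x = i₀
      · subst hx
        by_cases hy : y = x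
        · subst hy
          simp [phi, Function.update_of_ne (Ne.symm a.2)]
        · simp [phi, hy, Matrix.diagonal_apply, Ne.symm hy]
      · by_cases hy : y = i₀
        · subst hy
          simp [phi, hx, Matrix.diagonal_apply]
        · simp only [phi, hx, hy, dite_false, Matrix.diagonal_apply, Subtype.mk.injEq]
          by_cases hxy : x = y
          · subst hxy
            by_cases hxa : x = a.1
            · subst hxa
              simp
            · have : (⟨x, hx⟩ : Sb i₀) ≠ a := fun h => hxa (congrArg Subtype.val h)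
              simp [Function.update_of_ne this, Function.update_of_ne hxa]
          · simp [hxy]
    rw [hdg, ← phi_mul, Matrix.diagonal_mul_diagonal]
    congr 2
    funext k
    by_cases h : k = a
    · subst h; simp
    · simp [Function.update_of_ne h]

/-- The block step. -/
lemma block_mem (Z : Subgroup (GL (Fin n) F)) (h1 : ∀ j, j ≠ i₀ → ∀ t : Fˣ, dg j t ∈ Z)
    (h2 : ∀ (i j : Fin n) (hij : i ≠ j), j ≠ i₀ → ∀ b : F, el i j hij b ∈ Z) (M : Matrix (Sb i₀) (Sb i₀) F)
    (hM : M.det ≠ 0) : ∃ g ∈ Z, (g : Matrix (Fin n) (Fin n) F) = phi i₀ M := by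
  refine Matrix.diagonal_transvection_induction_of_det_ne_zero
    (fun N => ∃ g ∈ Z, (g : Matrix (Fin n) (Fin n) F) = phi i₀ N) M hM ?_ ?_ ?_
  · intro D hD
    refine diag_mem i₀ Z h1 Finset.univ D ?_ (by simp)
    intro k hk
    rw [Matrix.det_diagonal] at hD
    exact hD (Finset.prod_eq_zero (Finset.mem_univ k) hk)
  · intro t
    refine ⟨el t.j.1 t.i.1 (fun h => t.hij (Subtype.ext h.symm)) (-t.c), h2 _ _ _ t.i.2 _, ?_⟩
    ext x y
    show (1 - (-t.c) • Matrix.single t.i.1 t.j.1 (1 : F)) x y = phi i₀ t.toMatrix x y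
    have ht : t.toMatrix = Matrix.transvection t.i t.j t.c := rfl
    rw [ht]
    by_cases hx : x = i₀
    · subst hx
      have h3 := t.i.2
      by_cases hy : y = x
      · subst hy
        simp [phi, Matrix.single_apply, h3]
      · simp [phi, Matrix.single_apply, h3, hy, Matrix.one_apply, Ne.symm hy]
    · by_cases hy : y = i₀
      · subst hy
        have h3 := t.j.2
        simp [phi, hx, Matrix.single_apply, h3, Matrix.one_apply, Ne.symm h3]
      · simp only [phi, hx, hy, dite_false, Matrix.transvection, Matrix.add_apply, Matrix.sub_apply,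
          Matrix.smul_apply, Matrix.single_apply, Matrix.one_apply, Subtype.mk.injEq, smul_eq_mul, Subtype.ext_iff]
        by_cases hi : t.i.1 = x <;> by_cases hj : t.j.1 = y <;> simp [hi, hj]
  · intro A B _ _ ⟨g, hg, hg'⟩ ⟨g2, hg2, hg2'⟩
    exact ⟨g * g2, Z.mul_mem hg hg2, by rw [Units.val_mul, hg', hg2', phi_mul]⟩

end Block

/-- The main statement, with the first column partly cleared. -/
theorem stab_gen_aux (i₀ : Fin n) (Z : Subgroup (GL (Fin n) F)) (h1 : ∀ j, j ≠ i₀ → ∀ t : Fˣ, dg j t ∈ Z)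
    (h2 : ∀ (i j : Fin n) (hij : i ≠ j), j ≠ i₀ → ∀ b : F, el i j hij b ∈ Z) (s : Finset (Fin n)) (his : i₀ ∉ s) :
    ∀ (R : GL (Fin n) F) (hR : ∀ k, (R : Matrix (Fin n) (Fin n) F) i₀ k = if k = i₀ then 1 else 0)
      (hc : ∀ j, j ≠ i₀ → j ∉ s → (R : Matrix (Fin n) (Fin n) F) j i₀ = 0), R ∈ Z := by
  induction s using Finset.induction_on with
  | empty =>
    intro R hR hc
    have hc' : ∀ j, j ≠ i₀ → (R : Matrix (Fin n) (Fin n) F) j i₀ = 0 := fun j hj => hc j hj (by simp)
    -- the inverse has the same shape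
    let Q : Matrix (Fin n) (Fin n) F := ((R⁻¹ : GL (Fin n) F) : Matrix (Fin n) (Fin n) F)
    have hRQ : (R : Matrix (Fin n) (Fin n) F) * Q = 1 := by
      show ((R * R⁻¹ : GL (Fin n) F) : Matrix (Fin n) (Fin n) F) = 1
      simp
    have hQR : Q * (R : Matrix (Fin n) (Fin n) F) = 1 := by
      show ((R⁻¹ * R : GL (Fin n) F) : Matrix (Fin n) (Fin n) F) = 1
      simp
    have hQ1 : ∀ k, Q i₀ k = if k = i₀ then 1 else 0 := by
      intro k
      have := congrFun (congrFun hRQ i₀) k
      rw [Matrix.mul_apply, Finset.sum_eq_single i₀] at this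
      · rw [hR i₀, if_pos rfl, one_mul] at this
        rw [this, Matrix.one_apply]
        simp [eq_comm]
      · intro b _ hb
        rw [hR b, if_neg hb, zero_mul]
      · simp
    have hQ2 : ∀ j, j ≠ i₀ → Q j i₀ = 0 := by
      intro j hj
      have := congrFun (congrFun hQR j) i₀
      rw [Matrix.mul_apply, Finset.sum_eq_single i₀] at this
      · rw [hR i₀, if_pos rfl, mul_one] at this
        rw [this, Matrix.one_apply, if_neg hj]
      · intro b _ hb
        rw [hc' b hb, mul_zero]
      · simp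
    have hp := phi_cp i₀ hR hc'
    have hq := phi_cp i₀ hQ1 hQ2
    have hdet : (cp i₀ (R : Matrix (Fin n) (Fin n) F)).det ≠ 0 := by
      have h3 : cp i₀ (R : Matrix (Fin n) (Fin n) F) * cp i₀ Q = 1 := by
        apply phi_inj i₀
        rw [phi_mul, hp, hq, hRQ, phi_one]
      intro h0
      have h4 := congrArg Matrix.det h3
      rw [Matrix.det_mul, h0, zero_mul, Matrix.det_one] at h4
      exact zero_ne_one h4
    obtain ⟨g, hg, hg'⟩ := block_mem i₀ Z h1 h2 _ hdet
    rw [hp] at hg'
    have : g = R := Units.ext hg'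
    rwa [← this]
  | insert a s ha ih =>
    intro R hR hc
    have hi : a ≠ i₀ := fun h => his (by simp [h])
    have his' : i₀ ∉ s := fun h => his (by simp [h])
    let E := el i₀ a (Ne.symm hi) ((R : Matrix (Fin n) (Fin n) F) a i₀)
    have hE : E ∈ Z := h2 _ _ _ hi _
    have hent : ∀ x y, ((E * R : GL (Fin n) F) : Matrix (Fin n) (Fin n) F) x y =
        (R : Matrix (Fin n) (Fin n) F) x y -
          (if x = a then (R : Matrix (Fin n) (Fin n) F) a i₀ * (R : Matrix (Fin n) (Fin n) F) i₀ y else 0) := by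
      intro x y
      rw [Units.val_mul]
      show ((1 - ((R : Matrix (Fin n) (Fin n) F) a i₀) • Matrix.single a i₀ (1 : F)) * (R : Matrix (Fin n) (Fin n) F)) x y = _
      rw [sub_mul, one_mul, Matrix.sub_apply, smul_mul_assoc, Matrix.smul_apply]
      congr 1
      by_cases hx : x = a
      · subst hx
        simp [Matrix.mul_apply, Matrix.single_apply]
      · simp [Matrix.mul_apply, Matrix.single_apply, hx, Ne.symm hx]
    have hER : E * R ∈ Z := by
      apply ih his' (E * R)
      · intro k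
        rw [hent, if_neg (Ne.symm hi), sub_zero, hR]
      · intro j hj hjs
        rw [hent]
        by_cases hja : j = a
        · subst hja
          rw [if_pos rfl, hR i₀, if_pos rfl, mul_one, sub_self]
        · rw [if_neg hja, sub_zero]
          exact hc j hj (by simp [hja, hjs])
    have := Z.mul_mem (Z.inv_mem hE) hER
    simpa using this

theorem stab_gen' (i₀ : Fin n) (Z : Subgroup (GL (Fin n) F)) (h1 : ∀ j, j ≠ i₀ → ∀ t : Fˣ, dg j t ∈ Z)
    (h2 : ∀ (i j : Fin n) (hij : i ≠ j), j ≠ i₀ → ∀ b : F, el i j hij b ∈ Z) (R : GL (Fin n) F)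
    (hR : ∀ k, (R : Matrix (Fin n) (Fin n) F) i₀ k = if k = i₀ then 1 else 0) : R ∈ Z :=
  stab_gen_aux i₀ Z h1 h2 (Finset.univ.erase i₀) (by simp) R hR (fun j hj hjs => absurd (by simp [hj]) hjs)

end Cfsg.Agent.Lib.WeilGap.GenAux
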