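import Cfsg.Agent.Lib.WeilGap.Conj
import Cfsg.Agent.Lib.WeilGap.GenAux
import Cfsg.Agent.Lib.Classical.SympForm

/-!
# [GEN] `closure_UU_sw`, from the generation of `Sp` by transvections.
-/

set_option autoImplicit false
set_option linter.unusedSectionVars false
set_option linter.unusedVariables false

namespace Cfsg.Agent.Lib.WeilGap.GenClosure

open Module Matrix Cfsg.Agent.Lib.SpDeg.Main Cfsg.Agent.Lib.SpDeg.Odd Cfsg.Agent.Lib.Weil.Basic
  Cfsg.Agent.Lib.Weil.Minus Cfsg.Agent.Lib.WeilGap.Defs Cfsg.Agent.Lib.WeilGap.Conj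
open scoped _root_.Classical

universe u

variable {F : Type u} [Field F] [Fintype F] {n : ℕ}

/-- The closure. -/
abbrev HH (F : Type u) [Field F] [Fintype F] (n : ℕ) : Subgroup (Gp F n) :=
  Subgroup.closure (Set.range (UU (F := F) (n := n)) ∪ Set.range (sw (F := F) (n := n)))

lemma UU_mem' (B : SymM F n) : UU B ∈ HH F n := Subgroup.subset_closure (Or.inl ⟨B, rfl⟩)

lemma sw_mem' (i : Fin n) : sw (F := F) i ∈ HH F n := Subgroup.subset_closure (Or.inr ⟨i, rfl⟩)

lemma D_mem' (i : Fin n) (d : F) : D i d ∈ HH F n :=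
  (HH F n).mul_mem ((HH F n).mul_mem (sw_mem' i) (UU_mem' _)) ((HH F n).inv_mem (sw_mem' i))

lemma dg_mem' (i : Fin n) (t : Fˣ) : LL (dg i t) ∈ HH F n := by
  rw [dg_eq]
  exact (HH F n).mul_mem ((HH F n).mul_mem ((HH F n).mul_mem (UU_mem' _) (D_mem' _ _)) (UU_mem' _))
    ((HH F n).inv_mem (sw_mem' i))

lemma el_mem' (i j : Fin n) (hij : i ≠ j) (b : F) : LL (el i j hij b) ∈ HH F n := by
  have h := sw_pl i j hij b
  have e : LL (el i j hij b) = sw i * UU (b • pl (ev i) (ev j)) * (sw i)⁻¹ := by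
    rw [h]
    group
  rw [e]
  exact (HH F n).mul_mem ((HH F n).mul_mem (sw_mem' i) (UU_mem' _)) ((HH F n).inv_mem (sw_mem' i))

lemma diag_mem' (s : Finset (Fin n)) (D : Fin n → F) (hD : ∀ k, D k ≠ 0) (hs : ∀ k, k ∉ s → D k = 1) :
    ∃ g : GL (Fin n) F, (g : Matrix (Fin n) (Fin n) F) = Matrix.diagonal D ∧ LL g ∈ HH F n := by
  induction s using Finset.induction_on generalizing D with
  | empty =>
    have : D = 1 := by
      funext k
      exact hs k (by simp)
    refine ⟨1, ?_, ?_⟩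
    · have e : Matrix.diagonal (1 : Fin n → F) = 1 := Matrix.diagonal_one
      rw [this, Units.val_one, e]
    · have e : LL (1 : GL (Fin n) F) = 1 := by
        have h := LL_mul (1 : GL (Fin n) F) 1
        rw [one_mul] at h
        exact left_eq_mul.mp h
      rw [e]
      exact (HH F n).one_mem
  | insert a s ha ih =>
    obtain ⟨g, hg, hg'⟩ := ih (Function.update D a 1) (by
      intro k
      by_cases h : k = a
      · subst h; simp
      · simp [Function.update_of_ne h, hD k]) (by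
      intro k hk
      by_cases h : k = a
      · subst h; simp
      · rw [Function.update_of_ne h]
        exact hs k (by simp [h, hk]))
    refine ⟨g * dg a (Units.mk0 (D a) (hD a)), ?_, ?_⟩
    · rw [Units.val_mul, hg]
      show Matrix.diagonal _ * Matrix.diagonal (Function.update 1 a _) = _
      rw [Matrix.diagonal_mul_diagonal]
      congr 1
      funext k
      by_cases h : k = a
      · subst h; simp
      · simp [Function.update_of_ne h]
    · rw [LL_mul]
      exact (HH F n).mul_mem hg' (dg_mem' _ _)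

lemma LL_mem' (R : GL (Fin n) F) : LL R ∈ HH F n := by
  have hdet : (R : Matrix (Fin n) (Fin n) F).det ≠ 0 := by
    have := R.isUnit.map (Matrix.detMonoidHom (n := Fin n) (R := F))
    exact IsUnit.ne_zero this
  have key : ∃ g : GL (Fin n) F, (g : Matrix (Fin n) (Fin n) F) = R ∧ LL g ∈ HH F n := by
    refine Matrix.diagonal_transvection_induction_of_det_ne_zero
      (fun N => ∃ g : GL (Fin n) F, (g : Matrix (Fin n) (Fin n) F) = N ∧ LL g ∈ HH F n) _ hdet ?_ ?_ ?_
    · intro D hD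
      refine diag_mem' Finset.univ D ?_ (by simp)
      intro k hk
      rw [Matrix.det_diagonal] at hD
      exact hD (Finset.prod_eq_zero (Finset.mem_univ k) hk)
    · intro t
      refine ⟨el t.j t.i (Ne.symm t.hij) (-t.c), ?_, el_mem' _ _ _ _⟩
      show (1 - (-t.c) • Matrix.single t.i t.j (1 : F)) = t.toMatrix
      have ht : t.toMatrix = Matrix.transvection t.i t.j t.c := rfl
      rw [ht, Matrix.transvection]
      ext x y
      simp [Matrix.single_apply]
    · rintro A B _ _ ⟨g, hg, hg'⟩ ⟨g2, hg2, hg2'⟩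
      refine ⟨g * g2, by rw [Units.val_mul, hg, hg2], ?_⟩
      rw [LL_mul]
      exact (HH F n).mul_mem hg' hg2'
  obtain ⟨g, hg, hg'⟩ := key
  have : g = R := Units.ext hg
  rwa [← this]

/-- The `wa` part. -/
def wA (v : Fin n ⊕ Fin n → F) : Fin n → F := fun i => v (Sum.inl i)

/-- The `wb` part. -/
def wB (v : Fin n ⊕ Fin n → F) : Fin n → F := fun i => v (Sum.inr i)

lemma elim_eq (v : Fin n ⊕ Fin n → F) : v = Sum.elim (wA v) (wB v) := by
  funext i
  cases i <;> rfl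

lemma Eii_mulVec (i : Fin n) (x : Fin n → F) : Eii (F := F) i *ᵥ x = Pi.single i (x i) := by
  funext k
  by_cases h : k = i
  · subst h
    simp [Eii, Matrix.mulVec, dotProduct, Matrix.single_apply]
  · simp [Eii, Matrix.mulVec, dotProduct, Matrix.single_apply, h, Ne.symm h]

lemma sw_mulVec (i : Fin n) (a b : Fin n → F) : (sw (F := F) i).1 *ᵥ Sum.elim a b =
    Sum.elim ((1 - Eii i) *ᵥ a + (- Eii i) *ᵥ b) (Eii i *ᵥ a + (1 - Eii i) *ᵥ b) := by
  show swM i *ᵥ _ = _
  rw [swM, Matrix.fromBlocks_mulVec]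
  rfl

lemma LL_mulVec (R : GL (Fin n) F) (a b : Fin n → F) : (LL R).1 *ᵥ Sum.elim a b =
    Sum.elim ((R : Matrix (Fin n) (Fin n) F) *ᵥ a) (((R⁻¹ : GL (Fin n) F) : Matrix (Fin n) (Fin n) F)ᵀ *ᵥ b) := by
  show (fromBlocks (R : Matrix (Fin n) (Fin n) F) 0 0 ((R⁻¹ : GL (Fin n) F) : Matrix (Fin n) (Fin n) F)ᵀ) *ᵥ _ = _
  rw [Matrix.fromBlocks_mulVec]
  simp

lemma UU_mulVec' (B : SymM F n) (a b : Fin n → F) : (UU B).1 *ᵥ Sum.elim a b = Sum.elim (a + B.1 *ᵥ b) b := by
  rw [UU_coe, Matrix.fromBlocks_mulVec]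
  simp

lemma trans_b (i₀ : Fin n) (w : Fin n ⊕ Fin n → F) (hb : wB w ≠ 0) :
    ∃ h ∈ HH F n, h.1 *ᵥ (Sum.elim (ev i₀) 0) = w := by
  obtain ⟨R, hR⟩ := GenAux.gl_trans' i₀ (wB w) hb
  obtain ⟨B, hB⟩ := Cfsg.Agent.Lib.Weil.Ext.exists_sym_mulVec hb (wA w)
  refine ⟨UU B * LL R * sw i₀, (HH F n).mul_mem ((HH F n).mul_mem (UU_mem' _) (LL_mem' _)) (sw_mem' _), ?_⟩
  have e1 : (sw (F := F) i₀).1 *ᵥ (Sum.elim (ev i₀) (0 : Fin n → F)) = Sum.elim (0 : Fin n → F) (ev i₀) := by
    rw [sw_mulVec]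
    have h1 : Eii (F := F) i₀ *ᵥ ev i₀ = ev i₀ := by
      rw [Eii_mulVec]
      simp [ev]
    simp [Matrix.sub_mulVec, h1]
  show ((UU B).1 * (LL R).1 * (sw i₀).1) *ᵥ _ = _
  rw [← Matrix.mulVec_mulVec, e1, ← Matrix.mulVec_mulVec, LL_mulVec, hR, Matrix.mulVec_zero, UU_mulVec', hB, zero_add]
  exact (elim_eq w).symm

lemma trans_all (i₀ : Fin n) (w : Fin n ⊕ Fin n → F) (hw : w ≠ 0) :
    ∃ h ∈ HH F n, h.1 *ᵥ (Sum.elim (ev i₀) 0) = w := by
  by_cases hb : wB w = 0
  · have ha : wA w ≠ 0 := by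
      intro ha
      apply hw
      rw [elim_eq w, ha, hb]
      funext i
      cases i <;> rfl
    obtain ⟨i, hi⟩ := Function.ne_iff.mp ha
    have hi' : wA w i ≠ 0 := by simpa using hi
    let w' := (sw (F := F) i).1 *ᵥ w
    have hw' : wB w' ≠ 0 := by
      intro h0
      have h2 := congrFun h0 i
      have h3 : wB w' i = ((Eii (F := F) i *ᵥ wA w + (1 - Eii (F := F) i) *ᵥ wB w : Fin n → F)) i := by
        show ((sw (F := F) i).1 *ᵥ w) (Sum.inr i) = _
        conv_lhs => rw [elim_eq w, sw_mulVec]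
        rfl
      rw [h3, hb, Matrix.mulVec_zero, add_zero, Eii_mulVec] at h2
      simp at h2
      exact hi' h2
    obtain ⟨h, hh, he⟩ := trans_b i₀ w' hw'
    refine ⟨(sw i)⁻¹ * h, (HH F n).mul_mem ((HH F n).inv_mem (sw_mem' _)) hh, ?_⟩
    show (((sw i)⁻¹ : Gp F n).1 * h.1) *ᵥ _ = _
    rw [← Matrix.mulVec_mulVec, he]
    show _ *ᵥ ((sw (F := F) i).1 *ᵥ w) = w
    rw [Matrix.mulVec_mulVec]
    have : ((sw (F := F) i)⁻¹ : Gp F n).1 * (sw (F := F) i).1 = 1 := congrArg Subtype.val (inv_mul_cancel (sw (F := F) i))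
    rw [this, Matrix.one_mulVec]
  · exact trans_b i₀ w hb

lemma transv_base (i₀ : Fin n) (c : F) :
    Cfsg.sympTransvection n (Sum.elim (ev i₀) 0 : Fin n ⊕ Fin n → F) c = (UU (c • rk1 (ev i₀))).1 := by
  apply Matrix.ext_iff_mulVec.2
  intro x
  rw [Cfsg.Agent.Lib.Classical.SympForm.sympTransvection_mulVec]
  have hs : Cfsg.sympForm n F x (Sum.elim (ev i₀) 0) = wB x i₀ := by
    rw [Cfsg.Agent.Lib.Classical.SympForm.sympForm_eq_sum]
    simp [ev, Pi.single_apply, wB]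
  have hm : ((c • rk1 (ev i₀) : SymM F n).1) *ᵥ wB x = (c * wB x i₀) • ev i₀ := by
    funext k
    by_cases hk : k = i₀
    · subst hk
      simp [rk1, Matrix.mulVec, dotProduct, Matrix.vecMulVec_apply, ev, Pi.single_apply, Matrix.smul_apply]
    · simp [rk1, Matrix.mulVec, dotProduct, Matrix.vecMulVec_apply, ev, Pi.single_apply, Matrix.smul_apply, hk]
  rw [hs]
  conv_rhs => rw [elim_eq x]
  rw [UU_mulVec', hm]
  funext k
  rcases k with k | k
  · simp [wA]
  · simp [wB]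

theorem closure_main : HH F n = ⊤ := by
  rw [eq_top_iff, ← Cfsg.Agent.Lib.Classical.SympForm.closure_transvectionSet, Subgroup.closure_le]
  rintro A ⟨w, c, hA⟩
  by_cases hw : w = 0
  · have : A = 1 := by
      apply Subtype.ext
      rw [hA, hw]
      simp [Cfsg.sympTransvection]
    rw [this]
    exact (HH F n).one_mem
  · obtain ⟨k, hk⟩ := Function.ne_iff.mp hw
    let i₀ : Fin n := Sum.elim id id k
    obtain ⟨h, hh, he⟩ := trans_all i₀ w hw
    have h1 := Cfsg.Agent.Lib.Classical.SympForm.sp_mul_sympTransvection_mul_inv h (Sum.elim (ev i₀) 0) c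
    rw [he, transv_base] at h1
    have e : A = h * UU (c • rk1 (ev i₀)) * h⁻¹ := by
      apply Subtype.ext
      rw [hA, ← h1]
      rfl
    rw [SetLike.mem_coe, e]
    exact (HH F n).mul_mem ((HH F n).mul_mem hh (UU_mem' _)) ((HH F n).inv_mem hh)

end Cfsg.Agent.Lib.WeilGap.GenClosure
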