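import Cfsg.Agent.Lib.WeilGap.Conj
import Cfsg.Agent.Lib.WeilGap.GenAux
import Cfsg.Agent.Lib.WeilGap.GenClosure

/-!
# [GEN] Generation statements.
`stab_gen`: Gaussian elimination. `R` has row `i₀` equal to `e_{i₀}`. Use `el i₀ j b` (= `1 - b E_{j i₀}`) to clear column `i₀`,
then the remaining block is in `GL` of `{k // k ≠ i₀}`: apply `Matrix.diagonal_transvection_induction`
(or `Matrix.Pivot.exists_list_transvec_mul_mul_list_transvec_eq_diagonal`) to it: transvections `1 + c E_{k l}` (k,l ≠ i₀)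
are `el l k (-c)`, a diagonal with entries `t_k` is a product of `dg k t_k`.
`gl_trans`: `GL_n` is transitive on nonzero vectors (for `(R⁻¹)ᵀ`; e.g. complete `u` to a basis, `R⁻¹ᵀ` has column `i₀` equal to `u`).
`closure_UU_sw`: let `H` be the closure. `LL R ∈ H` for all `R`: `dg_eq`, `sw_pl` (with `D i d = sw UU sw⁻¹` in `H`) give `LL (dg i t)`, `LL (el i j b)` in `H`;
`diagonal_transvection_induction` gives all `R`. `H` is transitive on nonzero vectors of `F^{2n}`: for `v=(a,b)`, if `b≠0` `UU B` can make `a=0`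
(`Cfsg.Agent.Lib.Weil.Ext.exists_sym_mulVec`), `LL` moves `b` to `e_{i}`, `sw i` moves `(0,e_i)` to `(-e_i,0)`, `LL` moves `(a,0)` to `(e_i,0)`.
So `H` contains all transvections (conjugates of `UU (c • rk1 (ev i))`), which generate `Sp` (see `Cfsg.Agent.Lib.Classical.SympSimple`/`PresSp`/`SympForm`).
-/

set_option autoImplicit false
set_option linter.unusedSectionVars false
set_option linter.unusedVariables false

namespace Cfsg.Agent.Lib.WeilGap.Gen

open Module Matrix Cfsg.Agent.Lib.SpDeg.Main Cfsg.Agent.Lib.SpDeg.Odd Cfsg.Agent.Lib.Weil.Basic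
  Cfsg.Agent.Lib.Weil.Minus Cfsg.Agent.Lib.WeilGap.Defs 
open scoped _root_.Classical

universe u

variable {F : Type u} [Field F] [Fintype F] {n : ℕ}

theorem stab_gen (i₀ : Fin n) (Z : Subgroup (GL (Fin n) F)) (h1 : ∀ j, j ≠ i₀ → ∀ t : Fˣ, dg j t ∈ Z)
    (h2 : ∀ (i j : Fin n) (hij : i ≠ j), j ≠ i₀ → ∀ b : F, el i j hij b ∈ Z) (R : GL (Fin n) F)
    (hR : ∀ k, (R : Matrix (Fin n) (Fin n) F) i₀ k = if k = i₀ then 1 else 0) : R ∈ Z :=
  GenAux.stab_gen' i₀ Z h1 h2 R hR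

theorem gl_trans (i₀ : Fin n) (u : Fin n → F) (hu : u ≠ 0) :
    ∃ R : GL (Fin n) F, ((R⁻¹ : GL (Fin n) F) : Matrix (Fin n) (Fin n) F)ᵀ *ᵥ ev i₀ = u :=
  GenAux.gl_trans' i₀ u hu

theorem closure_UU_sw : Subgroup.closure (Set.range (UU (F := F) (n := n)) ∪ Set.range (sw (F := F) (n := n))) = ⊤ :=
  GenClosure.closure_main

end Cfsg.Agent.Lib.WeilGap.Gen
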