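import Cfsg.Agent.Lib.WeilGap.Ext2

/-!
# [HOM] The equivariant map on `Par s`.
PAPER PROOF. `s = -1`: `Φ̃ := Φ₀` (`1 + s = 0`). `s = 1`: `Φ̃ φ := Φ₀ φ + φ 0 • ν`, `ν := nu P j` (all equal by `nu_eq`). The family `fu s u`, `u ≠ 0`, and (`s = 1`) `dl 0`, spans `Par s`.
`UU`-equivariance: `W.U`, `P.U`, `nu_fix` (`qq B 0 = 0`). Let `Dd := ρ(sw i) Φ̃ - Φ̃ τ(sw i)`.
 * `u` with `u_j ≠ 0`, `j ≠ i`: `fu s u` vanishes on `x_j = 0`: `lemma1`; `fu s u 0 = 0`, and `(τ(sw i) (fu s u)) 0 = cs i ∑_t fu s u (t e_i) = 0`.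
 * `u = t e_i`, `t ≠ 0`: `Ext1.sw_line`, `(FFs ψ i g_t) 0 = a_0 = 1 + s`.
 * `dl 0`, `s = 1`: `Dd` vanishes on all `fu 1 u`. `g_1 := fu 1 e_i`: `sw_sq`, `τ(LL (dg i (-1))) g_1 = κ • g_1`, `ρ(LL (dg i (-1))) Φ₀ g_1 = Φ₀ τ(..) g_1` (`P.L`), so `Dd (τ(sw i) g_1) = 0`; and `τ(sw i) g_1 = cs i • (2 dl 0 + combination of fu 1 (z e_i))`. So `Dd (dl 0) = 0`.
Then `Gen.closure_UU_sw` with `Subgroup.closure_induction` (`WtApi.par_stable`). Nonzero: `Φ̃ (fu s e_{i₀}) = m`, `fu s e_{i₀} ∈ Par s`.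
-/

set_option autoImplicit false
set_option linter.unusedSectionVars false
set_option linter.unusedVariables false

namespace Cfsg.Agent.Lib.WeilGap.Hom

open Module Matrix Cfsg.Agent.Lib.SpDeg.Main Cfsg.Agent.Lib.SpDeg.Odd Cfsg.Agent.Lib.Weil.Basic
  Cfsg.Agent.Lib.Weil.Minus Cfsg.Agent.Lib.WeilGap.Defs
open scoped _root_.Classical

universe u

variable {F : Type u} [Field F] [Fintype F] {n : ℕ}

open Cfsg.Agent.Lib.WeilGap.Stab Cfsg.Agent.Lib.WeilGap.Phi0 Cfsg.Agent.Lib.WeilGap.Lemma1 Cfsg.Agent.Lib.WeilGap.Fourier Cfsg.Agent.Lib.WeilGap.Ext1 Cfsg.Agent.Lib.WeilGap.Ext2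

variable {V : Type*} [AddCommGroup V] [Module ℂ V] [FiniteDimensional ℂ V]
variable {ψ : AddChar F ℂ} (W : WT (F := F) (n := n) ψ) (ρ : Gp F n →* Module.End ℂ V)

variable {W ρ}

section core

variable {s : ℂ} {i₀ : Fin n} {m : V} (P : PhiD W ρ s i₀ m)

/-- The map `Φ̃ = Φ₀ + φ(0) ν`. -/
noncomputable def Tld (ν : V) : WS F n →ₗ[ℂ] V :=
  P.Φ + (LinearMap.proj (0 : Fin n → F) : WS F n →ₗ[ℂ] ℂ).smulRight ν

lemma Tld_apply (ν : V) (φ : WS F n) : Tld P ν φ = P.Φ φ + φ 0 • ν := rfl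

/-- The defect of `Φ̃` with respect to `sw i`. -/
noncomputable def Dd (ν : V) (i : Fin n) : WS F n →ₗ[ℂ] V :=
  (ρ (sw i)) ∘ₗ Tld P ν - Tld P ν ∘ₗ (W.τ (sw i))

lemma Dd_apply (ν : V) (i : Fin n) (φ : WS F n) :
    Dd P ν i φ = ρ (sw i) (Tld P ν φ) - Tld P ν (W.τ (sw i) φ) := rfl

omit [FiniteDimensional ℂ V] in
lemma fu_van (s : ℂ) (u : Fin n → F) (j : Fin n) (hu : u j ≠ 0) (x : Fin n → F) (hx : x j = 0) :
    fu s u x = 0 := by
  have h1 : x ≠ u := fun h => hu (by rw [← h, hx])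
  have h3 : x ≠ -u := fun h => hu (by
    have h4 := congrFun h j
    simp only [Pi.neg_apply, hx] at h4
    exact (neg_eq_zero.mp h4.symm))
  simp [fu, dl_apply, h1, h3]

omit [FiniteDimensional ℂ V] in
lemma fu_zero (s : ℂ) (u : Fin n → F) (hu : u ≠ 0) : fu s u 0 = 0 := by
  obtain ⟨j, hj⟩ := Function.ne_iff.mp hu
  exact fu_van s u j hj 0 rfl

omit [FiniteDimensional ℂ V] in
lemma ev_self (i : Fin n) : ev (F := F) i i = 1 := by simp [ev]

omit [FiniteDimensional ℂ V] in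
lemma ev_ne (i j : Fin n) (h : j ≠ i) : ev (F := F) i j = 0 := by simp [ev, Pi.single_apply, h]

omit [FiniteDimensional ℂ V] in
lemma smul_ev_ne (i : Fin n) {t : F} (ht : t ≠ 0) : t • ev (F := F) i ≠ 0 := by
  intro h
  have h1 := congrFun h i
  simp only [Pi.smul_apply, ev_self, smul_eq_mul, mul_one, Pi.zero_apply] at h1
  exact ht h1

omit [FiniteDimensional ℂ V] in
lemma FFs_dl0 (ψ : AddChar F ℂ) (i : Fin n) (t : F) : FFs ψ i (dl (t • ev i)) 0 = 1 := by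
  rw [Fourier.F3, Finset.sum_apply, Finset.sum_eq_single (0 : F)]
  · simp [dl_apply]
  · intro z _ hz
    have h1 : (0 : Fin n → F) ≠ z • ev i := (smul_ev_ne i hz).symm
    simp [dl_apply, h1]
  · intro h
    exact absurd (Finset.mem_univ _) h

omit [FiniteDimensional ℂ V] in
lemma FFs_fu0 (ψ : AddChar F ℂ) (s : ℂ) (i : Fin n) (t : F) : FFs ψ i (fu s (t • ev i)) 0 = 1 + s := by
  have h1 : -(t • ev (F := F) i) = (-t) • ev i := (neg_smul t (ev i)).symm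
  simp only [fu, h1, map_add, map_smul, Pi.add_apply, Pi.smul_apply, FFs_dl0, smul_eq_mul, mul_one]

omit [FiniteDimensional ℂ V] in
lemma fu_mem_Par (s : ℂ) (hss : s * s = 1) (u : Fin n → F) : fu s u ∈ Par F n s := by
  intro x
  have h1 : dl u (-x) = dl (-u) x := by
    simp only [dl_apply, neg_eq_iff_eq_neg]
  have h3 : dl (-u) (-x) = dl u x := by
    simp only [dl_apply, neg_inj]
  simp only [fu, Pi.add_apply, Pi.smul_apply, smul_eq_mul, h1, h3]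
  linear_combination (- dl (-u) x) * hss

/-- Step 1. -/
lemma Dd_off (h2 : (2 : F) ≠ 0) (hψ : ψ 1 ≠ 1) (hR : R1all ψ ρ) (ν : V) (i j : Fin n) (hij : i ≠ j)
    (u : Fin n → F) (hu : u j ≠ 0) : Dd P ν i (fu s u) = 0 := by
  have hv := fu_van s u j hu
  have h1 := Lemma1.lemma1 P h2 hψ hR i j hij (fu s u) hv
  have h0 : fu s u 0 = 0 := hv 0 rfl
  have h3 : W.τ (sw i) (fu s u) 0 = 0 := WtApi.tau_sw_supp W i j hij 0 _ hv 0 rfl
  rw [Dd_apply, Tld_apply, Tld_apply, h0, h3, zero_smul, add_zero, add_zero, h1, sub_self]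

lemma tau_sw_apply (i : Fin n) (φ : WS F n) : W.τ (sw i) φ = (W.cs i : ℂ) • FFs ψ i φ := by
  rw [W.S]
  rfl

/-- Step 2. -/
lemma Dd_line (h2 : (2 : F) ≠ 0) (hψ : ψ 1 ≠ 1) (hR : R1all ψ ρ) (hs1 : s = 1 ∨ s = -1) (ν : V)
    (hνj : ∀ j, (1 + s) • nu P j = (1 + s) • ν) (i j : Fin n) (hij : i ≠ j) (t : F) (ht : t ≠ 0) :
    Dd P ν i (fu s (t • ev i)) = 0 := by
  have h0 : fu s (t • ev i) 0 = 0 := fu_zero s _ (smul_ev_ne i ht)
  have hl := Ext1.sw_line P h2 hψ hR hs1 i j hij t ht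
  rw [Dd_apply, Tld_apply, Tld_apply, h0, zero_smul, add_zero, tau_sw_apply, map_smul, Pi.smul_apply,
    FFs_fu0, hl, hνj j, smul_add, smul_eq_mul, mul_smul, sub_self]

/-- Step 3. -/
lemma Dd_zero (h2 : (2 : F) ≠ 0) (hψ : ψ 1 ≠ 1) (hR : R1all ψ ρ) (hs1 : s = 1 ∨ s = -1) (ν : V)
    (hνj : ∀ j, (1 + s) • nu P j = (1 + s) • ν) (i j : Fin n) (hij : i ≠ j) :
    Dd P ν i (fu s 0) = 0 := by
  have hss : s * s = 1 := by rcases hs1 with rfl | rfl <;> norm_num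
  have h10 : (1 : F) ≠ 0 := one_ne_zero
  have hg := Dd_line P h2 hψ hR hs1 ν hνj i j hij 1 h10
  set g1 : WS F n := fu s ((1 : F) • ev i) with hg1
  -- (II)
  have hII : Dd P ν i (W.τ (sw i) g1) = 0 := by
    have h00 : g1 0 = 0 := fu_zero s _ (smul_ev_ne i h10)
    have h3 : ρ (sw i) (Tld P ν g1) = Tld P ν (W.τ (sw i) g1) := by
      rw [Dd_apply, sub_eq_zero] at hg
      exact hg
    have h4 : W.τ (sw i) (W.τ (sw i) g1) = W.τ (LL (dg i (-1))) g1 := by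
      rw [← Conj.sw_sq, map_mul, Module.End.mul_apply]
    have h5 : ρ (sw i) (ρ (sw i) (P.Φ g1)) = ρ (LL (dg i (-1))) (P.Φ g1) := by
      rw [← Conj.sw_sq, map_mul, Module.End.mul_apply]
    have h6 : W.τ (LL (dg i (-1))) g1 0 = 0 := by
      rw [W.L]
      simp [TRE_apply, h00]
    rw [Dd_apply, ← h3, h4, Tld_apply, Tld_apply, h00, h6, zero_smul, add_zero, add_zero, h5, P.L, sub_self]
  -- (I)
  let E : F → V := fun z => Dd P ν i (dl (z • ev i))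
  let a : F → ℂ := fun z => ψ (z * 1) + s * ψ (z * (-1))
  have ha0 : a 0 = 1 + s := by simp [a]
  have haneg : ∀ z, a (-z) = s * a z := by
    intro z
    simp only [a, neg_mul, mul_neg, neg_neg]
    linear_combination (- ψ (-(z * 1))) * hss
  have hFF : FFs ψ i g1 = ∑ z : F, a z • dl (z • ev i) := by
    have h1 : -((1 : F) • ev (F := F) i) = (-1 : F) • ev i := (neg_smul (1 : F) (ev i)).symm
    simp only [hg1, fu, h1, map_add, map_smul, Fourier.F3 ψ i, Finset.smul_sum,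
      ← Finset.sum_add_distrib, smul_smul, a, add_smul]
  have hfu : ∀ z : F, Dd P ν i (fu s (z • ev i)) = E z + s • E (-z) := by
    intro z
    have h1 : -(z • ev (F := F) i) = (-z) • ev i := (neg_smul z (ev i)).symm
    simp only [fu, h1, map_add, map_smul, E]
  have hDFF : Dd P ν i (FFs ψ i g1) = ∑ z : F, a z • E z := by
    rw [hFF, map_sum]
    exact Finset.sum_congr rfl (fun z _ => map_smul _ _ _)
  have hsym : (2 : ℂ) • ∑ z : F, a z • E z = ∑ z : F, a z • Dd P ν i (fu s (z • ev i)) := by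
    have h1 : ∑ z : F, a z • E z = ∑ z : F, a (-z) • E (-z) :=
      (Equiv.sum_comp (Equiv.neg F) (fun z => a z • E z)).symm
    rw [two_smul]
    nth_rewrite 2 [h1]
    rw [← Finset.sum_add_distrib]
    apply Finset.sum_congr rfl
    intro z _
    simp only [hfu, haneg, smul_add, smul_smul]
    rw [mul_comm s]
  have hsum : ∑ z : F, a z • Dd P ν i (fu s (z • ev i)) = a 0 • Dd P ν i (fu s ((0 : F) • ev i)) := by
    rw [Finset.sum_eq_single (0 : F)]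
    · intro z _ hz
      rw [Dd_line P h2 hψ hR hs1 ν hνj i j hij z hz, smul_zero]
    · intro h
      exact absurd (Finset.mem_univ _) h
  have hfu0 : Dd P ν i (fu s 0) = (1 + s) • E 0 := by
    have h1 := hfu 0
    rw [zero_smul, neg_zero] at h1
    rw [h1, add_smul, one_smul]
  have h2FF : (2 : ℂ) • Dd P ν i (FFs ψ i g1) = (2 : ℂ) • Dd P ν i (fu s 0) := by
    rw [hDFF, hsym, hsum, zero_smul, ha0, hfu0, smul_smul, smul_smul]
    congr 1
    linear_combination hss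
  have h20 : (2 : ℂ) ≠ 0 := two_ne_zero
  have hFF' : Dd P ν i (FFs ψ i g1) = Dd P ν i (fu s 0) := smul_right_injective V h20 h2FF
  rw [← hFF']
  have h7 : (W.cs i : ℂ) • Dd P ν i (FFs ψ i g1) = 0 := by
    rw [← map_smul, ← tau_sw_apply, hII]
  exact (smul_eq_zero.mp h7).resolve_left (W.cs i).ne_zero

/-- Step 4. -/
lemma Dd_fu (hn : 2 ≤ n) (h2 : (2 : F) ≠ 0) (hψ : ψ 1 ≠ 1) (hR : R1all ψ ρ) (hs1 : s = 1 ∨ s = -1) (ν : V)
    (hνj : ∀ j, (1 + s) • nu P j = (1 + s) • ν) (i : Fin n) (u : Fin n → F) :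
    Dd P ν i (fu s u) = 0 := by
  obtain ⟨j₀, hj₀⟩ := Fintype.exists_ne_of_one_lt_card (α := Fin n) (by rw [Fintype.card_fin]; omega) i
  by_cases hu : u = 0
  · subst hu
    exact Dd_zero P h2 hψ hR hs1 ν hνj i j₀ hj₀.symm
  by_cases hex : ∃ j, j ≠ i ∧ u j ≠ 0
  · obtain ⟨j, hj, huj⟩ := hex
    exact Dd_off P h2 hψ hR ν i j hj.symm u huj
  · push Not at hex
    have hu' : u = (u i) • ev i := by
      funext k
      by_cases hk : k = i
      · subst hk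
        simp [ev_self]
      · simp [hex k hk, ev_ne i k hk]
    have hui : u i ≠ 0 := by
      intro h0
      apply hu
      rw [hu', h0, zero_smul]
    rw [hu']
    exact Dd_line P h2 hψ hR hs1 ν hνj i j₀ hj₀.symm (u i) hui

/-- Step 5. -/
lemma Dd_par (hs1 : s = 1 ∨ s = -1) (L : WS F n →ₗ[ℂ] V)
    (hL : ∀ u : Fin n → F, L (fu s u) = 0) (φ : WS F n) (hφ : φ ∈ Par F n s) : L φ = 0 := by
  have hss : s * s = 1 := by rcases hs1 with rfl | rfl <;> norm_num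
  have h1 : L φ = ∑ x, φ x • L (dl x) := by
    conv_lhs => rw [eq_sum_dl φ]
    rw [map_sum]
    exact Finset.sum_congr rfl (fun z _ => map_smul _ _ _)
  have h3 : ∑ x, φ x • L (dl x) = ∑ x, φ (-x) • L (dl (-x)) :=
    (Equiv.sum_comp (Equiv.neg (Fin n → F)) (fun x => φ x • L (dl x))).symm
  have h4 : (2 : ℂ) • L φ = 0 := by
    have h7 : L φ + L φ = ∑ x, φ x • L (dl x) + ∑ x, φ (-x) • L (dl (-x)) := by rw [← h3, ← h1]
    rw [two_smul, h7, ← Finset.sum_add_distrib]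
    apply Finset.sum_eq_zero
    intro x _
    have h5 := hL x
    simp only [fu, map_add, map_smul] at h5
    have h6 : φ (-x) = s * φ x := hφ x
    rw [h6, mul_comm s (φ x), mul_smul, ← smul_add, h5, smul_zero]
  have h20 : (2 : ℂ) ≠ 0 := two_ne_zero
  exact (smul_eq_zero.mp h4).resolve_left h20

/-- The core: from `ν`, the equivariant map. -/
theorem hom_core (hn : 2 ≤ n) (h2 : (2 : F) ≠ 0) (hψ : ψ 1 ≠ 1) (hR : R1all ψ ρ) (hs1 : s = 1 ∨ s = -1)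
    (hm0 : m ≠ 0) (ν : V) (hνU : ∀ B, ρ (UU B) ν = ν)
    (hνj : ∀ j, (1 + s) • nu P j = (1 + s) • ν) :
    ∃ Φ : WS F n →ₗ[ℂ] V, (∃ φ ∈ Par F n s, Φ φ ≠ 0) ∧ ∀ g, ∀ φ ∈ Par F n s, Φ (W.τ g φ) = ρ g (Φ φ) := by
  have hss : s * s = 1 := by rcases hs1 with rfl | rfl <;> norm_num
  obtain ⟨j₀, hj₀⟩ := Fintype.exists_ne_of_one_lt_card (α := Fin n) (by rw [Fintype.card_fin]; omega) i₀
  refine ⟨Tld P ν, ⟨fu s (ev i₀), fu_mem_Par s hss _, ?_⟩, ?_⟩
  · have h0 : fu s (ev (F := F) i₀) 0 = 0 := by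
      refine fu_zero s _ ?_
      intro h
      have h1 := congrFun h i₀
      simp [ev_self] at h1
    rw [Tld_apply, h0, zero_smul, add_zero, P.A]
    exact hm0
  intro g
  have hg : g ∈ Subgroup.closure (Set.range (UU (F := F) (n := n)) ∪ Set.range (sw (F := F) (n := n))) := by
    rw [Gen.closure_UU_sw]
    trivial
  induction hg using Subgroup.closure_induction with
  | mem x hx =>
    intro φ hφ
    rcases hx with ⟨B, rfl⟩ | ⟨i, rfl⟩
    · have h3 : W.τ (UU B) φ 0 = φ 0 := by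
        rw [W.U]
        simp [qq]
      rw [Tld_apply, Tld_apply, h3, P.U, map_add, map_smul, hνU]
    · have h3 := Dd_par hs1 (Dd P ν i)
        (fun u => Dd_fu P hn h2 hψ hR hs1 ν hνj i u) φ hφ
      rw [Dd_apply, sub_eq_zero] at h3
      exact h3.symm
  | one =>
    intro φ _
    simp
  | mul x y _ _ hx hy =>
    intro φ hφ
    rw [map_mul, map_mul, Module.End.mul_apply, Module.End.mul_apply, hx _ (WtApi.par_stable W hφ y), hy φ hφ]
  | inv x _ hx =>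
    intro φ hφ
    have h1 := hx (W.τ x⁻¹ φ) (WtApi.par_stable W hφ x⁻¹)
    have h3 : W.τ x (W.τ x⁻¹ φ) = φ := by
      rw [← Module.End.mul_apply, ← map_mul, mul_inv_cancel, map_one, Module.End.one_apply]
    rw [h3] at h1
    rw [h1, ← Module.End.mul_apply, ← map_mul, inv_mul_cancel, map_one, Module.End.one_apply]

end core

variable (W ρ)

theorem exists_hom (hn : 2 ≤ n) (h2 : (2 : F) ≠ 0) (hψ : ψ 1 ≠ 1) (hR : R1all ψ ρ) (s : ℂ) (hs1 : s = 1 ∨ s = -1)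
    (hs : ρ zI = (s * (W.κ (-1) : ℂ)) • (1 : Module.End ℂ V)) (i₀ : Fin n) (m : V) (hm0 : m ≠ 0) (hm : IsM ψ ρ i₀ m) :
    ∃ Φ : WS F n →ₗ[ℂ] V, (∃ φ ∈ Par F n s, Φ φ ≠ 0) ∧ ∀ g, ∀ φ ∈ Par F n s, Φ (W.τ g φ) = ρ g (Φ φ) := by
  obtain ⟨P⟩ := exists_PhiD W ρ h2 hψ hR s hs1 hs i₀ m hm
  rcases hs1 with rfl | rfl
  · refine hom_core P hn h2 hψ hR (Or.inl rfl) hm0 (nu P i₀) ?_ ?_
    · intro B
      exact Ext2.nu_fix P h2 hψ hR hn i₀ B
    · intro j
      by_cases hj : j = i₀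
      · rw [hj]
      · rw [Ext2.nu_eq P h2 hψ hR j i₀ hj]
  · refine hom_core P hn h2 hψ hR (Or.inr rfl) hm0 0 ?_ ?_
    · intro B
      exact map_zero _
    · intro j
      simp


end Cfsg.Agent.Lib.WeilGap.Hom
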