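import Mathlib

/-!
# The character of a simple submodule from a nonzero intertwiner.
A general lemma for `IrrPar.char_eq_of_hom`.
-/

set_option autoImplicit false
set_option linter.unusedSectionVars false
set_option linter.unusedVariables false

namespace Cfsg.Agent.Lib.WeilGap.IrrParChar

open Module

theorem char_eq {G : Type*} [Group G] {W : Type*} [AddCommGroup W] [Module ℂ W]
    (τ : G →* Module.End ℂ W) (P : Submodule ℂ W) (hP : ∀ g, ∀ φ ∈ P, τ g φ ∈ P)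
    (hirr : ∀ N : Submodule ℂ W, N ≤ P → (∀ g, ∀ φ ∈ N, τ g φ ∈ N) → N ≠ ⊥ → P ≤ N)
    {k : ℕ} (ρ : Representation ℂ G (Fin k → ℂ)) (hρ : ρ.IsIrreducible)
    (Φ : W →ₗ[ℂ] (Fin k → ℂ)) (hΦ : ∃ φ ∈ P, Φ φ ≠ 0)
    (hΦe : ∀ g, ∀ φ ∈ P, Φ (τ g φ) = ρ g (Φ φ)) :
    ρ.character = fun g => LinearMap.trace ℂ P ((τ g).restrict (hP g)) := by
  obtain ⟨φ₀, hφ₀, hφ₀ne⟩ := hΦ
  let Φ' : P →ₗ[ℂ] (Fin k → ℂ) := Φ ∘ₗ P.subtype
  -- injective
  have hinj : Function.Injective Φ' := by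
    rw [← LinearMap.ker_eq_bot]
    by_contra hne
    have hN := hirr (P ⊓ LinearMap.ker Φ) inf_le_left (by
      rintro g φ ⟨h1, h2⟩
      refine ⟨hP g φ h1, ?_⟩
      have h2' : Φ φ = 0 := h2
      show Φ (τ g φ) = 0
      rw [hΦe g φ h1, h2', map_zero]) (by
      intro hbot
      apply hne
      rw [LinearMap.ker_eq_bot']
      intro m hm
      have h3 : (m : W) ∈ P ⊓ LinearMap.ker Φ := ⟨m.2, hm⟩
      rw [hbot, Submodule.mem_bot] at h3
      exact Subtype.ext h3)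
    exact hφ₀ne (hN hφ₀).2
  -- surjective
  have hsurj : Function.Surjective Φ' := by
    let L : Subrepresentation ρ := ⟨P.map Φ, by
      rintro g w ⟨φ, hφ, rfl⟩
      exact ⟨τ g φ, hP g φ hφ, hΦe g φ hφ⟩⟩
    rcases hρ.eq_bot_or_eq_top L with h | h
    · exfalso
      have h1 : L.toSubmodule = ⊥ := congrArg Subrepresentation.toSubmodule h
      have h2 : Φ φ₀ ∈ L.toSubmodule := ⟨φ₀, hφ₀, rfl⟩
      rw [h1, Submodule.mem_bot] at h2
      exact hφ₀ne h2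
    · have h1 : L.toSubmodule = ⊤ := congrArg Subrepresentation.toSubmodule h
      intro w
      have h2 : w ∈ L.toSubmodule := by rw [h1]; trivial
      obtain ⟨φ, hφ, rfl⟩ := h2
      exact ⟨⟨φ, hφ⟩, rfl⟩
  let e : P ≃ₗ[ℂ] (Fin k → ℂ) := LinearEquiv.ofBijective Φ' ⟨hinj, hsurj⟩
  funext g
  have hconj : ρ g = e.conj ((τ g).restrict (hP g)) := by
    apply LinearMap.ext
    intro w
    obtain ⟨m, rfl⟩ := e.surjective w
    rw [LinearEquiv.conj_apply_apply]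
    simp only [LinearEquiv.symm_apply_apply]
    show ρ g (Φ m) = Φ (τ g m)
    rw [hΦe g m m.2]
  show LinearMap.trace ℂ _ (ρ g) = _
  rw [hconj, LinearMap.trace_conj']

end Cfsg.Agent.Lib.WeilGap.IrrParChar
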