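import Cfsg.Agent.Lib.WeilGap.Conj

/-!
# [K1] The key identity. `ρ` a representation with all weights of rank ≤ 1 (`R1all`).
Let `v` be an eigenvector of `UU (a • rk1 (ev j))` with eigenvalue `ψ (c * a)`, `c ≠ 0`, `i ≠ j`. Then
  `ρ (D i d) v = ∑ y, ψ (d * y^2 / (4 * c)) • (q⁻¹ • ∑ b, ψ (-(b * y)) • ρ (LL (el i j hij b)) v)`.
PAPER PROOF. Step 1 (in the radical). Put `v° = ρ (sw i)⁻¹ v`; `sw i` commutes with `UU (a • rk1 (ev j))` (`sw_UU_comm`), so `v°` has the same eigenvalue.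
Decompose `v° = ∑ f, ee f v°` (`Cfsg.Agent.Lib.WtSpace.Basic.sum_ee`, `WW ψ ρ f = range (ee ..)`, `mem_WW`). A nonzero component `v_f` has `f (rk1 (ev j)) = c`
(`ψ (f(a•rk1 e_j)) = ψ (c a)` for all `a`, and `ψ` nontrivial: `ψ(a (f(..) - c)) = 1` for all `a` forces `f(..) = c`), and `R1 f` gives
`4 * f (rk1 e_i) * c = y^2`, `y = f (pl e_i e_j)`. So `UU (d • rk1 e_i) v_f = ψ (d * y^2/(4c)) v_f`. Also
`P_y := q⁻¹ ∑ b, ψ (-(b y')) ρ (UU (b • pl e_i e_j))` sends `v_f` to `v_f` if `y' = y` and to `0` otherwise (orthogonality of characters, `Cfsg.Agent.Lib.Weil.Basic.sum_char`-style).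
Hence `ρ (UU (d • rk1 e_i)) v° = ∑ y, ψ (d y²/(4c)) P_y v°` (check on each `v_f` and sum).
Step 2. Apply `ρ (sw i)`: `sw i * UU (d • rk1 e_i) * (sw i)⁻¹ = D i d` by definition, and `sw i * UU (b • pl e_i e_j) = LL (el i j b) * sw i` (`sw_pl`).
`transfer` follows at once from `k1` for `ρ` and `ρ'`.
-/

set_option autoImplicit false
set_option linter.unusedSectionVars false
set_option linter.unusedVariables false

namespace Cfsg.Agent.Lib.WeilGap.K1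

open Module Matrix Cfsg.Agent.Lib.SpDeg.Main Cfsg.Agent.Lib.SpDeg.Odd Cfsg.Agent.Lib.Weil.Basic
  Cfsg.Agent.Lib.Weil.Minus Cfsg.Agent.Lib.WeilGap.Defs 
open scoped _root_.Classical

universe u

variable {F : Type u} [Field F] [Fintype F] {n : ℕ}

section
variable {V : Type*} [AddCommGroup V] [Module ℂ V] [FiniteDimensional ℂ V]
variable {V' : Type*} [AddCommGroup V'] [Module ℂ V'] [FiniteDimensional ℂ V']
variable (ψ : AddChar F ℂ)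

lemma sum_psi_local (hψ : ψ 1 ≠ 1) (a : F) :
    ∑ s : F, ψ (s * a) = if a = 0 then (Fintype.card F : ℂ) else 0 := by
  split_ifs with h
  · subst h
    simp
  · have hne : ψ ≠ 1 := by
      intro h1
      apply hψ
      rw [h1]
      simp
    have h1 : ∑ s : F, ψ (s * a) = ∑ u : F, ψ u :=
      Fintype.sum_equiv (Equiv.mulRight₀ a h) _ _ (fun s => by simp)
    rw [h1]
    exact AddChar.sum_eq_zero_of_ne_one hne

lemma tau_ee_comm (ρ : Gp F n →* Module.End ℂ V) (A : SymM F n) (f : Module.Dual F (SymM F n)) (v : V) :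
    ρ (UU A) (Cfsg.Agent.Lib.WtSpace.Basic.ee (Cfsg.Agent.Lib.SpDeg.Odd.pp ψ) (Cfsg.Agent.Lib.SpDeg.Odd.tt ρ) f v) =
      Cfsg.Agent.Lib.WtSpace.Basic.ee (Cfsg.Agent.Lib.SpDeg.Odd.pp ψ) (Cfsg.Agent.Lib.SpDeg.Odd.tt ρ) f (ρ (UU A) v) := by
  simp only [Cfsg.Agent.Lib.WtSpace.Basic.ee, LinearMap.smul_apply, LinearMap.sum_apply, map_smul, map_sum]
  congr 1
  refine Finset.sum_congr rfl fun a _ => ?_
  congr 1
  show ρ (UU A) (ρ (UU a) v) = ρ (UU a) (ρ (UU A) v)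
  rw [← Module.End.mul_apply, ← Module.End.mul_apply, ← map_mul, ← map_mul, ← UU_add, ← UU_add, add_comm]

lemma sum_comp (hψ : ψ 1 ≠ 1) (ρ : Gp F n →* Module.End ℂ V) (v : V) :
    ∑ f : Module.Dual F (SymM F n), Cfsg.Agent.Lib.WtSpace.Basic.ee (Cfsg.Agent.Lib.SpDeg.Odd.pp ψ) (Cfsg.Agent.Lib.SpDeg.Odd.tt ρ) f v = v := by
  have h := Cfsg.Agent.Lib.WtSpace.Basic.sum_ee (Cfsg.Agent.Lib.SpDeg.Odd.pp_pairing ψ hψ) (Cfsg.Agent.Lib.SpDeg.Odd.tt_add ρ) (Cfsg.Agent.Lib.SpDeg.Odd.tt_zero ρ)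
  have h2 := LinearMap.congr_fun h v
  simpa [LinearMap.sum_apply] using h2

/-- The projector on the value `y` of the weight at `pl e_i e_j`. -/
noncomputable def PP (ρ : Gp F n →* Module.End ℂ V) (i j : Fin n) (y : F) : Module.End ℂ V :=
  ((Fintype.card F : ℂ)⁻¹) • ∑ b : F, ψ (-(b * y)) • ρ (UU (b • pl (ev i) (ev j)))

lemma PP_apply_of_mem (hψ : ψ 1 ≠ 1) (ρ : Gp F n →* Module.End ℂ V) (i j : Fin n)
    (f : Module.Dual F (SymM F n)) {w : V} (hw : w ∈ WW ψ ρ f) (y : F) :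
    PP ψ ρ i j y w = if y = f (pl (ev i) (ev j)) then w else 0 := by
  have hw' := (mem_WW ψ ρ hψ).1 hw
  have hq : (Fintype.card F : ℂ) ≠ 0 := by exact_mod_cast Fintype.card_ne_zero
  simp only [PP, LinearMap.smul_apply, LinearMap.sum_apply, hw', smul_smul]
  have h1 : ∀ b : F, ψ (-(b * y)) * ψ (f (b • pl (ev i) (ev j))) = ψ (b * (f (pl (ev i) (ev j)) - y)) := by
    intro b
    rw [← AddChar.map_add_eq_mul, map_smul, smul_eq_mul]
    congr 1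
    ring
  simp only [h1]
  rw [← Finset.sum_smul, sum_psi_local ψ hψ]
  by_cases h : y = f (pl (ev i) (ev j))
  · rw [if_pos h, if_pos (sub_eq_zero.mpr h.symm), smul_smul, inv_mul_cancel₀ hq, one_smul]
  · rw [if_neg h, if_neg (fun e => h (sub_eq_zero.mp e).symm), zero_smul, smul_zero]

lemma key_comp (h2 : (2 : F) ≠ 0) (hψ : ψ 1 ≠ 1) (ρ : Gp F n →* Module.End ℂ V) (i j : Fin n)
    (f : Module.Dual F (SymM F n)) (hf : R1 f) {w : V} (hw : w ∈ WW ψ ρ f) (c : F) (hc : c ≠ 0)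
    (hfc : f (rk1 (ev j)) = c) (d : F) :
    ρ (UU (d • rk1 (ev i))) w = ∑ y : F, ψ (d * y ^ 2 / (4 * c)) • PP ψ ρ i j y w := by
  have hw' := (mem_WW ψ ρ hψ).1 hw
  simp only [PP_apply_of_mem ψ hψ ρ i j f hw, smul_ite, smul_zero]
  rw [Finset.sum_ite_eq' Finset.univ (f (pl (ev i) (ev j)))
    (fun y => ψ (d * y ^ 2 / (4 * c)) • w), if_pos (Finset.mem_univ _), hw']
  congr 2
  have h4 := hf (ev i) (ev j)
  rw [hfc] at h4
  have h4c : (4 : F) * c ≠ 0 := by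
    have : (4 : F) = 2 * 2 := by norm_num
    rw [this]
    exact mul_ne_zero (mul_ne_zero h2 h2) hc
  rw [map_smul, smul_eq_mul, ← h4, eq_div_iff h4c]
  ring

lemma eig_eq (hψ : ψ 1 ≠ 1) (ρ : Gp F n →* Module.End ℂ V) (f : Module.Dual F (SymM F n)) {w : V}
    (hw : w ∈ WW ψ ρ f) (hw0 : w ≠ 0) (A : SymM F n) (c : F)
    (h : ∀ a : F, ρ (UU (a • A)) w = ψ (c * a) • w) : f A = c := by
  have hw' := (mem_WW ψ ρ hψ).1 hw
  by_contra hne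
  have hne' : f A - c ≠ 0 := sub_ne_zero.mpr hne
  have h1 := h (f A - c)⁻¹
  rw [hw', map_smul, smul_eq_mul] at h1
  have h3 : ψ ((f A - c)⁻¹ * f A) = ψ (c * (f A - c)⁻¹) := smul_left_injective ℂ hw0 h1
  apply hψ
  have h5 : (1 : F) = (f A - c)⁻¹ * f A + -(c * (f A - c)⁻¹) := by
    have : (f A - c)⁻¹ * (f A - c) = 1 := inv_mul_cancel₀ hne'
    rw [← this]
    ring
  rw [h5, AddChar.map_add_eq_mul, h3, ← AddChar.map_add_eq_mul, add_neg_cancel, AddChar.map_zero_eq_one]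

theorem k1 (h2 : (2 : F) ≠ 0) (hψ : ψ 1 ≠ 1) (ρ : Gp F n →* Module.End ℂ V) (hR : R1all ψ ρ) (i j : Fin n) (hij : i ≠ j)
    (v : V) (c : F) (hc : c ≠ 0) (hv : ∀ a : F, ρ (UU (a • rk1 (ev j))) v = ψ (c * a) • v) (d : F) :
    ρ (D i d) v = ∑ y : F, ψ (d * y ^ 2 / (4 * c)) •
      (((Fintype.card F : ℂ)⁻¹) • ∑ b : F, ψ (-(b * y)) • ρ (LL (el i j hij b)) v) := by
  have hbj : ∀ a : F, ∀ k, ((a • rk1 (ev j) : SymM F n) : Matrix (Fin n) (Fin n) F) i k = 0 := by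
    intro a k
    have hij' : (ev j : Fin n → F) i = 0 := by simp [ev, hij]
    show (a • (vecMulVec (ev j) (ev j) : Matrix (Fin n) (Fin n) F)) i k = 0
    simp [vecMulVec_apply, hij']
  have hv0e : ∀ a : F, ρ (UU (a • rk1 (ev j))) (ρ (sw i)⁻¹ v) = ψ (c * a) • ρ (sw i)⁻¹ v := by
    intro a
    have hcomm : UU (a • rk1 (ev j)) * (sw (F := F) i)⁻¹ = (sw i)⁻¹ * UU (a • rk1 (ev j)) := by
      have : sw (F := F) i * UU (a • rk1 (ev j)) = UU (a • rk1 (ev j)) * sw i := Cfsg.Agent.Lib.WeilGap.Conj.sw_UU_comm i (a • rk1 (ev j)) (hbj a)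
      rw [eq_inv_mul_iff_mul_eq, ← mul_assoc, this, mul_inv_cancel_right]
    rw [← Module.End.mul_apply, ← map_mul, hcomm, map_mul, Module.End.mul_apply, hv, map_smul]
  have hcomp : ∀ f : Module.Dual F (SymM F n),
      ρ (UU (d • rk1 (ev i))) (Cfsg.Agent.Lib.WtSpace.Basic.ee (Cfsg.Agent.Lib.SpDeg.Odd.pp ψ) (Cfsg.Agent.Lib.SpDeg.Odd.tt ρ) f (ρ (sw i)⁻¹ v)) =
        ∑ y : F, ψ (d * y ^ 2 / (4 * c)) •
          PP ψ ρ i j y (Cfsg.Agent.Lib.WtSpace.Basic.ee (Cfsg.Agent.Lib.SpDeg.Odd.pp ψ) (Cfsg.Agent.Lib.SpDeg.Odd.tt ρ) f (ρ (sw i)⁻¹ v)) := by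
    intro f
    by_cases h0 : Cfsg.Agent.Lib.WtSpace.Basic.ee (Cfsg.Agent.Lib.SpDeg.Odd.pp ψ) (Cfsg.Agent.Lib.SpDeg.Odd.tt ρ) f (ρ (sw i)⁻¹ v) = 0
    · simp [h0]
    · have hmem : Cfsg.Agent.Lib.WtSpace.Basic.ee (Cfsg.Agent.Lib.SpDeg.Odd.pp ψ) (Cfsg.Agent.Lib.SpDeg.Odd.tt ρ) f (ρ (sw i)⁻¹ v) ∈ WW ψ ρ f := ⟨_, rfl⟩
      have hR1 : R1 f := hR f (fun h => h0 (by rw [h] at hmem; simpa using hmem))
      have hfc : f (rk1 (ev j)) = c := eig_eq ψ hψ ρ f hmem h0 _ c (fun a => by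
        rw [tau_ee_comm, hv0e, map_smul])
      exact key_comp ψ h2 hψ ρ i j f hR1 hmem c hc hfc d
  have hsum : ρ (UU (d • rk1 (ev i))) (ρ (sw i)⁻¹ v) =
      ∑ y : F, ψ (d * y ^ 2 / (4 * c)) • PP ψ ρ i j y (ρ (sw i)⁻¹ v) := by
    conv_lhs => rw [← sum_comp ψ hψ ρ (ρ (sw i)⁻¹ v)]
    rw [map_sum, Finset.sum_congr rfl (fun f _ => hcomp f), Finset.sum_comm]
    refine Finset.sum_congr rfl fun y _ => ?_
    rw [← Finset.smul_sum, ← map_sum, sum_comp ψ hψ ρ]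
  have hD : ρ (D i d) v = ρ (sw i) (ρ (UU (d • rk1 (ev i))) (ρ (sw i)⁻¹ v)) := by
    simp only [D, map_mul, Module.End.mul_apply]
  rw [hD, hsum, map_sum]
  refine Finset.sum_congr rfl fun y _ => ?_
  rw [map_smul]
  congr 1
  simp only [PP, LinearMap.smul_apply, LinearMap.sum_apply, map_smul, map_sum]
  congr 1
  refine Finset.sum_congr rfl fun b _ => ?_
  congr 1
  have h3 : sw (F := F) i * UU (b • pl (ev i) (ev j)) * (sw i)⁻¹ = LL (el i j hij b) := by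
    rw [Cfsg.Agent.Lib.WeilGap.Conj.sw_pl i j hij b, mul_inv_cancel_right]
  rw [← h3]
  simp only [map_mul, Module.End.mul_apply]

theorem transfer (h2 : (2 : F) ≠ 0) (hψ : ψ 1 ≠ 1) (ρ : Gp F n →* Module.End ℂ V) (hR : R1all ψ ρ)
    (ρ' : Gp F n →* Module.End ℂ V') (hR' : R1all ψ ρ') (T : V' →ₗ[ℂ] V) (i j : Fin n) (hij : i ≠ j)
    (x : V') (c : F) (hc : c ≠ 0) (hx : ∀ a : F, ρ' (UU (a • rk1 (ev j))) x = ψ (c * a) • x)
    (hTx : ∀ a : F, ρ (UU (a • rk1 (ev j))) (T x) = ψ (c * a) • T x)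
    (hT : ∀ b : F, T (ρ' (LL (el i j hij b)) x) = ρ (LL (el i j hij b)) (T x)) (d : F) :
    T (ρ' (D i d) x) = ρ (D i d) (T x) := by
  rw [k1 ψ h2 hψ ρ' hR' i j hij x c hc hx d, k1 ψ h2 hψ ρ hR i j hij (T x) c hc hTx d]
  simp only [map_sum, map_smul, hT]
end

end Cfsg.Agent.Lib.WeilGap.K1
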