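import Cfsg.Agent.Lib.WeilGap.Phi0

/-!
# [LEMMA1] `Φ₀` commutes with `sw i` on functions vanishing on `x j = 0`, `j ≠ i`.
PAPER PROOF. `D_eq`: decompose `φ = ∑_{c ≠ 0} φ_c`, `φ_c := φ` restricted to `{x j ^ 2 = c}` (for `x j = 0` the value vanishes by `hφ`). `W.τ (UU (a • rk1 e_j)) φ_c = ψ (-(hh * c) * a) • φ_c` (`W.U`, `qq (a • rk1 e_j) x = hh * a * (x j)^2`)
and the same eigenvalue for `P.Φ φ_c` by `P.U`. Apply `K1.transfer` with `T = P.Φ`, `ρ' = W.τ`, `x = φ_c`, `c' = -(hh*c) ≠ 0`, `hT` from `P.L`, `hR' = WtApi.r1`. Sum over `c`.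
`lemma1`: `sw i = UU (-rk1 e_i) * D i (-1) * UU (-rk1 e_i)` (`Conj.sw_eq`); `W.τ (UU ..)` is diagonal so preserves the vanishing hypothesis; use `P.U` on both sides and `D_eq`.
-/

set_option autoImplicit false
set_option linter.unusedSectionVars false
set_option linter.unusedVariables false

namespace Cfsg.Agent.Lib.WeilGap.Lemma1

open Module Matrix Cfsg.Agent.Lib.SpDeg.Main Cfsg.Agent.Lib.SpDeg.Odd Cfsg.Agent.Lib.Weil.Basic
  Cfsg.Agent.Lib.Weil.Minus Cfsg.Agent.Lib.WeilGap.Defs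
open scoped _root_.Classical

universe u

variable {F : Type u} [Field F] [Fintype F] {n : ℕ}

open Cfsg.Agent.Lib.WeilGap.Stab Cfsg.Agent.Lib.WeilGap.Phi0

variable {V : Type*} [AddCommGroup V] [Module ℂ V] [FiniteDimensional ℂ V]
variable {ψ : AddChar F ℂ} (W : WT (F := F) (n := n) ψ) (ρ : Gp F n →* Module.End ℂ V)

variable {W ρ}
variable {s : ℂ} {i₀ : Fin n} {m : V} (P : PhiD W ρ s i₀ m)

theorem qq_rk1_ev (a : F) (j : Fin n) (x : Fin n → F) : qq (a • rk1 (ev j)) x = a * (hh F * x j ^ 2) := by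
  rw [qq_smul]
  congr 1
  unfold qq
  congr 1
  simp only [rk1, ev, Matrix.dotProduct_mulVec, Matrix.vecMul_vecMul, pow_two]
  simp [Matrix.vecMulVec, dotProduct, Matrix.mulVec, Matrix.vecMul, Pi.single_apply, Finset.sum_ite_eq]

/-- The part of `φ` on `{x j ^ 2 = c}`. -/
noncomputable def part (j : Fin n) (c : F) (φ : WS F n) : WS F n := fun x => if x j ^ 2 = c then φ x else 0

theorem sum_part (j : Fin n) (φ : WS F n) : ∑ c : F, part j c φ = φ := by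
  funext x
  rw [Finset.sum_apply]
  simp [part, Finset.sum_ite_eq]

theorem tau_part (j : Fin n) (c a : F) (φ : WS F n) :
    W.τ (UU (a • rk1 (ev j))) (part j c φ) = ψ ((-(hh F * c)) * a) • part j c φ := by
  funext x
  rw [W.U, qq_rk1_ev]
  by_cases h : x j ^ 2 = c
  · simp only [part, h, if_true, Pi.smul_apply, smul_eq_mul]
    congr 2
    ring
  · simp [part, h]

theorem D_part (h2 : (2 : F) ≠ 0) (hψ : ψ 1 ≠ 1) (hR : R1all ψ ρ) (i j : Fin n) (hij : i ≠ j) (d c : F) (hc : c ≠ 0) (φ : WS F n) :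
    P.Φ (W.τ (D i d) (part j c φ)) = ρ (D i d) (P.Φ (part j c φ)) := by
  have hc' : -(hh F * c) ≠ 0 := by
    refine neg_ne_zero.2 (mul_ne_zero ?_ hc)
    unfold hh
    exact inv_ne_zero h2
  refine Cfsg.Agent.Lib.WeilGap.K1.transfer (ψ := ψ) h2 hψ ρ hR W.τ (Cfsg.Agent.Lib.WeilGap.WtApi.r1 W h2 hψ) P.Φ i j hij
    (part j c φ) (-(hh F * c)) hc' (fun a => tau_part j c a φ) (fun a => ?_) (fun b => P.L _ _) d
  rw [← P.U, tau_part, map_smul]

theorem D_eq (h2 : (2 : F) ≠ 0) (hψ : ψ 1 ≠ 1) (hR : R1all ψ ρ) (i j : Fin n) (hij : i ≠ j) (d : F) (φ : WS F n)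
    (hφ : ∀ x, x j = 0 → φ x = 0) : P.Φ (W.τ (D i d) φ) = ρ (D i d) (P.Φ φ) := by
  have h0 : part j 0 φ = 0 := by
    funext x
    by_cases h : x j ^ 2 = 0
    · simp only [part, h, if_true, Pi.zero_apply]
      exact hφ x (pow_eq_zero_iff (two_ne_zero)|>.1 h)
    · simp [part, h]
  rw [← sum_part j φ]
  simp only [map_sum]
  refine Finset.sum_congr rfl fun c _ => ?_
  by_cases hc : c = 0
  · subst hc
    rw [h0]
    simp
  · exact D_part P h2 hψ hR i j hij d c hc φ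

theorem lemma1 (h2 : (2 : F) ≠ 0) (hψ : ψ 1 ≠ 1) (hR : R1all ψ ρ) (i j : Fin n) (hij : i ≠ j) (φ : WS F n)
    (hφ : ∀ x, x j = 0 → φ x = 0) : P.Φ (W.τ (sw i) φ) = ρ (sw i) (P.Φ φ) := by
  rw [Cfsg.Agent.Lib.WeilGap.Conj.sw_eq i]
  simp only [map_mul, Module.End.mul_apply]
  rw [P.U, D_eq P h2 hψ hR i j hij (-1) _ (fun x hx => ?_), P.U]
  rw [W.U, hφ x hx, mul_zero]


end Cfsg.Agent.Lib.WeilGap.Lemma1
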