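import Cfsg.Agent.Lib.SpDeg.Odd

/-! Insurance for `OrbitGap.orbit_gap`: a double count, no induction. -/

set_option autoImplicit false
set_option linter.unusedSectionVars false
set_option linter.unusedVariables false
set_option linter.unusedSimpArgs false
set_option linter.ambiguousOpen false
set_option linter.style.haveILetI false

namespace Cfsg.Agent.Lib.WeilGap.OrbitGapDC

open Module Matrix Cfsg.Agent.Lib.SpDeg.Orbit Cfsg.Agent.Lib.SpDeg.Odd
open scoped _root_.Classical

universe u

variable {F : Type u} [Field F] [Fintype F] {n : ℕ}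


/-- Fibres over a quotient. -/
lemma card_le_of_fiber {d : ℕ} (b : Fin d → (Fin n → F)) (hb : LinearIndependent F b) (S : Finset (Fin n → F)) (k : ℕ)
    (h : ∀ v ∈ S, ∃ A : Finset (Fin n → F), A.card ≤ k ∧ ∀ v' ∈ S, ∀ c : Fin d → F, v' = v + ∑ i, c i • b i → v' ∈ A) :
    S.card ≤ k * Fintype.card F ^ (n - d) := by
  let W : Submodule F (Fin n → F) := Submodule.span F (Set.range b)
  have : Fintype ((Fin n → F) ⧸ W) := Fintype.ofFinite _
  have hcard : Fintype.card ((Fin n → F) ⧸ W) = Fintype.card F ^ (n - d) := by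
    rw [Module.card_eq_pow_finrank (K := F)]
    congr 1
    have h1 := Submodule.finrank_quotient_add_finrank W
    have h2 : finrank F W = d := by
      have := finrank_span_eq_card hb
      simpa using this
    rw [h2, Module.finrank_fin_fun] at h1
    omega
  have h3 := Finset.card_le_mul_card_image_of_maps_to (s := S)
    (t := (Finset.univ : Finset ((Fin n → F) ⧸ W))) (f := fun v => Submodule.Quotient.mk v) (fun _ _ => Finset.mem_univ _) k
    (by
      intro e _
      set T := S.filter (fun v => (Submodule.Quotient.mk v : (Fin n → F) ⧸ W) = e) with hT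
      rcases T.eq_empty_or_nonempty with h0 | ⟨v1, hv1⟩
      · rw [h0]
        simp
      obtain ⟨hv1a, hv1b⟩ := Finset.mem_filter.mp hv1
      obtain ⟨A, hA, hAm⟩ := h v1 hv1a
      refine le_trans (Finset.card_le_card ?_) hA
      intro v hv
      obtain ⟨hva, hvb⟩ := Finset.mem_filter.mp hv
      have h4 : (Submodule.Quotient.mk v : (Fin n → F) ⧸ W) = Submodule.Quotient.mk v1 := by rw [hvb, hv1b]
      rw [Submodule.Quotient.eq] at h4
      obtain ⟨c, hc⟩ := (Submodule.mem_span_range_iff_exists_fun F).1 h4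
      refine hAm v hva c ?_
      rw [hc]
      abel)
  rw [Finset.card_univ, hcard] at h3
  exact h3

section Form

variable {Q : (Fin n → F) → F} (hQ : IsQo Q)

include hQ

lemma Q_zero : Q 0 = 0 := by
  have := hQ.smul 0 0
  simpa using this

lemma Q_add_smul (v u : Fin n → F) (t : F) : Q (v + t • u) = Q v + t * t * Q u + t * po Q v u := by
  rw [hQ.add, hQ.smul, hQ.smul_right]

lemma po_sub_aux (v u : Fin n → F) : po Q u v = po Q v u := po_comm Q u v

/-- Given `v`, the number of `w`. -/
lemma card_w_le (h2 : (2 : F) ≠ 0) {v : Fin n → F} {a b c : F} (hv : Q v = a) (ha : a ≠ 0) (hΔ : 4 * a * b - c ^ 2 ≠ 0) :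
    (Finset.univ.filter (fun w => Q w = b ∧ po Q v w = c)).card ≤ 2 * Fintype.card F ^ (n - 2) := by
  set S := Finset.univ.filter (fun w : Fin n → F => Q w = b ∧ po Q v w = c) with hS
  rcases S.eq_empty_or_nonempty with h0 | ⟨w0, hw0⟩
  · rw [h0]
    simp
  obtain ⟨hw1, hw2⟩ := (Finset.mem_filter.mp hw0).2
  have h2a : (2 : F) * a ≠ 0 := mul_ne_zero h2 ha
  set t : F := -(c / (2 * a)) with ht
  have htc : t * (2 * a) = -c := by
    rw [ht]
    field_simp
  set y : Fin n → F := w0 + t • v with hy
  have hpoy : po Q v y = 0 := by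
    rw [hy, hQ.add_right, hQ.smul_right, hQ.po_self, hw2, hv]
    linear_combination htc
  have hQy : Q y * (4 * a) = 4 * a * b - c ^ 2 := by
    rw [hy, Q_add_smul hQ, hw1, hv, po_comm Q w0 v, hw2]
    have : t * (2 * a) * (t * (2 * a)) = c ^ 2 := by rw [htc]; ring
    have h3 : t * c * (4 * a) = - 2 * c ^ 2 := by
      have : t * (2 * a) * c = - c * c := by rw [htc]
      linear_combination 2 * this
    linear_combination this + h3
  have hQy0 : Q y ≠ 0 := by
    intro h
    rw [h, zero_mul] at hQy
    exact hΔ hQy.symm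
  have hli : LinearIndependent F ![v, y] := by
    rw [LinearIndependent.pair_iff]
    intro s r hsr
    have h3 := congrArg (po Q v) hsr
    rw [hQ.add_right, hQ.smul_right, hQ.smul_right, hQ.po_self, hpoy, hv] at h3
    have h4 : po Q v 0 = 0 := by
      have := hQ.smul_right 0 v 0
      simpa using this
    rw [h4] at h3
    have hs : s = 0 := by
      have h5 : s * (2 * a) = 0 := by linear_combination h3
      exact (mul_eq_zero.mp h5).resolve_right h2a
    refine ⟨hs, ?_⟩
    rw [hs, zero_smul, zero_add] at hsr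
    have h6 := congrArg Q hsr
    rw [hQ.smul, Q_zero hQ] at h6
    have h7 : r * r = 0 := (mul_eq_zero.mp h6).resolve_right hQy0
    exact mul_self_eq_zero.mp h7
  refine card_le_of_fiber ![v, y] hli S 2 (fun w hw => ?_)
  refine ⟨{w, w + (-(po Q w y) / Q y) • y}, Finset.card_le_two, ?_⟩
  intro w' hw' e he
  obtain ⟨hw'1, hw'2⟩ := (Finset.mem_filter.mp hw').2
  obtain ⟨hw3, hw4⟩ := (Finset.mem_filter.mp hw).2
  rw [Fin.sum_univ_two] at he
  simp only [Matrix.cons_val_zero, Matrix.cons_val_one] at he
  have h5 : e 0 = 0 := by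
    have h3 := congrArg (po Q v) he
    rw [hQ.add_right, hQ.add_right, hQ.smul_right, hQ.smul_right, hQ.po_self, hpoy, hv, hw'2, hw4] at h3
    have h5 : e 0 * (2 * a) = 0 := by linear_combination -h3
    exact (mul_eq_zero.mp h5).resolve_right h2a
  rw [h5, zero_smul, zero_add] at he
  have h6 := congrArg Q he
  rw [Q_add_smul hQ, hw'1, hw3] at h6
  have h7 : e 1 * (e 1 * Q y + po Q w y) = 0 := by linear_combination -h6
  rcases mul_eq_zero.mp h7 with h8 | h8
  · simp [he, h8]
  · have h9 : e 1 = -(po Q w y) / Q y := by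
      field_simp
      linear_combination h8
    simp [he, h9]

/-- The independence from the nondegeneracy. -/
lemma comb_zero {x y : Fin n → F} (hΔ : 4 * Q x * Q y - po Q x y ^ 2 ≠ 0) {s t : F}
    (h1 : po Q (s • x + t • y) x = 0) (h2' : po Q (s • x + t • y) y = 0) : s = 0 ∧ t = 0 := by
  rw [hQ.add_left, hQ.smul_left, hQ.smul_left, hQ.po_self, po_comm Q y x] at h1
  rw [hQ.add_left, hQ.smul_left, hQ.smul_left, hQ.po_self] at h2'
  constructor
  · have : s * (4 * Q x * Q y - po Q x y ^ 2) = 0 := by
      linear_combination 2 * Q y * h1 - po Q x y * h2'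
    exact (mul_eq_zero.mp this).resolve_right hΔ
  · have : t * (4 * Q x * Q y - po Q x y ^ 2) = 0 := by
      linear_combination 2 * Q x * h2' - po Q x y * h1
    exact (mul_eq_zero.mp this).resolve_right hΔ

lemma po_zero_right' (v : Fin n → F) : po Q v 0 = 0 := by
  have := hQ.smul_right 0 v 0
  simpa using this

lemma li_of_nondeg {x y : Fin n → F} (hΔ : 4 * Q x * Q y - po Q x y ^ 2 ≠ 0) : LinearIndependent F ![x, y] := by
  rw [LinearIndependent.pair_iff]
  intro s t hst
  refine comb_zero hQ hΔ ?_ ?_
  · rw [hst, po_comm, po_zero_right' hQ]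
  · rw [hst, po_comm, po_zero_right' hQ]

/-- The conic: a coset of an anisotropic plane. -/
lemma conic_aux {P d y' v' : Fin n → F} (hd : po Q P d = 0)
    (hani : ∀ α β : F, (α ≠ 0 ∨ β ≠ 0) → Q (α • d + β • y') ≠ 0) {α β : F} (hv' : v' = P + (α • d + β • y'))
    (hQv : Q v' = Q P) :
    v' = P ∨ ∃ m : F, v' = P + (-(po Q P y') / Q (m • d + y')) • (m • d + y') := by
  have h0 : Q (α • d + β • y') + β * po Q P y' = 0 := by
    rw [hv', hQ.add, hQ.add_right, hQ.smul_right, hQ.smul_right, hd] at hQv
    linear_combination hQv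
  by_cases hβ : β = 0
  · left
    by_cases hα : α = 0
    · rw [hv', hα, hβ]
      simp
    · exfalso
      apply hani α β (Or.inl hα)
      rw [hβ] at h0 ⊢
      simpa using h0
  · right
    refine ⟨α / β, ?_⟩
    have e : α • d + β • y' = β • ((α / β) • d + y') := by
      rw [smul_add, smul_smul]
      congr 2
      field_simp
    have hD : Q ((α / β) • d + y') ≠ 0 := by
      have := hani (α / β) 1 (Or.inr one_ne_zero)
      simpa using this
    rw [e, hQ.smul] at h0
    have hb : β = -(po Q P y') / Q ((α / β) • d + y') := by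
      field_simp
      have h1 : β * (β * Q ((α / β) • d + y') + po Q P y') = 0 := by linear_combination h0
      have := (mul_eq_zero.mp h1).resolve_left hβ
      linear_combination this
    rw [hv', e]
    congr 2

/-- Lemma A: the anisotropic case. -/
lemma card_v_aniso (h2 : (2 : F) ≠ 0) {x y : Fin n → F} (hΔ : 4 * Q x * Q y - po Q x y ^ 2 ≠ 0) {a : F}
    (hani : ∀ s t : F, (s ≠ 0 ∨ t ≠ 0) → Q (s • x + t • y) ≠ 0) :
    (Finset.univ.filter (fun v => Q v = a)).card ≤ (Fintype.card F + 1) * Fintype.card F ^ (n - 2) := by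
  refine card_le_of_fiber ![x, y] (li_of_nondeg hQ hΔ) _ _ (fun P hP => ?_)
  have hPa : Q P = a := (Finset.mem_filter.mp hP).2
  -- the tangent direction
  obtain ⟨d, y', hd, hani', hsp⟩ : ∃ d y' : Fin n → F, po Q P d = 0 ∧
      (∀ α β : F, (α ≠ 0 ∨ β ≠ 0) → Q (α • d + β • y') ≠ 0) ∧
      ∀ c₀ c₁ : F, ∃ α β : F, c₀ • x + c₁ • y = α • d + β • y' := by
    by_cases hp : po Q P x = 0
    · exact ⟨x, y, hp, hani, fun c₀ c₁ => ⟨c₀, c₁, rfl⟩⟩
    · refine ⟨y + (-(po Q P y / po Q P x)) • x, x, ?_, ?_, ?_⟩
      · rw [hQ.add_right, hQ.smul_right]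
        field_simp
        ring
      · intro α β hαβ
        have e : α • (y + (-(po Q P y / po Q P x)) • x) + β • x =
            (β + α * (-(po Q P y / po Q P x))) • x + α • y := by
          rw [smul_add, smul_smul, add_smul]
          abel
        rw [e]
        apply hani
        by_cases hα : α = 0
        · left
          rcases hαβ with h | h
          · exact absurd hα h
          · simpa [hα] using h
        · exact Or.inr hα
      · intro c₀ c₁
        refine ⟨c₁, c₀ + c₁ * (po Q P y / po Q P x), ?_⟩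
        rw [smul_add, smul_smul, add_smul]
        have : c₁ * -(po Q P y / po Q P x) = -(c₁ * (po Q P y / po Q P x)) := by ring
        rw [this, neg_smul]
        abel
  refine ⟨insert P (Finset.univ.image fun m : F => P + (-(po Q P y') / Q (m • d + y')) • (m • d + y')), ?_, ?_⟩
  · refine (Finset.card_insert_le _ _).trans ?_
    have := Finset.card_image_le (s := (Finset.univ : Finset F))
      (f := fun m : F => P + (-(po Q P y') / Q (m • d + y')) • (m • d + y'))
    rw [Finset.card_univ] at this
    omega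
  · intro v' hv' c hc
    rw [Fin.sum_univ_two] at hc
    simp only [Matrix.cons_val_zero, Matrix.cons_val_one] at hc
    obtain ⟨α, β, hαβ⟩ := hsp (c 0) (c 1)
    rw [hαβ] at hc
    have hQv' : Q v' = Q P := by rw [(Finset.mem_filter.mp hv').2, hPa]
    rcases conic_aux hQ hd hani' hc hQv' with h | ⟨m, hm⟩
    · rw [h]
      exact Finset.mem_insert_self _ _
    · rw [hm]
      exact Finset.mem_insert_of_mem (Finset.mem_image.mpr ⟨m, Finset.mem_univ _, rfl⟩)

/-- Lemma A: the isotropic case. -/
lemma card_v_iso (h2 : (2 : F) ≠ 0) {e w : Fin n → F} (he0 : e ≠ 0) (he : Q e = 0) (hew : po Q e w ≠ 0) {a : F} (ha : a ≠ 0) :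
    (Finset.univ.filter (fun v => Q v = a)).card ≤ (Fintype.card F + 1) * Fintype.card F ^ (n - 2) := by
  have hwe : po Q w e ≠ 0 := by rwa [po_comm]
  have hee : po Q e e = 0 := by rw [hQ.po_self, he, mul_zero]
  -- independence of `e, w`
  have hli2 : LinearIndependent F ![e, w] := by
    rw [LinearIndependent.pair_iff]
    intro s r hsr
    have h3 := congrArg (fun z => po Q z e) hsr
    rw [hQ.add_left, hQ.smul_left, hQ.smul_left, hee, po_comm Q 0 e, po_zero_right' hQ] at h3
    have hr : r = 0 := by
      have h5 : r * po Q w e = 0 := by linear_combination h3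
      exact (mul_eq_zero.mp h5).resolve_right hwe
    refine ⟨?_, hr⟩
    rw [hr, zero_smul, add_zero] at hsr
    exact (smul_eq_zero.mp hsr).resolve_right he0
  have hn2 : 2 ≤ n := by
    have := hli2.fintype_card_le_finrank
    simpa using this
  have hq : 1 ≤ Fintype.card F := Fintype.card_pos
  set S := Finset.univ.filter (fun v : Fin n → F => Q v = a) with hS
  -- the part with nonzero value of the functional
  have h1 : (S.filter (fun v => po Q v e ≠ 0)).card ≤ (Fintype.card F - 1) * Fintype.card F ^ (n - 2) := by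
    rw [Finset.card_eq_sum_card_fiberwise (f := fun v => po Q v e) (t := Finset.univ.erase (0 : F))
      (fun v hv => by
        have := (Finset.mem_filter.mp hv).2
        simpa using this)]
    have hb : ∀ β ∈ Finset.univ.erase (0 : F),
        (((S.filter (fun v => po Q v e ≠ 0))).filter (fun v => po Q v e = β)).card ≤ Fintype.card F ^ (n - 2) := by
      intro β hβ
      have hβ0 : β ≠ 0 := Finset.ne_of_mem_erase hβ
      have := card_le_of_fiber ![e, w] hli2 ((S.filter (fun v => po Q v e ≠ 0)).filter (fun v => po Q v e = β)) 1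
        (fun v hv => ⟨{v}, by simp, ?_⟩)
      · simpa using this
      · intro v' hv' c hc
        rw [Fin.sum_univ_two] at hc
        simp only [Matrix.cons_val_zero, Matrix.cons_val_one] at hc
        have hvβ : po Q v e = β := (Finset.mem_filter.mp hv).2
        have hv'β : po Q v' e = β := (Finset.mem_filter.mp hv').2
        have hva : Q v = a := (Finset.mem_filter.mp (Finset.mem_filter.mp (Finset.mem_filter.mp hv).1).1).2
        have hv'a : Q v' = a := (Finset.mem_filter.mp (Finset.mem_filter.mp (Finset.mem_filter.mp hv').1).1).2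
        have hc1 : c 1 = 0 := by
          have h3 := congrArg (fun z => po Q z e) hc
          rw [hQ.add_left, hQ.add_left, hQ.smul_left, hQ.smul_left, hee, hvβ, hv'β] at h3
          have h5 : c 1 * po Q w e = 0 := by linear_combination -h3
          exact (mul_eq_zero.mp h5).resolve_right hwe
        rw [hc1, zero_smul, add_zero] at hc
        have h6 := congrArg Q hc
        rw [Q_add_smul hQ, hv'a, hva, he, po_comm Q v e, po_comm Q e v, hvβ] at h6
        have hc0 : c 0 = 0 := by
          have h5 : c 0 * β = 0 := by linear_combination -h6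
          exact (mul_eq_zero.mp h5).resolve_right hβ0
        rw [hc, hc0]
        simp
    refine (Finset.sum_le_sum hb).trans ?_
    rw [Finset.sum_const, Finset.card_erase_of_mem (Finset.mem_univ _), Finset.card_univ, smul_eq_mul]
  -- the part with zero value
  have h0 : (S.filter (fun v => ¬ po Q v e ≠ 0)).card ≤ 2 * Fintype.card F ^ (n - 2) := by
    set S0 := S.filter (fun v => ¬ po Q v e ≠ 0) with hS0
    rcases S0.eq_empty_or_nonempty with h00 | ⟨v0, hv0⟩
    · rw [h00]
      simp
    have hv0a : Q v0 = a := (Finset.mem_filter.mp (Finset.mem_filter.mp hv0).1).2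
    have hv0e : po Q v0 e = 0 := by
      have := (Finset.mem_filter.mp hv0).2
      simpa using this
    have hev0 : po Q e v0 = 0 := by rwa [po_comm]
    have h2a : (2 : F) * a ≠ 0 := mul_ne_zero h2 ha
    have hli3 : LinearIndependent F ![e, v0, w] := by
      rw [Fintype.linearIndependent_iff]
      intro g hg
      rw [Fin.sum_univ_three] at hg
      simp only [Matrix.cons_val_zero, Matrix.cons_val_one, Matrix.cons_val] at hg
      have h3 := congrArg (fun z => po Q z e) hg
      rw [hQ.add_left, hQ.add_left, hQ.smul_left, hQ.smul_left, hQ.smul_left, hee, hv0e, po_comm Q 0 e,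
        po_zero_right' hQ] at h3
      have hr : g 2 = 0 := by
        have h5 : g 2 * po Q w e = 0 := by linear_combination h3
        exact (mul_eq_zero.mp h5).resolve_right hwe
      rw [hr, zero_smul, add_zero] at hg
      have h4 := congrArg (fun z => po Q z v0) hg
      rw [hQ.add_left, hQ.smul_left, hQ.smul_left, hev0, hQ.po_self, hv0a, po_comm Q 0 v0, po_zero_right' hQ] at h4
      have ht : g 1 = 0 := by
        have h5 : g 1 * (2 * a) = 0 := by linear_combination h4
        exact (mul_eq_zero.mp h5).resolve_right h2a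
      rw [ht, zero_smul, add_zero] at hg
      have hs : g 0 = 0 := (smul_eq_zero.mp hg).resolve_right he0
      intro i
      fin_cases i
      · exact hs
      · exact ht
      · exact hr
    have hn3 : 3 ≤ n := by
      have := hli3.fintype_card_le_finrank
      simpa using this
    have h3 := card_le_of_fiber ![e, v0, w] hli3 S0 (2 * Fintype.card F) (fun v hv => ?_)
    · have e1 : Fintype.card F ^ (n - 2) = Fintype.card F * Fintype.card F ^ (n - 3) := by
        rw [← pow_succ']
        congr 1
        omega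
      rw [e1]
      calc _ ≤ _ := h3
        _ = _ := by ring
    · have hva : Q v = a := (Finset.mem_filter.mp (Finset.mem_filter.mp hv).1).2
      have hve : po Q v e = 0 := by
        have := (Finset.mem_filter.mp hv).2
        simpa using this
      refine ⟨(Finset.univ.image fun s : F => v + s • e) ∪
        (Finset.univ.image fun s : F => v + s • e + (-(po Q v v0) / a) • v0), ?_, ?_⟩
      · refine (Finset.card_union_le _ _).trans ?_
        have c1 := Finset.card_image_le (s := (Finset.univ : Finset F)) (f := fun s : F => v + s • e)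
        have c2 := Finset.card_image_le (s := (Finset.univ : Finset F))
          (f := fun s : F => v + s • e + (-(po Q v v0) / a) • v0)
        rw [Finset.card_univ] at c1 c2
        omega
      · intro v' hv' c hc
        rw [Fin.sum_univ_three] at hc
        simp only [Matrix.cons_val_zero, Matrix.cons_val_one, Matrix.cons_val] at hc
        have hv'a : Q v' = a := (Finset.mem_filter.mp (Finset.mem_filter.mp hv').1).2
        have hv'e : po Q v' e = 0 := by
          have := (Finset.mem_filter.mp hv').2
          simpa using this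
        have hc2 : c 2 = 0 := by
          have h3 := congrArg (fun z => po Q z e) hc
          rw [hQ.add_left, hQ.add_left, hQ.add_left, hQ.smul_left, hQ.smul_left, hQ.smul_left, hee, hve, hv0e, hv'e] at h3
          have h5 : c 2 * po Q w e = 0 := by linear_combination -h3
          exact (mul_eq_zero.mp h5).resolve_right hwe
        rw [hc2, zero_smul, add_zero] at hc
        have hQeq : Q (c 0 • e + c 1 • v0) = c 1 * c 1 * a := by
          rw [Q_add_smul hQ, hQ.smul, he, hv0a, hQ.smul_left, hev0]
          ring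
        have hpo : po Q v (c 0 • e + c 1 • v0) = c 1 * po Q v v0 := by
          rw [hQ.add_right, hQ.smul_right, hQ.smul_right, hve]
          ring
        have h6 : c 1 * (c 1 * a + po Q v v0) = 0 := by
          have h7 := congrArg Q hc
          rw [hQ.add, hQeq, hpo, hv'a, hva] at h7
          linear_combination -h7
        rcases mul_eq_zero.mp h6 with h8 | h8
        · refine Finset.mem_union_left _ (Finset.mem_image.mpr ⟨c 0, Finset.mem_univ _, ?_⟩)
          show v + c 0 • e = v'
          rw [hc, h8]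
          simp
        · refine Finset.mem_union_right _ (Finset.mem_image.mpr ⟨c 0, Finset.mem_univ _, ?_⟩)
          have h9 : c 1 = -(po Q v v0) / a := by
            field_simp
            linear_combination h8
          show v + c 0 • e + (-(po Q v v0) / a) • v0 = v'
          rw [hc, h9, add_assoc]
  have htot := Finset.card_filter_add_card_filter_not (s := S) (fun v => po Q v e ≠ 0)
  rw [← htot]
  calc _ ≤ (Fintype.card F - 1) * Fintype.card F ^ (n - 2) + 2 * Fintype.card F ^ (n - 2) := Nat.add_le_add h1 h0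
    _ = _ := by
      rw [← add_mul]
      congr 1
      omega

/-- Lemma A. -/
lemma card_v_le (h2 : (2 : F) ≠ 0) {x y : Fin n → F} (hΔ : 4 * Q x * Q y - po Q x y ^ 2 ≠ 0) {a : F} (ha : a ≠ 0) :
    (Finset.univ.filter (fun v => Q v = a)).card ≤ (Fintype.card F + 1) * Fintype.card F ^ (n - 2) := by
  by_cases hiso : ∀ s t : F, (s ≠ 0 ∨ t ≠ 0) → Q (s • x + t • y) ≠ 0
  · exact card_v_aniso hQ h2 hΔ hiso
  · push Not at hiso
    obtain ⟨s, t, hst, he⟩ := hiso
    have hli := li_of_nondeg hQ hΔ
    have he0 : s • x + t • y ≠ 0 := by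
      intro h
      have := (LinearIndependent.pair_iff.mp hli) s t h
      rcases hst with h1 | h1
      · exact h1 this.1
      · exact h1 this.2
    by_cases hx : po Q (s • x + t • y) x = 0
    · by_cases hy : po Q (s • x + t • y) y = 0
      · have := comb_zero hQ hΔ hx hy
        rcases hst with h1 | h1
        · exact absurd this.1 h1
        · exact absurd this.2 h1
      · exact card_v_iso hQ h2 he0 he hy ha
    · exact card_v_iso hQ h2 he0 he hx ha

end Form

/-- Transitivity on independent pairs. -/
lemma exists_equiv_pair {v w x y : Fin n → F} (h1 : LinearIndependent F ![v, w]) (h2 : LinearIndependent F ![x, y]) :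
    ∃ g : (Fin n → F) ≃ₗ[F] (Fin n → F), g v = x ∧ g w = y := by
  let f : Submodule.span F (Set.range ![v, w]) ≃ₗ[F] Submodule.span F (Set.range ![x, y]) :=
    h1.linearCombinationEquiv.symm ≪≫ₗ h2.linearCombinationEquiv
  obtain ⟨g, hg⟩ := Submodule.exists_linearEquiv_restrict_eq f
  have key : ∀ i : Fin 2, g (![v, w] i) = ![x, y] i := by
    intro i
    have hm : ![v, w] i ∈ Submodule.span F (Set.range ![v, w]) := Submodule.subset_span ⟨i, rfl⟩
    have h3 := hg ⟨_, hm⟩
    have h4 : f ⟨_, hm⟩ = h2.linearCombinationEquiv (Finsupp.single i 1) := by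
      show h2.linearCombinationEquiv (h1.repr ⟨_, hm⟩) = _
      rw [h1.repr_eq_single i _ rfl]
    rw [h4] at h3
    have h5 := LinearIndependent.linearCombinationEquiv_apply_coe (R := F) h2 (Finsupp.single i 1)
    rw [Finsupp.linearCombination_single, one_smul] at h5
    rw [← h5]
    exact h3.symm
  exact ⟨g, key 0, key 1⟩

/-- For an independent pair, the number of forms of the orbit with given values. -/
lemma card_forms_ge {Q : (Fin n → F) → F} (hQ : IsQo Q) (h2 : (2 : F) ≠ 0) {x y v w : Fin n → F}
    (hΔ : 4 * Q x * Q y - po Q x y ^ 2 ≠ 0) (hvw : LinearIndependent F ![v, w]) :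
    (Fintype.card F ^ (n - 2)) ^ 2 ≤
      ((orb Q).filter (fun Q' => Q' v = Q x ∧ Q' w = Q y ∧ po Q' v w = po Q x y)).card := by
  obtain ⟨g, hgv, hgw⟩ := exists_equiv_pair hvw (li_of_nondeg hQ hΔ)
  let Q1 : (Fin n → F) → F := Q ∘ g
  have hQ1 : IsQo Q1 := hQ.comp g.toLinearMap
  have hQ1v : Q1 v = Q x := by
    show Q (g v) = _
    rw [hgv]
  have hQ1w : Q1 w = Q y := by
    show Q (g w) = _
    rw [hgw]
  have hp1 : po Q1 v w = po Q x y := by
    show po (Q ∘ g) v w = _
    rw [po_comp, hgv, hgw]
  -- the functionals vanishing on `v, w`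
  let W : Submodule F (Fin n → F) := Submodule.span F (Set.range ![v, w])
  let K : Submodule F (Module.Dual F (Fin n → F)) := W.dualAnnihilator
  have hvW : v ∈ W := Submodule.subset_span ⟨0, rfl⟩
  have hwW : w ∈ W := Submodule.subset_span ⟨1, rfl⟩
  have hK : ∀ φ : K, φ.1 v = 0 ∧ φ.1 w = 0 := by
    intro φ
    have := (Submodule.mem_dualAnnihilator _).1 φ.2
    exact ⟨this v hvW, this w hwW⟩
  have hfr : finrank F K = n - 2 := by
    have h3 := Subspace.finrank_add_finrank_dualAnnihilator_eq W
    have h4 : finrank F W = 2 := by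
      have := finrank_span_eq_card hvw
      simpa using this
    rw [h4, Module.finrank_fin_fun] at h3
    show finrank F W.dualAnnihilator = n - 2
    omega
  have : Finite (Module.Dual F (Fin n → F)) := Module.finite_of_finite F
  have : Fintype K := Fintype.ofFinite _
  have hcard : Fintype.card K = Fintype.card F ^ (n - 2) := by
    rw [Module.card_eq_pow_finrank (K := F), hfr]
  let gg : K × K → ((Fin n → F) ≃ₗ[F] (Fin n → F)) := fun φ =>
    { toFun := fun z => z + φ.1.1 z • v + φ.2.1 z • w
      invFun := fun z => z - φ.1.1 z • v - φ.2.1 z • w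
      map_add' := fun a b => by
        simp only [map_add, add_smul]
        abel
      map_smul' := fun t a => by
        simp only [map_smul, smul_eq_mul, RingHom.id_apply, smul_add, mul_smul]
      left_inv := fun z => by
        simp [(hK φ.1).1, (hK φ.1).2, (hK φ.2).1, (hK φ.2).2]
        abel
      right_inv := fun z => by
        simp [(hK φ.1).1, (hK φ.1).2, (hK φ.2).1, (hK φ.2).2]
        abel }
  have hgg : ∀ φ z, gg φ z = z + φ.1.1 z • v + φ.2.1 z • w := fun φ z => rfl
  have hgv' : ∀ φ, gg φ v = v := by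
    intro φ
    rw [hgg, (hK φ.1).1, (hK φ.2).1]
    simp
  have hgw' : ∀ φ, gg φ w = w := by
    intro φ
    rw [hgg, (hK φ.1).2, (hK φ.2).2]
    simp
  have e2 : (Fintype.card F ^ (n - 2)) ^ 2 = (Finset.univ : Finset (K × K)).card := by
    rw [Finset.card_univ, Fintype.card_prod, hcard]
    ring
  rw [e2]
  apply Finset.card_le_card_of_injOn (fun φ => Q1 ∘ gg φ)
  · intro φ _
    simp only [Finset.coe_filter, Set.mem_ofPred_eq]
    refine ⟨mem_orb.mpr ⟨(gg φ).trans g, rfl⟩, ?_, ?_, ?_⟩
    · show Q1 (gg φ v) = _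
      rw [hgv', hQ1v]
    · show Q1 (gg φ w) = _
      rw [hgw', hQ1w]
    · rw [po_comp, hgv', hgw', hp1]
  · intro φ _ φ' _ he
    have hΔ' : 4 * Q x * Q y - po Q x y ^ 2 ≠ 0 := hΔ
    have h3 : ∀ z, φ.1.1 z = φ'.1.1 z ∧ φ.2.1 z = φ'.2.1 z := by
      intro z
      have hh : Q1 ∘ gg φ = Q1 ∘ gg φ' := he
      have h4 : po (Q1 ∘ gg φ) z v = po (Q1 ∘ gg φ') z v := by rw [hh]
      have h5 : po (Q1 ∘ gg φ) z w = po (Q1 ∘ gg φ') z w := by rw [hh]
      have e0 : ∀ (k : K × K) (t : Fin n → F), po (Q1 ∘ gg k) z t = po Q1 (gg k z) (gg k t) :=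
        fun k t => po_comp (Q := Q1) (gg k) z t
      rw [e0, e0, hgv', hgv', hgg, hgg, hQ1.add_left, hQ1.add_left, hQ1.add_left, hQ1.add_left,
        hQ1.smul_left, hQ1.smul_left, hQ1.smul_left, hQ1.smul_left, hQ1.po_self, hQ1v, po_comm Q1 w v, hp1] at h4
      rw [e0, e0, hgw', hgw', hgg, hgg, hQ1.add_left, hQ1.add_left, hQ1.add_left, hQ1.add_left,
        hQ1.smul_left, hQ1.smul_left, hQ1.smul_left, hQ1.smul_left, hQ1.po_self, hQ1w, hp1] at h5
      set A := φ.1.1 z - φ'.1.1 z with hA
      set B := φ.2.1 z - φ'.2.1 z with hB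
      have h6 : A * (2 * Q x) + B * po Q x y = 0 := by
        rw [hA, hB]
        linear_combination h4
      have h7 : A * po Q x y + B * (2 * Q y) = 0 := by
        rw [hA, hB]
        linear_combination h5
      have hA0 : A = 0 := by
        have : A * (4 * Q x * Q y - po Q x y ^ 2) = 0 := by
          linear_combination 2 * Q y * h6 - po Q x y * h7
        exact (mul_eq_zero.mp this).resolve_right hΔ'
      have hB0 : B = 0 := by
        have : B * (4 * Q x * Q y - po Q x y ^ 2) = 0 := by
          linear_combination 2 * Q x * h7 - po Q x y * h6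
        exact (mul_eq_zero.mp this).resolve_right hΔ'
      exact ⟨sub_eq_zero.mp hA0, sub_eq_zero.mp hB0⟩
    apply Prod.ext
    · apply Subtype.ext
      apply LinearMap.ext
      exact fun z => (h3 z).1
    · apply Subtype.ext
      apply LinearMap.ext
      exact fun z => (h3 z).2

/-- Some `x` has `Q x ≠ 0`. -/
lemma exists_good {Q : (Fin n → F) → F} (hQ : IsQo Q) (h2 : (2 : F) ≠ 0) (hnot : ∃ x y, 4 * Q x * Q y ≠ po Q x y ^ 2) :
    ∃ x y, Q x ≠ 0 ∧ 4 * Q x * Q y - po Q x y ^ 2 ≠ 0 := by
  obtain ⟨x, y, h⟩ := hnot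
  have h' : 4 * Q x * Q y - po Q x y ^ 2 ≠ 0 := sub_ne_zero.mpr h
  by_cases hx : Q x = 0
  · by_cases hy : Q y = 0
    · have hc : po Q x y ≠ 0 := by
        intro hc
        apply h'
        rw [hc, hx]
        ring
      refine ⟨x + y, y, ?_, ?_⟩
      · rw [hQ.add, hx, hy]
        simpa using hc
      · rw [hQ.add, hQ.add_left, hQ.po_self, hx, hy]
        simpa using hc
    · refine ⟨y, x, hy, ?_⟩
      rw [po_comm]
      intro h3
      apply h'
      linear_combination h3
  · exact ⟨x, y, hx, h'⟩

/-- The independent pairs. -/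
lemma card_pairs : (Fintype.card F ^ n - 1) * (Fintype.card F ^ n - Fintype.card F) ≤
    ((Finset.univ : Finset ((Fin n → F) × (Fin n → F))).filter (fun p => LinearIndependent F ![p.1, p.2])).card := by
  by_cases hn : n = 0
  · subst hn
    simp
  have hV : Fintype.card (Fin n → F) = Fintype.card F ^ n := by
    simp
  have hone : ∀ v : Fin n → F, v ≠ 0 → Fintype.card F ^ n - Fintype.card F ≤
      ((Finset.univ : Finset (Fin n → F)).filter (fun w => LinearIndependent F ![v, w])).card := by
    intro v hv
    have h3 : ((Finset.univ : Finset (Fin n → F)).filter (fun w => ¬ LinearIndependent F ![v, w])) ⊆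
        Finset.univ.image (fun t : F => t • v) := by
      intro w hw
      have h4 := (Finset.mem_filter.mp hw).2
      rw [LinearIndependent.pair_iff] at h4
      push Not at h4
      obtain ⟨s, t, hst, h5⟩ := h4
      have ht : t ≠ 0 := by
        intro ht
        rw [ht, zero_smul, add_zero] at hst
        exact h5 ((smul_eq_zero.mp hst).resolve_right hv) ht
      refine Finset.mem_image.mpr ⟨-(s / t), Finset.mem_univ _, ?_⟩
      have : t • w = -(s • v) := eq_neg_of_add_eq_zero_right hst
      have h6 : w = t⁻¹ • t • w := by rw [smul_smul, inv_mul_cancel₀ ht, one_smul]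
      rw [h6, this, smul_neg, smul_smul, neg_smul]
      congr 2
      field_simp
    have h4 := Finset.card_le_card h3
    have h5 := Finset.card_image_le (s := (Finset.univ : Finset F)) (f := fun t : F => t • v)
    rw [Finset.card_univ] at h5
    have h6 := Finset.card_filter_add_card_filter_not (s := (Finset.univ : Finset (Fin n → F))) (fun w => LinearIndependent F ![v, w])
    rw [Finset.card_univ, hV] at h6
    omega
  have h3 : ((Finset.univ : Finset ((Fin n → F) × (Fin n → F))).filter (fun p => LinearIndependent F ![p.1, p.2])).card =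
      ∑ v : Fin n → F, ((Finset.univ : Finset (Fin n → F)).filter (fun w => LinearIndependent F ![v, w])).card := by
    rw [Finset.card_filter, ← Finset.univ_product_univ, Finset.sum_product]
    refine Finset.sum_congr rfl fun v _ => ?_
    rw [Finset.card_filter]
  rw [h3, ← Finset.add_sum_erase Finset.univ _ (Finset.mem_univ (0 : Fin n → F))]
  have h4 : (Fintype.card F ^ n - 1) * (Fintype.card F ^ n - Fintype.card F) ≤
      ∑ v ∈ Finset.univ.erase (0 : Fin n → F), ((Finset.univ : Finset (Fin n → F)).filter (fun w => LinearIndependent F ![v, w])).card := by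
    have h5 : ∑ v ∈ Finset.univ.erase (0 : Fin n → F), (Fintype.card F ^ n - Fintype.card F) ≤ _ :=
      Finset.sum_le_sum (fun v hv => hone v (Finset.ne_of_mem_erase hv))
    rw [Finset.sum_const, Finset.card_erase_of_mem (Finset.mem_univ _), Finset.card_univ, hV, smul_eq_mul] at h5
    exact h5
  omega

/-- **`orbit_gap`**, by a double count. -/
theorem orbit_gap_dc (h2 : (2 : F) ≠ 0) {Q : (Fin n → F) → F} (hQ : IsQo Q) (hnot : ∃ x y, 4 * Q x * Q y ≠ po Q x y ^ 2) :
    (Fintype.card F ^ n - 1) * (Fintype.card F ^ n - Fintype.card F) ≤ 2 * (Fintype.card F + 1) * (orb Q).card := by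
  obtain ⟨x, y, hx, hΔ⟩ := exists_good hQ h2 hnot
  set a := Q x with ha
  set b := Q y with hb
  set c := po Q x y with hc
  have hq0 : 0 < Fintype.card F := Fintype.card_pos
  let Pr := (Finset.univ : Finset ((Fin n → F) × (Fin n → F))).filter (fun p => LinearIndependent F ![p.1, p.2])
  have h1 : ∀ p ∈ Pr, (Fintype.card F ^ (n - 2)) ^ 2 ≤ ((orb Q).filter (fun Q' => Q' p.1 = a ∧ Q' p.2 = b ∧ po Q' p.1 p.2 = c)).card := by
    intro p hp
    exact card_forms_ge hQ h2 hΔ (Finset.mem_filter.mp hp).2
  have h3 : ∀ Q' ∈ orb Q, (Pr.filter (fun p => Q' p.1 = a ∧ Q' p.2 = b ∧ po Q' p.1 p.2 = c)).card ≤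
      (Fintype.card F + 1) * Fintype.card F ^ (n - 2) * (2 * Fintype.card F ^ (n - 2)) := by
    intro Q' hQ'
    obtain ⟨g, rfl⟩ := mem_orb.mp hQ'
    have hQ3 : IsQo (Q ∘ g) := hQ.comp g.toLinearMap
    have hΔ3 : 4 * (Q ∘ g) (g.symm x) * (Q ∘ g) (g.symm y) - po (Q ∘ g) (g.symm x) (g.symm y) ^ 2 ≠ 0 := by
      rw [po_comp]
      simpa using hΔ
    have hA := card_v_le hQ3 h2 hΔ3 hx
    let T : Finset (Σ _ : (Fin n → F), (Fin n → F)) := (Finset.univ.filter (fun v => (Q ∘ g) v = a)).sigma
      (fun v => Finset.univ.filter (fun w => (Q ∘ g) w = b ∧ po (Q ∘ g) v w = c))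
    have hle : (Pr.filter (fun p => (Q ∘ g) p.1 = a ∧ (Q ∘ g) p.2 = b ∧ po (Q ∘ g) p.1 p.2 = c)).card ≤ T.card := by
      refine Finset.card_le_card_of_injOn (fun p => ⟨p.1, p.2⟩) ?_ ?_
      · intro p hp
        obtain ⟨-, h5, h6, h7⟩ := Finset.mem_filter.mp (Finset.mem_coe.mp hp)
        exact Finset.mem_coe.mpr (Finset.mem_sigma.mpr ⟨Finset.mem_filter.mpr ⟨Finset.mem_univ _, h5⟩,
          Finset.mem_filter.mpr ⟨Finset.mem_univ _, h6, h7⟩⟩)
      · intro p _ p' _ h
        have := Sigma.mk.inj_iff.mp h
        exact Prod.ext this.1 (eq_of_heq this.2)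
    refine hle.trans ?_
    rw [Finset.card_sigma]
    calc _ ≤ ∑ v ∈ Finset.univ.filter (fun v => (Q ∘ g) v = a), (2 * Fintype.card F ^ (n - 2)) :=
          Finset.sum_le_sum (fun v hv => card_w_le hQ3 h2 (Finset.mem_filter.mp hv).2 hx hΔ)
      _ = _ := by simp
      _ ≤ _ := Nat.mul_le_mul_right _ hA
  have h4 := Finset.sum_card_bipartiteAbove_eq_sum_card_bipartiteBelow (s := orb Q) (t := Pr)
    (fun Q' p => Q' p.1 = a ∧ Q' p.2 = b ∧ po Q' p.1 p.2 = c)
  simp only [Finset.bipartiteAbove, Finset.bipartiteBelow] at h4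
  have h5 : Pr.card * (Fintype.card F ^ (n - 2)) ^ 2 ≤
      (orb Q).card * ((Fintype.card F + 1) * Fintype.card F ^ (n - 2) * (2 * Fintype.card F ^ (n - 2))) := by
    calc Pr.card * (Fintype.card F ^ (n - 2)) ^ 2 = ∑ _p ∈ Pr, (Fintype.card F ^ (n - 2)) ^ 2 := by simp
      _ ≤ ∑ p ∈ Pr, ((orb Q).filter (fun Q' => Q' p.1 = a ∧ Q' p.2 = b ∧ po Q' p.1 p.2 = c)).card := Finset.sum_le_sum h1
      _ = ∑ Q' ∈ orb Q, (Pr.filter (fun p => Q' p.1 = a ∧ Q' p.2 = b ∧ po Q' p.1 p.2 = c)).card := h4.symm
      _ ≤ ∑ _Q' ∈ orb Q, ((Fintype.card F + 1) * Fintype.card F ^ (n - 2) * (2 * Fintype.card F ^ (n - 2))) := Finset.sum_le_sum h3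
      _ = _ := by simp
  have hpos : 0 < (Fintype.card F ^ (n - 2)) ^ 2 := by positivity
  have h6 : Pr.card ≤ 2 * (Fintype.card F + 1) * (orb Q).card := by
    apply Nat.le_of_mul_le_mul_right _ hpos
    calc _ ≤ _ := h5
      _ = _ := by ring
  exact card_pairs.trans h6

end Cfsg.Agent.Lib.WeilGap.OrbitGapDC
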