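import Cfsg.Agent.Lib.WeilGap.Stab

/-!
# [PHI0] The map `Φ₀` on functions.
`exists_PhiD`. PAPER PROOF. For `u ≠ 0` pick `R_u` with `(R_u⁻¹)ᵀ e_{i₀} = u` (`Gen.gl_trans`), `Vec u := κ(R_u)⁻¹ • ρ (LL R_u) m`. For any `R` with `(R⁻¹)ᵀ e_{i₀} = u`,
`κ(R)⁻¹ • ρ (LL R) m = Vec u`: `R = R_u Z` with row `i₀` of `Z` equal to `e_{i₀}`; `Stab.stab_main`. Hence `ρ (LL R) (Vec u) = κ R • Vec ((R⁻¹)ᵀ u)`. Weight: `ρ (UU B) (Vec u) = ψ (-qq B u) • Vec u` (`LL_UU`, cS, cf. `SpDeg.Odd.map_WW`).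
Parity: `Vec (-u) = s • Vec u`: take `R = R_u * dg i₀ (-1)`, `Stab.stab_neg`. `Φ φ := ∑_{u ≠ 0} (φ u / 2) • Vec u`.
Then `Φ (dl u) = (1/2) • Vec u` (`u ≠ 0`), `Φ (dl 0) = 0`, `A`: `Φ (fu s e_{i₀}) = (1/2)(1 + s²) • Vec e_{i₀} = Vec e_{i₀} = m`. `L`, `U` on the basis `dl u` from `WtApi.tau_dl_L`, `tau_dl_U` (and `dl_span`: write `φ = ∑ φ x • dl x`).
-/

set_option autoImplicit false
set_option linter.unusedSectionVars false
set_option linter.unusedVariables false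

namespace Cfsg.Agent.Lib.WeilGap.Phi0

open Module Matrix Cfsg.Agent.Lib.SpDeg.Main Cfsg.Agent.Lib.SpDeg.Odd Cfsg.Agent.Lib.Weil.Basic
  Cfsg.Agent.Lib.Weil.Minus Cfsg.Agent.Lib.WeilGap.Defs
open scoped _root_.Classical

universe u

variable {F : Type u} [Field F] [Fintype F] {n : ℕ}

open Cfsg.Agent.Lib.WeilGap.Stab


namespace Phi0Aux

lemma qq_cS (M : Matrix (Fin n) (Fin n) F) (B : SymM F n) (x : Fin n → F) :
    qq (cS M B) x = qq B (Mᵀ *ᵥ x) := by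
  unfold qq
  rw [cS_coe]
  congr 1
  rw [← Matrix.mulVec_mulVec, ← Matrix.mulVec_mulVec, Matrix.dotProduct_mulVec (v := x) (A := M), Matrix.mulVec_transpose]

lemma tr_mul (R S : GL (Fin n) F) (x : Fin n → F) :
    (((R * S)⁻¹ : GL (Fin n) F) : Matrix (Fin n) (Fin n) F)ᵀ *ᵥ x =
      ((R⁻¹ : GL (Fin n) F) : Matrix (Fin n) (Fin n) F)ᵀ *ᵥ (((S⁻¹ : GL (Fin n) F) : Matrix (Fin n) (Fin n) F)ᵀ *ᵥ x) := by
  rw [_root_.mul_inv_rev, Units.val_mul, Matrix.transpose_mul, Matrix.mulVec_mulVec]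

lemma tr_left (R : GL (Fin n) F) (x : Fin n → F) :
    (R : Matrix (Fin n) (Fin n) F)ᵀ *ᵥ (((R⁻¹ : GL (Fin n) F) : Matrix (Fin n) (Fin n) F)ᵀ *ᵥ x) = x := by
  rw [Matrix.mulVec_mulVec, ← Matrix.transpose_mul, ← Units.val_mul, inv_mul_cancel]
  simp

lemma tr_right (R : GL (Fin n) F) (x : Fin n → F) :
    ((R⁻¹ : GL (Fin n) F) : Matrix (Fin n) (Fin n) F)ᵀ *ᵥ ((R : Matrix (Fin n) (Fin n) F)ᵀ *ᵥ x) = x := by
  rw [Matrix.mulVec_mulVec, ← Matrix.transpose_mul, ← Units.val_mul, mul_inv_cancel]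
  simp

lemma row_of_fix (i₀ : Fin n) (Z : GL (Fin n) F)
    (h : (Z : Matrix (Fin n) (Fin n) F)ᵀ *ᵥ ev i₀ = ev i₀) (k : Fin n) :
    (Z : Matrix (Fin n) (Fin n) F) i₀ k = if k = i₀ then 1 else 0 := by
  have h1 := congrFun h k
  unfold ev at h1
  rw [Matrix.mulVec_single_one, Pi.single_apply] at h1
  simpa [Matrix.col_apply, Matrix.transpose_apply] using h1

lemma ev_ne (i₀ : Fin n) : (ev i₀ : Fin n → F) ≠ 0 := by
  intro h
  have := congrFun h i₀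
  simp [ev] at this

lemma LL_one : LL (1 : GL (Fin n) F) = 1 := by
  have h := Cfsg.Agent.Lib.WeilGap.Conj.LL_mul (F := F) (n := n) 1 1
  rw [mul_one] at h
  exact (mul_eq_left.mp h.symm)

lemma dg_neg_tr (i₀ : Fin n) :
    (((dg i₀ (-1 : Fˣ))⁻¹ : GL (Fin n) F) : Matrix (Fin n) (Fin n) F)ᵀ *ᵥ ev i₀ = - ev i₀ := by
  have e : (((dg i₀ (-1 : Fˣ))⁻¹ : GL (Fin n) F) : Matrix (Fin n) (Fin n) F) =
      Matrix.diagonal (Function.update 1 i₀ (((-1 : Fˣ)⁻¹ : Fˣ) : F)) := rfl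
  rw [e, Matrix.diagonal_transpose]
  funext k
  rw [Matrix.mulVec_diagonal]
  by_cases h : k = i₀
  · subst h
    simp [ev]
  · simp [ev, h]

lemma ext_dl {V : Type*} [AddCommGroup V] [Module ℂ V] (f g : WS F n →ₗ[ℂ] V) (h : ∀ x, f (dl x) = g (dl x)) : f = g := by
  apply LinearMap.ext
  intro φ
  rw [eq_sum_dl φ, map_sum, map_sum]
  refine Finset.sum_congr rfl fun x _ => ?_
  rw [map_smul, map_smul, h]

end Phi0Aux

variable {V : Type*} [AddCommGroup V] [Module ℂ V] [FiniteDimensional ℂ V]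
variable {ψ : AddChar F ℂ} (W : WT (F := F) (n := n) ψ) (ρ : Gp F n →* Module.End ℂ V)

/-- The data of `Φ₀`. -/
structure PhiD (s : ℂ) (i₀ : Fin n) (m : V) where
  Φ : WS F n →ₗ[ℂ] V
  A : Φ (fu s (ev i₀)) = m
  L : ∀ (R : GL (Fin n) F) (φ : WS F n), Φ (W.τ (LL R) φ) = ρ (LL R) (Φ φ)
  U : ∀ (B : SymM F n) (φ : WS F n), Φ (W.τ (UU B) φ) = ρ (UU B) (Φ φ)
  D0 : Φ (dl 0) = 0
  P : ∀ u : Fin n → F, Φ (dl (-u)) = s • Φ (dl u)

theorem exists_PhiD (h2 : (2 : F) ≠ 0) (hψ : ψ 1 ≠ 1) (hR : R1all ψ ρ) (s : ℂ) (hs1 : s = 1 ∨ s = -1)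
    (hs : ρ zI = (s * (W.κ (-1) : ℂ)) • (1 : Module.End ℂ V)) (i₀ : Fin n) (m : V) (hm : IsM ψ ρ i₀ m) :
    Nonempty (PhiD W ρ s i₀ m) := by
  classical
  open Phi0Aux in
  have hs2 : s * s = 1 := by rcases hs1 with rfl | rfl <;> norm_num
  let Rc : ∀ u : Fin n → F, u ≠ 0 → GL (Fin n) F := fun u hu => Classical.choose (Cfsg.Agent.Lib.WeilGap.Gen.gl_trans i₀ u hu)
  have hRc : ∀ u (hu : u ≠ 0), (((Rc u hu)⁻¹ : GL (Fin n) F) : Matrix (Fin n) (Fin n) F)ᵀ *ᵥ ev i₀ = u :=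
    fun u hu => Classical.choose_spec (Cfsg.Agent.Lib.WeilGap.Gen.gl_trans i₀ u hu)
  let Vec : (Fin n → F) → V := fun u => if hu : u = 0 then 0 else ((W.κ (Rc u hu) : ℂ)⁻¹) • ρ (LL (Rc u hu)) m
  have hVec0 : Vec 0 = 0 := dif_pos rfl
  have hVecne : ∀ u (hu : u ≠ 0), Vec u = ((W.κ (Rc u hu) : ℂ)⁻¹) • ρ (LL (Rc u hu)) m := fun u hu => dif_neg hu
  have hκ : ∀ R : GL (Fin n) F, (W.κ R : ℂ) ≠ 0 := fun R => Units.ne_zero _
  have hκmul : ∀ R R' : GL (Fin n) F, (W.κ (R * R') : ℂ) = (W.κ R : ℂ) * (W.κ R' : ℂ) := fun R R' => by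
    rw [map_mul, Units.val_mul]
  have hρmul : ∀ (R R' : GL (Fin n) F) (v : V), ρ (LL (R * R')) v = ρ (LL R) (ρ (LL R') v) := fun R R' v => by
    rw [Cfsg.Agent.Lib.WeilGap.Conj.LL_mul, map_mul, Module.End.mul_apply]
  -- (A)
  have hA : ∀ (R : GL (Fin n) F) (u : Fin n → F), u ≠ 0 → ((R⁻¹ : GL (Fin n) F) : Matrix (Fin n) (Fin n) F)ᵀ *ᵥ ev i₀ = u →
      ρ (LL R) m = (W.κ R : ℂ) • Vec u := by
    intro R u hu hRu
    set Ru := Rc u hu with hRudef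
    have hfix : (((Ru⁻¹ * R : GL (Fin n) F)) : Matrix (Fin n) (Fin n) F)ᵀ *ᵥ ev i₀ = ev i₀ := by
      rw [Units.val_mul, Matrix.transpose_mul, ← Matrix.mulVec_mulVec, hRc u hu, ← hRu, Phi0Aux.tr_left]
    have hst := Cfsg.Agent.Lib.WeilGap.Stab.stab_main W ρ h2 hψ hR i₀ m hm (Ru⁻¹ * R) (Phi0Aux.row_of_fix i₀ _ hfix)
    have e1 : R = Ru * (Ru⁻¹ * R) := by group
    have e2 : ρ (LL R) m = (W.κ (Ru⁻¹ * R) : ℂ) • ρ (LL Ru) m := by
      conv_lhs => rw [e1, hρmul, hst, map_smul]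
    rw [e2, hVecne u hu, smul_smul]
    congr 1
    conv_rhs => rw [e1, hκmul]
    field_simp [hκ Ru]
    rfl
  -- (B)
  have hVecL : ∀ (R : GL (Fin n) F) (u : Fin n → F), ρ (LL R) (Vec u) =
      (W.κ R : ℂ) • Vec (((R⁻¹ : GL (Fin n) F) : Matrix (Fin n) (Fin n) F)ᵀ *ᵥ u) := by
    intro R u
    by_cases hu : u = 0
    · subst hu
      rw [Matrix.mulVec_zero, hVec0, map_zero, smul_zero]
    · have hv : ((R⁻¹ : GL (Fin n) F) : Matrix (Fin n) (Fin n) F)ᵀ *ᵥ u ≠ 0 := by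
        intro h0
        apply hu
        have := Phi0Aux.tr_left R u
        rw [h0, Matrix.mulVec_zero] at this
        exact this.symm
      have h1 := hA (R * Rc u hu) _ hv (by rw [Phi0Aux.tr_mul, hRc u hu])
      rw [hρmul, hκmul] at h1
      rw [hVecne u hu, map_smul, h1, smul_smul]
      congr 1
      field_simp [hκ (Rc u hu)]
  -- (C)
  have hVecU : ∀ (B : SymM F n) (u : Fin n → F), ρ (UU B) (Vec u) = ψ (- qq B u) • Vec u := by
    intro B u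
    by_cases hu : u = 0
    · subst hu
      rw [hVec0, map_zero, smul_zero]
    · rw [hVecne u hu, map_smul, smul_comm]
      congr 1
      set R := Rc u hu with hRdef
      have hB : cS (R : Matrix (Fin n) (Fin n) F) (cS ((R⁻¹ : GL (Fin n) F) : Matrix (Fin n) (Fin n) F) B) = B := by
        apply Subtype.ext
        rw [cS_coe, cS_coe]
        have h1 : (R : Matrix (Fin n) (Fin n) F) * ((R⁻¹ : GL (Fin n) F) : Matrix (Fin n) (Fin n) F) = 1 := by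
          rw [← Units.val_mul, mul_inv_cancel, Units.val_one]
        have h2 : (((R⁻¹ : GL (Fin n) F) : Matrix (Fin n) (Fin n) F))ᵀ * (R : Matrix (Fin n) (Fin n) F)ᵀ = 1 := by
          rw [← Matrix.transpose_mul, h1, Matrix.transpose_one]
        calc (R : Matrix (Fin n) (Fin n) F) * (((R⁻¹ : GL (Fin n) F) : Matrix (Fin n) (Fin n) F) * B.1 * ((R⁻¹ : GL (Fin n) F) : Matrix (Fin n) (Fin n) F)ᵀ) * (R : Matrix (Fin n) (Fin n) F)ᵀ
            = ((R : Matrix (Fin n) (Fin n) F) * ((R⁻¹ : GL (Fin n) F) : Matrix (Fin n) (Fin n) F)) * B.1 * (((R⁻¹ : GL (Fin n) F) : Matrix (Fin n) (Fin n) F)ᵀ * (R : Matrix (Fin n) (Fin n) F)ᵀ) := by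
              simp only [Matrix.mul_assoc]
          _ = B.1 := by rw [h1, h2, Matrix.one_mul, Matrix.mul_one]
      have h3 := LL_UU R (cS ((R⁻¹ : GL (Fin n) F) : Matrix (Fin n) (Fin n) F) B)
      rw [hB] at h3
      have h4 : ρ (UU B) (ρ (LL R) m) = ρ (LL R) (ρ (UU (cS ((R⁻¹ : GL (Fin n) F) : Matrix (Fin n) (Fin n) F) B)) m) := by
        rw [← Module.End.mul_apply, ← Module.End.mul_apply, ← map_mul, ← map_mul, h3]
      rw [h4, hm, map_smul, Phi0Aux.qq_cS, hRc u hu]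
  -- (D)
  have hVecP : ∀ u : Fin n → F, Vec (-u) = s • Vec u := by
    intro u
    by_cases hu : u = 0
    · subst hu
      rw [neg_zero, hVec0, smul_zero]
    · have hneg : -u ≠ 0 := neg_ne_zero.mpr hu
      have h1 := hA (Rc u hu * dg i₀ (-1)) (-u) hneg (by
        rw [Phi0Aux.tr_mul, Phi0Aux.dg_neg_tr, Matrix.mulVec_neg, hRc u hu])
      rw [hρmul, Cfsg.Agent.Lib.WeilGap.Stab.stab_neg W ρ h2 hψ hR i₀ m hm s hs, map_smul, hκmul] at h1
      have h5 := hA (Rc u hu) u hu (hRc u hu)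
      rw [h5, smul_smul] at h1
      have h6 : ((W.κ (Rc u hu) : ℂ) * (W.κ (dg i₀ (-1)) : ℂ)) • (s • Vec u) = ((W.κ (Rc u hu) : ℂ) * (W.κ (dg i₀ (-1)) : ℂ)) • Vec (-u) := by
        rw [← h1, smul_smul]
        congr 1
        ring
      exact (smul_right_injective V (mul_ne_zero (hκ _) (hκ _)) h6).symm
  let Φ : WS F n →ₗ[ℂ] V :=
    { toFun := fun φ => ∑ u, ((2 : ℂ)⁻¹ * φ u) • Vec u
      map_add' := by
        intro a b
        rw [← Finset.sum_add_distrib]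
        refine Finset.sum_congr rfl fun u _ => ?_
        rw [Pi.add_apply, mul_add, add_smul]
      map_smul' := by
        intro c a
        rw [RingHom.id_apply, Finset.smul_sum]
        refine Finset.sum_congr rfl fun u _ => ?_
        rw [Pi.smul_apply, smul_eq_mul, smul_smul]
        congr 1
        ring }
  have hΦ : ∀ φ : WS F n, Φ φ = ∑ u, ((2 : ℂ)⁻¹ * φ u) • Vec u := fun φ => rfl
  have hΦdl : ∀ x, Φ (dl x) = (2 : ℂ)⁻¹ • Vec x := by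
    intro x
    rw [hΦ, Finset.sum_eq_single x]
    · rw [dl_apply, if_pos rfl, mul_one]
    · intro y _ hy
      rw [dl_apply, if_neg hy, mul_zero, zero_smul]
    · simp
  have hVece : Vec (ev i₀) = m := by
    have h1 := hA 1 (ev i₀) (Phi0Aux.ev_ne i₀) (by simp)
    rw [Phi0Aux.LL_one, map_one, map_one] at h1
    simpa using h1.symm
  refine ⟨⟨Φ, ?_, ?_, ?_, ?_, ?_⟩⟩
  · unfold fu
    rw [map_add, map_smul, hΦdl, hΦdl, hVecP, hVece]
    simp only [smul_smul]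
    rw [← add_smul]
    have h7 : (2 : ℂ)⁻¹ + s * ((2 : ℂ)⁻¹ * s) = 1 := by
      linear_combination (2 : ℂ)⁻¹ * hs2
    rw [h7, one_smul]
  · intro R φ
    have h := Phi0Aux.ext_dl (Φ.comp (W.τ (LL R))) ((ρ (LL R)).comp Φ) (by
      intro x
      rw [LinearMap.comp_apply, LinearMap.comp_apply, Cfsg.Agent.Lib.WeilGap.WtApi.tau_dl_L, map_smul, hΦdl, hΦdl, map_smul, hVecL, smul_comm])
    exact LinearMap.congr_fun h φ
  · intro B φ
    have h := Phi0Aux.ext_dl (Φ.comp (W.τ (UU B))) ((ρ (UU B)).comp Φ) (by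
      intro x
      rw [LinearMap.comp_apply, LinearMap.comp_apply, Cfsg.Agent.Lib.WeilGap.WtApi.tau_dl_U, map_smul, hΦdl, map_smul, hVecU, smul_comm])
    exact LinearMap.congr_fun h φ
  · rw [hΦdl, hVec0, smul_zero]
  · intro u
    rw [hΦdl, hΦdl, hVecP, smul_comm]

variable {W ρ}
variable {s : ℂ} {i₀ : Fin n} {m : V} (P : PhiD W ρ s i₀ m)

/-- `Φ (fu s u) = 2 Φ (dl u)`. -/
theorem fu_eq (hs1 : s = 1 ∨ s = -1) (u : Fin n → F) : P.Φ (fu s u) = (2 : ℂ) • P.Φ (dl u) := by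
  have h1 : s * s = 1 := by rcases hs1 with rfl | rfl <;> norm_num
  simp only [fu, map_add, map_smul, P.P, smul_smul, h1, one_smul, two_smul]


end Cfsg.Agent.Lib.WeilGap.Phi0
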