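import Cfsg.Agent.Lib.WeilGap.Wt

/-!
# [WTAPI] Basic facts of Weil data `W`.
`tau_dl_U`: from `W.U`. `tau_dl_L`: from `W.L`, `TRE R φ x = φ (Rᵀ *ᵥ x)`, so `TRE R (dl x) = dl ((R⁻¹)ᵀ *ᵥ x)`.
`kappa_el`: `dg j t * el i j b * (dg j t)⁻¹ = el i j (t b)` or so: thus `κ (el i j b)` does not depend on `b ≠ 0`, and `el i j b * el i j b' = el i j (b + b')`: `x^2 = x` if `b,b',b+b' ≠ 0` (q ≥ 3). `b = 0`: `el = 1`.
`par_stable`: `W.τ zI = κ (-1) • II` (`W.L`, `TRE (-1) = II`), `zI` central (`zI_comm`), so `W.τ g` commutes with `II`; `φ ∈ Par s` means `II φ = s • φ`.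
`r1`: a nonzero `v ∈ WW ψ W.τ f` has `v x ≠ 0` for some `x`; `W.U` gives `ψ (f B) = ψ (- qq B x)` for all `B`, so (`ψ` nontrivial, `f` and `qq · x` linear, replace `B` by `t • B`) `f B = - hh * (x ⬝ᵥ B *ᵥ x)`. Then `f (rk1 u) = -hh (x·u)^2`, `f (pl u v) = -2 hh (x·u)(x·v)`: `R1 f` (use `hh + hh = 1`).
`tau_sw_supp`: `W.S` and `FFs_apply`: `update x i t` has the same `j`-coordinate. `(sw i)⁻¹ = sw i * sw i * sw i` up to `sw_sq`: `sw^4 = 1`.
-/

set_option autoImplicit false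
set_option linter.unusedSectionVars false
set_option linter.unusedVariables false

namespace Cfsg.Agent.Lib.WeilGap.WtApi

open Module Matrix Cfsg.Agent.Lib.SpDeg.Main Cfsg.Agent.Lib.SpDeg.Odd Cfsg.Agent.Lib.Weil.Basic
  Cfsg.Agent.Lib.Weil.Minus Cfsg.Agent.Lib.WeilGap.Defs 
open scoped _root_.Classical

universe u

variable {F : Type u} [Field F] [Fintype F] {n : ℕ}

variable {ψ : AddChar F ℂ} (W : WT (F := F) (n := n) ψ)

theorem tau_dl_U (B : SymM F n) (x : Fin n → F) : W.τ (UU B) (dl x) = ψ (- qq B x) • dl x := by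
  funext y
  rw [W.U, Pi.smul_apply, smul_eq_mul, dl_apply]
  by_cases h : y = x
  · subst h
    simp
  · simp [h]

theorem tau_dl_L (R : GL (Fin n) F) (x : Fin n → F) :
    W.τ (LL R) (dl x) = (W.κ R : ℂ) • dl (((R⁻¹ : GL (Fin n) F) : Matrix (Fin n) (Fin n) F)ᵀ *ᵥ x) := by
  rw [W.L R, LinearMap.smul_apply]
  congr 1
  funext y
  show TRE R (dl x) y = _
  rw [TRE_apply, dl_apply, dl_apply]
  have h4 : (R : Matrix (Fin n) (Fin n) F)ᵀ * ((R⁻¹ : GL (Fin n) F) : Matrix (Fin n) (Fin n) F)ᵀ = 1 := by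
    rw [← Matrix.transpose_mul, ← Units.val_mul, inv_mul_cancel, Units.val_one, transpose_one]
  have h5 : ((R⁻¹ : GL (Fin n) F) : Matrix (Fin n) (Fin n) F)ᵀ * (R : Matrix (Fin n) (Fin n) F)ᵀ = 1 := by
    rw [← Matrix.transpose_mul, ← Units.val_mul, mul_inv_cancel, Units.val_one, transpose_one]
  have h : ((R : Matrix (Fin n) (Fin n) F)ᵀ *ᵥ y = x) ↔ y = ((R⁻¹ : GL (Fin n) F) : Matrix (Fin n) (Fin n) F)ᵀ *ᵥ x := by
    constructor
    · rintro rfl
      rw [Matrix.mulVec_mulVec, h5, Matrix.one_mulVec]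
    · rintro rfl
      rw [Matrix.mulVec_mulVec, h4, Matrix.one_mulVec]
  simp only [h]

lemma dg_el_conj (i j : Fin n) (hij : i ≠ j) (t : Fˣ) (b : F) :
    dg j t * el i j hij b * (dg j t)⁻¹ = el i j hij ((t : F) * b) := by
  apply Units.ext
  have hd : ((dg j t : GL (Fin n) F) : Matrix (Fin n) (Fin n) F) = Matrix.diagonal (Function.update 1 j (t : F)) := rfl
  have hi : (((dg j t)⁻¹ : GL (Fin n) F) : Matrix (Fin n) (Fin n) F) = Matrix.diagonal (Function.update 1 j ((t⁻¹ : Fˣ) : F)) := rfl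
  have he : ∀ b : F, ((el i j hij b : GL (Fin n) F) : Matrix (Fin n) (Fin n) F) = 1 - b • Matrix.single j i 1 := fun _ => rfl
  rw [Units.val_mul, Units.val_mul, hd, hi, he, he]
  ext a c
  rw [Matrix.mul_diagonal, Matrix.diagonal_mul]
  simp only [Matrix.sub_apply, Matrix.smul_apply, Matrix.one_apply, Matrix.single_apply, smul_eq_mul]
  have ht' : (t : F) ≠ 0 := t.ne_zero
  by_cases h1 : a = j
  · subst h1
    by_cases h2 : c = a
    · subst h2
      have hne : ¬ (i = c) := hij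
      simp [hne, ht']
    · by_cases h3 : c = i
      · subst h3
        have hne : a ≠ c := fun e => h2 e.symm
        simp [Function.update_of_ne h2, hne]
      · have hne : ¬ (i = c) := fun e => h3 e.symm
        have hne' : ¬ (a = c) := fun e => h2 e.symm
        simp [Function.update_of_ne h2, hne, hne']
  · have hne : ¬ (j = a) := fun e => h1 e.symm
    by_cases h2 : c = j
    · subst h2
      simp [Function.update_of_ne h1, h1, hne]
    · simp [Function.update_of_ne h1, Function.update_of_ne h2, hne]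

lemma el_mul (i j : Fin n) (hij : i ≠ j) (b b' : F) : el i j hij b * el i j hij b' = el i j hij (b + b') := by
  apply Units.ext
  have he : ∀ b : F, ((el i j hij b : GL (Fin n) F) : Matrix (Fin n) (Fin n) F) = 1 - b • Matrix.single j i 1 := fun _ => rfl
  rw [Units.val_mul, he, he, he]
  have h0 : (b • Matrix.single j i (1 : F)) * (b' • Matrix.single j i 1) = 0 := by
    rw [smul_mul_assoc, mul_smul_comm, Matrix.single_mul_single_of_ne (h := hij)]
    simp
  rw [sub_mul, one_mul, mul_sub, mul_one, h0, add_smul]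
  abel

lemma el_zero (i j : Fin n) (hij : i ≠ j) : el (F := F) i j hij 0 = 1 := by
  apply Units.ext
  have he : ∀ b : F, ((el i j hij b : GL (Fin n) F) : Matrix (Fin n) (Fin n) F) = 1 - b • Matrix.single j i 1 := fun _ => rfl
  rw [he]
  simp

theorem kappa_el (hq : 3 ≤ Fintype.card F) (i j : Fin n) (hij : i ≠ j) (b : F) : W.κ (el i j hij b) = 1 := by
  have hconst : ∀ b : F, b ≠ 0 → W.κ (el i j hij b) = W.κ (el i j hij 1) := by
    intro b hb
    have h := dg_el_conj i j hij (Units.mk0 b hb) 1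
    rw [Units.val_mk0, mul_one] at h
    rw [← h, map_mul, map_mul, map_inv, mul_comm (W.κ _) (W.κ (el i j hij 1)), mul_inv_cancel_right]
  obtain ⟨b0, h0, h1⟩ : ∃ b0 : F, b0 ≠ 0 ∧ b0 + 1 ≠ 0 := by
    have hc : ({0, -1} : Finset F).card < (Finset.univ : Finset F).card := by
      rw [Finset.card_univ]
      exact lt_of_le_of_lt Finset.card_le_two (by omega)
    obtain ⟨e, -, he⟩ := Finset.exists_mem_notMem_of_card_lt_card hc
    simp only [Finset.mem_insert, Finset.mem_singleton, not_or] at he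
    refine ⟨e, he.1, fun h => he.2 (eq_neg_of_add_eq_zero_left h)⟩
  have hc : W.κ (el i j hij 1) = 1 := by
    have h := el_mul i j hij b0 1
    have h2 := congrArg W.κ h
    rw [map_mul, hconst b0 h0, hconst _ h1] at h2
    exact mul_eq_left.mp h2
  by_cases hb : b = 0
  · subst hb
    rw [el_zero, map_one]
  · rw [hconst b hb, hc]

theorem par_stable {s : ℂ} {φ : WS F n} (hφ : φ ∈ Par F n s) (g : Gp F n) : W.τ g φ ∈ Par F n s := by
  have hz : ∀ ξ : WS F n, W.τ zI ξ = (W.κ (-1) : ℂ) • II ξ := by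
    intro ξ
    show W.τ (LL (-1)) ξ = _
    rw [W.L (-1), LinearMap.smul_apply]
    congr 1
    funext x
    show TRE (-1 : GL (Fin n) F) ξ x = ξ (-x)
    rw [TRE_apply]
    congr 1
    simp [Matrix.neg_mulVec]
  have hII : II φ = s • φ := funext hφ
  have hκ : (W.κ (-1) : ℂ) ≠ 0 := Units.ne_zero _
  have e1 : W.τ zI (W.τ g φ) = W.τ g (W.τ zI φ) := by
    rw [← Module.End.mul_apply, ← map_mul, Cfsg.Agent.Lib.WeilGap.Conj.zI_comm, map_mul, Module.End.mul_apply]
  rw [hz, hz φ, hII, map_smul, map_smul] at e1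
  have h3 := smul_right_injective _ hκ e1
  intro x
  exact congrFun h3 x

theorem r1 (h2 : (2 : F) ≠ 0) (hψ : ψ 1 ≠ 1) : R1all ψ W.τ := by
  intro f hf u w
  obtain ⟨v, hv, hv0⟩ := Submodule.exists_mem_ne_zero_of_ne_bot hf
  have hv' := (Cfsg.Agent.Lib.SpDeg.Odd.mem_WW ψ W.τ hψ).1 hv
  obtain ⟨x, hx⟩ : ∃ x, v x ≠ 0 := by
    by_contra h
    push Not at h
    exact hv0 (funext h)
  have key : ∀ B : SymM F n, f B = - qq B x := by
    intro B
    have hψt : ∀ t : F, ψ (t * (f B + qq B x)) = 1 := by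
      intro t
      have h1 := congrFun (hv' (t • B)) x
      rw [W.U, Pi.smul_apply, smul_eq_mul, map_smul, smul_eq_mul, qq_smul] at h1
      have h3 := mul_right_cancel₀ hx h1
      rw [mul_add, AddChar.map_add_eq_mul, ← h3, ← AddChar.map_add_eq_mul, neg_add_cancel, AddChar.map_zero_eq_one]
    by_contra hne
    have hne' : f B + qq B x ≠ 0 := fun h => hne (eq_neg_of_add_eq_zero_left h)
    apply hψ
    have := hψt (f B + qq B x)⁻¹
    rwa [inv_mul_cancel₀ hne'] at this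
  have hp : x ⬝ᵥ (pl u w).1 *ᵥ x = 2 * ((x ⬝ᵥ u) * (x ⬝ᵥ w)) := by
    show x ⬝ᵥ (vecMulVec u w + vecMulVec w u) *ᵥ x = _
    rw [Matrix.add_mulVec, Matrix.vecMulVec_mulVec, Matrix.vecMulVec_mulVec, dotProduct_add]
    simp only [dotProduct_smul, smul_eq_mul, dotProduct_comm w x, dotProduct_comm u x, MulOpposite.smul_eq_mul_unop,
      MulOpposite.unop_op]
    ring
  have hr : ∀ y : Fin n → F, x ⬝ᵥ (rk1 y).1 *ᵥ x = (x ⬝ᵥ y) * (x ⬝ᵥ y) := by
    intro y
    show x ⬝ᵥ (vecMulVec y y) *ᵥ x = _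
    rw [Matrix.vecMulVec_mulVec]
    simp only [dotProduct_smul, smul_eq_mul, dotProduct_comm y x, MulOpposite.smul_eq_mul_unop, MulOpposite.unop_op]
  rw [key, key, key]
  simp only [qq, hp, hr]
  ring

theorem tau_sw_supp (i j : Fin n) (hij : i ≠ j) (a : F) (φ : WS F n) (hφ : ∀ x, x j = a → φ x = 0) :
    ∀ x, x j = a → W.τ (sw i) φ x = 0 := by
  intro x hx
  rw [W.S i, LinearMap.smul_apply, Pi.smul_apply, FFs_apply]
  have h : ∀ t, φ (Function.update x i t) = 0 := fun t =>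
    hφ _ (by rw [Function.update_of_ne hij.symm]; exact hx)
  simp [h]

theorem tau_sw_inv_supp (i j : Fin n) (hij : i ≠ j) (a : F) (φ : WS F n) (hφ : ∀ x, x j = a → φ x = 0) :
    ∀ x, x j = a → W.τ (sw i)⁻¹ φ x = 0 := by
  have hfin : Finite (Gp F n) := by
    haveI : Finite (Matrix (Fin n ⊕ Fin n) (Fin n ⊕ Fin n) F) := inferInstanceAs (Finite (_ → _ → F))
    exact Subtype.finite
  have hpow : ∀ m : ℕ, ∀ φ : WS F n, (∀ x, x j = a → φ x = 0) → ∀ x, x j = a → W.τ (sw i ^ m) φ x = 0 := by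
    intro m
    induction m with
    | zero =>
      intro φ hφ x hx
      rw [pow_zero, map_one]
      exact hφ x hx
    | succ m ih =>
      intro φ hφ x hx
      rw [pow_succ, map_mul, Module.End.mul_apply]
      exact ih _ (tau_sw_supp W i j hij a φ hφ) x hx
  have hS : (sw i : Gp F n)⁻¹ = sw i ^ (orderOf (sw i : Gp F n) - 1) := by
    apply inv_eq_of_mul_eq_one_right
    rw [mul_pow_sub_one (orderOf_pos _).ne', pow_orderOf_eq_one]
  rw [hS]
  exact hpow _ φ hφ

end Cfsg.Agent.Lib.WeilGap.WtApi
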