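import Cfsg.Agent.Lib.WeilGap.K1
import Cfsg.Agent.Lib.WeilGap.Gen
import Cfsg.Agent.Lib.WeilGap.WtApi

/-!
# [STAB] The stabiliser of a weight vector. See the paper proof in the forum topic S2524 (helper14).
-/

set_option autoImplicit false
set_option linter.unusedSectionVars false
set_option linter.unusedVariables false
set_option linter.style.haveILetI false

namespace Cfsg.Agent.Lib.WeilGap.Stab

open Module Matrix Cfsg.Agent.Lib.SpDeg.Main Cfsg.Agent.Lib.SpDeg.Odd Cfsg.Agent.Lib.Weil.Basic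
  Cfsg.Agent.Lib.Weil.Minus Cfsg.Agent.Lib.WeilGap.Defs
open scoped _root_.Classical

universe u

variable {F : Type u} [Field F] [Fintype F] {n : ℕ}

variable {V : Type*} [AddCommGroup V] [Module ℂ V] [FiniteDimensional ℂ V]
variable {ψ : AddChar F ℂ} (W : WT (F := F) (n := n) ψ) (ρ : Gp F n →* Module.End ℂ V)

/-- `m` has weight `e_{i₀}`. -/
def IsM (ψ : AddChar F ℂ) {V : Type*} [AddCommGroup V] [Module ℂ V] (ρ : Gp F n →* Module.End ℂ V) (i₀ : Fin n) (m : V) : Prop :=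
  ∀ B : SymM F n, ρ (UU B) m = ψ (- qq B (ev i₀)) • m

namespace SA

/-- Row `i₀` is `a`, the other rows vanish. -/
noncomputable def NN (i₀ : Fin n) (a : Fin n → F) : Matrix (Fin n) (Fin n) F :=
  Matrix.of fun r c => if r = i₀ then a c else 0

lemma NN_apply (i₀ : Fin n) (a : Fin n → F) (r c : Fin n) : NN i₀ a r c = if r = i₀ then a c else 0 := rfl

lemma NN_mul (i₀ : Fin n) (a b : Fin n → F) (ha : a i₀ = 0) : NN i₀ a * NN i₀ b = 0 := by
  ext r c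
  rw [Matrix.mul_apply]
  simp only [NN_apply, Matrix.zero_apply]
  by_cases hr : r = i₀
  · simp only [hr, if_true]
    rw [Finset.sum_eq_single i₀]
    · simp [ha]
    · intro k _ hk
      simp [hk]
    · simp
  · simp [hr]

lemma NNt_mulVec (i₀ : Fin n) (a x : Fin n → F) : (NN i₀ a)ᵀ *ᵥ x = x i₀ • a := by
  ext k
  simp only [Matrix.mulVec, dotProduct, Matrix.transpose_apply, NN_apply, Pi.smul_apply, smul_eq_mul]
  rw [Finset.sum_eq_single i₀]
  · simp [mul_comm]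
  · intro r _ hr
    simp [hr]
  · simp

/-- `1 - N_a`. -/
noncomputable def Ra (i₀ : Fin n) (a : Fin n → F) (ha : a i₀ = 0) : GL (Fin n) F where
  val := 1 - NN i₀ a
  inv := 1 + NN i₀ a
  val_inv := by rw [sub_mul, one_mul, mul_add, mul_one, NN_mul i₀ a a ha]; abel
  inv_val := by rw [add_mul, one_mul, mul_sub, mul_one, NN_mul i₀ a a ha]; abel

/-- `R_u`. -/
noncomputable def Ru (i₀ : Fin n) (u : Fin n → F) : GL (Fin n) F :=
  Ra i₀ (Function.update u i₀ 0) (by simp)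

lemma Ru_inv_ev (i₀ : Fin n) (u : Fin n → F) (hu : u i₀ = 1) :
    (((Ru i₀ u)⁻¹ : GL (Fin n) F) : Matrix (Fin n) (Fin n) F)ᵀ *ᵥ ev i₀ = u := by
  have h : (((Ru i₀ u)⁻¹ : GL (Fin n) F) : Matrix (Fin n) (Fin n) F) = 1 + NN i₀ (Function.update u i₀ 0) := rfl
  rw [h, Matrix.transpose_add, Matrix.transpose_one, Matrix.add_mulVec, Matrix.one_mulVec, NNt_mulVec]
  ext k
  by_cases hk : k = i₀
  · subst hk
    simp [ev, hu]
  · simp [ev, Pi.single_apply, hk]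

lemma ev_ne (i i₀ : Fin n) (hi : i ≠ i₀) : (ev i : Fin n → F) i₀ = 0 := by
  simp [ev, Pi.single_apply, hi.symm]

lemma el_val (i i₀ : Fin n) (hi : i ≠ i₀) (b : F) :
    ((el i i₀ hi b : GL (Fin n) F) : Matrix (Fin n) (Fin n) F) = 1 - NN i₀ (b • ev i) := by
  show 1 - b • Matrix.single i₀ i (1 : F) = 1 - NN i₀ (b • ev i)
  congr 1
  ext r c
  simp only [NN_apply, Matrix.smul_apply, Matrix.single_apply, Pi.smul_apply, ev, Pi.single_apply, smul_eq_mul]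
  by_cases hr : r = i₀
  · subst hr
    by_cases hc : c = i
    · subst hc
      simp
    · have h' : i ≠ c := Ne.symm hc
      simp [h', hc]
  · have h' : i₀ ≠ r := Ne.symm hr
    simp [h', hr]

lemma el_t_mulVec (i i₀ : Fin n) (hi : i ≠ i₀) (b : F) (x : Fin n → F) :
    ((el i i₀ hi b : GL (Fin n) F) : Matrix (Fin n) (Fin n) F)ᵀ *ᵥ x = x - x i₀ • (b • ev i) := by
  rw [el_val, Matrix.transpose_sub, Matrix.transpose_one, Matrix.sub_mulVec, Matrix.one_mulVec, NNt_mulVec]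

lemma el_mul_Ru (i i₀ : Fin n) (hi : i ≠ i₀) (b : F) (u : Fin n → F) :
    el i i₀ hi b * Ru i₀ u = Ru i₀ (u + b • ev i) := by
  apply Units.ext
  rw [Units.val_mul, el_val]
  show (1 - NN i₀ (b • ev i)) * (1 - NN i₀ (Function.update u i₀ 0)) = 1 - NN i₀ (Function.update (u + b • ev i) i₀ 0)
  rw [sub_mul, one_mul, mul_sub, mul_one, NN_mul i₀ _ _ (by simp [ev_ne i i₀ hi])]
  have h : NN i₀ (Function.update (u + b • ev i) i₀ 0) = NN i₀ (b • ev i) + NN i₀ (Function.update u i₀ 0) := by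
    ext r c
    by_cases hr : r = i₀
    · by_cases hc : c = i₀
      · subst hc
        simp [NN_apply, hr, ev_ne i c hi]
      · simp [NN_apply, hr, Function.update_of_ne hc, add_comm]
    · simp [NN_apply, hr]
  rw [h]
  abel

lemma LL_one' : LL (1 : GL (Fin n) F) = 1 := by
  have h := Conj.LL_mul (F := F) (n := n) 1 1
  rw [mul_one] at h
  exact left_eq_mul.mp h

lemma Ru_ev (i₀ : Fin n) : Ru (F := F) i₀ (ev i₀) = 1 := by
  apply Units.ext
  show 1 - NN i₀ (Function.update (ev i₀) i₀ 0) = 1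
  have h : NN i₀ (Function.update (ev i₀ : Fin n → F) i₀ 0) = 0 := by
    ext r c
    by_cases hr : r = i₀
    · by_cases hc : c = i₀
      · subst hc
        simp [NN_apply, hr]
      · simp [NN_apply, hr, Function.update_of_ne hc, ev, Pi.single_apply, hc]
    · simp [NN_apply, hr]
  rw [h, sub_zero]

lemma qq_cS (M : Matrix (Fin n) (Fin n) F) (B : SymM F n) (x : Fin n → F) :
    qq (cS M B) x = qq B (Mᵀ *ᵥ x) := by
  simp only [qq]
  rw [cS_coe, ← Matrix.mulVec_mulVec, ← Matrix.mulVec_mulVec, Matrix.dotProduct_mulVec, ← Matrix.mulVec_transpose]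

lemma qq_rk1 (i : Fin n) (x : Fin n → F) : qq (rk1 (ev i)) x = hh F * (x i) ^ 2 := by
  show hh F * (x ⬝ᵥ (vecMulVec (ev i) (ev i)) *ᵥ x) = _
  have h : vecMulVec (ev i) (ev i) *ᵥ x = x i • ev (F := F) i := by
    ext k
    simp only [Matrix.mulVec, dotProduct, vecMulVec_apply, Pi.smul_apply, smul_eq_mul]
    rw [Finset.sum_eq_single i]
    · simp [ev, mul_comm]
    · intro l _ hl
      simp [ev, Pi.single_apply, hl]
    · simp
  rw [h, dotProduct_smul]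
  simp [ev, pow_two]

lemma cS_cS (R : GL (Fin n) F) (B : SymM F n) :
    cS (R : Matrix (Fin n) (Fin n) F) (cS ((R⁻¹ : GL (Fin n) F) : Matrix (Fin n) (Fin n) F) B) = B := by
  apply Subtype.ext
  rw [cS_coe, cS_coe]
  have h1 : (R : Matrix (Fin n) (Fin n) F) * ((R⁻¹ : GL (Fin n) F) : Matrix (Fin n) (Fin n) F) = 1 := by
    rw [← Units.val_mul, mul_inv_cancel, Units.val_one]
  have h2 : ((R⁻¹ : GL (Fin n) F) : Matrix (Fin n) (Fin n) F)ᵀ * (R : Matrix (Fin n) (Fin n) F)ᵀ = 1 := by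
    rw [← Matrix.transpose_mul, h1, transpose_one]
  have e : (R : Matrix (Fin n) (Fin n) F) * (((R⁻¹ : GL (Fin n) F) : Matrix (Fin n) (Fin n) F) * B.1 * ((R⁻¹ : GL (Fin n) F) : Matrix (Fin n) (Fin n) F)ᵀ) * (R : Matrix (Fin n) (Fin n) F)ᵀ =
      ((R : Matrix (Fin n) (Fin n) F) * ((R⁻¹ : GL (Fin n) F) : Matrix (Fin n) (Fin n) F)) * B.1 * (((R⁻¹ : GL (Fin n) F) : Matrix (Fin n) (Fin n) F)ᵀ * (R : Matrix (Fin n) (Fin n) F)ᵀ) := by
    simp only [Matrix.mul_assoc]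
  rw [e, h1, h2, Matrix.one_mul, Matrix.mul_one]

lemma weight {i₀ : Fin n} {m : V} (hm : IsM ψ ρ i₀ m) (R : GL (Fin n) F) (B : SymM F n) :
    ρ (UU B) (ρ (LL R) m) =
      ψ (- qq B (((R⁻¹ : GL (Fin n) F) : Matrix (Fin n) (Fin n) F)ᵀ *ᵥ ev i₀)) • ρ (LL R) m := by
  have e : UU B * LL R = LL R * UU (cS ((R⁻¹ : GL (Fin n) F) : Matrix (Fin n) (Fin n) F) B) := by
    rw [LL_UU, cS_cS]
  rw [← Module.End.mul_apply, ← map_mul, e, map_mul, Module.End.mul_apply, hm, map_smul, qq_cS]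

lemma isM_LL {i₀ : Fin n} {v : V} (hv : IsM ψ ρ i₀ v) (R : GL (Fin n) F)
    (hR : ((R⁻¹ : GL (Fin n) F) : Matrix (Fin n) (Fin n) F)ᵀ *ᵥ ev i₀ = ev i₀) : IsM ψ ρ i₀ (ρ (LL R) v) := by
  intro B
  rw [weight ρ hv R B, hR]

/-- `μ`. -/
noncomputable def muMap (i₀ : Fin n) (m : V) : WS F n →ₗ[ℂ] V where
  toFun φ := ∑ u : Fin n → F, if u i₀ = 1 then φ u • ρ (LL (Ru i₀ u)) m else 0
  map_add' φ φ' := by
    rw [← Finset.sum_add_distrib]
    refine Finset.sum_congr rfl fun u _ => ?_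
    split_ifs <;> simp [add_smul]
  map_smul' c φ := by
    rw [RingHom.id_apply, Finset.smul_sum]
    refine Finset.sum_congr rfl fun u _ => ?_
    split_ifs <;> simp [mul_smul]

lemma muMap_apply (i₀ : Fin n) (m : V) (φ : WS F n) :
    muMap ρ i₀ m φ = ∑ u : Fin n → F, if u i₀ = 1 then φ u • ρ (LL (Ru i₀ u)) m else 0 := rfl

lemma mu_ev (i₀ : Fin n) (m : V) : muMap ρ i₀ m (dl (ev i₀)) = m := by
  rw [muMap_apply, Finset.sum_eq_single (ev i₀)]
  · have h1 : (dl (ev i₀) : WS F n) (ev i₀) = 1 := by simp [dl_apply]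
    have h2 : (ev i₀ : Fin n → F) i₀ = 1 := by simp [ev]
    rw [if_pos h2, h1, one_smul, Ru_ev, LL_one', map_one, Module.End.one_apply]
  · intro u _ hu
    simp [dl_apply, hu]
  · simp

/-- The induction predicate. -/
def Good (i₀ : Fin n) (m : V) (g : Gp F n) : Prop :=
  ∀ φ : WS F n, (∀ x, x i₀ ≠ 1 → φ x = 0) →
    (∀ x, x i₀ ≠ 1 → W.τ g φ x = 0) ∧ muMap ρ i₀ m (W.τ g φ) = ρ g (muMap ρ i₀ m φ)

lemma good_one (i₀ : Fin n) (m : V) : Good W ρ i₀ m 1 := fun φ h => by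
  simpa using h

lemma good_mul {i₀ : Fin n} {m : V} {g h : Gp F n} (hg : Good W ρ i₀ m g) (hh : Good W ρ i₀ m h) :
    Good W ρ i₀ m (g * h) := fun φ hφ => by
  obtain ⟨h1, h2⟩ := hh φ hφ
  obtain ⟨h3, h4⟩ := hg _ h1
  refine ⟨?_, ?_⟩
  · intro x hx
    rw [map_mul, Module.End.mul_apply]
    exact h3 x hx
  · rw [map_mul, Module.End.mul_apply, h4, h2, map_mul, Module.End.mul_apply]

lemma good_inv {i₀ : Fin n} {m : V} {g : Gp F n} (hg : Good W ρ i₀ m g) : Good W ρ i₀ m g⁻¹ := by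
  have hpow : ∀ k : ℕ, Good W ρ i₀ m (g ^ k) := by
    intro k
    induction k with
    | zero => simpa using good_one W ρ i₀ m
    | succ k ih => rw [pow_succ]; exact good_mul W ρ ih hg
  have hk : 0 < orderOf g := orderOf_pos g
  have h1 : g ^ (orderOf g - 1) * g = 1 := by
    rw [← pow_succ, Nat.sub_add_cancel hk, pow_orderOf_eq_one]
  rw [inv_eq_of_mul_eq_one_left h1]
  exact hpow _

lemma mu_UU {i₀ : Fin n} {m : V} (hm : IsM ψ ρ i₀ m) (B : SymM F n) (φ : WS F n) :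
    muMap ρ i₀ m (W.τ (UU B) φ) = ρ (UU B) (muMap ρ i₀ m φ) := by
  have hU : ∀ x, W.τ (UU B) φ x = ψ (- qq B x) * φ x := W.U B φ
  simp only [muMap_apply, map_sum]
  refine Finset.sum_congr rfl fun u _ => ?_
  split_ifs with hu
  · rw [hU, mul_smul, map_smul, weight ρ hm, Ru_inv_ev _ _ hu, smul_comm]
  · simp

lemma good_UU {i₀ : Fin n} {m : V} (hm : IsM ψ ρ i₀ m) (B : SymM F n) : Good W ρ i₀ m (UU B) := fun φ hφ => by
  have hU : ∀ x, W.τ (UU B) φ x = ψ (- qq B x) * φ x := W.U B φ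
  exact ⟨fun x hx => by rw [hU, hφ x hx, mul_zero], mu_UU W ρ hm B φ⟩

lemma card_ge_three (h2 : (2 : F) ≠ 0) : 3 ≤ Fintype.card F := by
  have h : ({0, 1, 2} : Finset F).card = 3 := by
    rw [Finset.card_eq_three]
    refine ⟨0, 1, 2, zero_ne_one, h2.symm, ?_, rfl⟩
    intro e
    have h3 : (1 : F) + 1 = 1 := by rw [one_add_one_eq_two]; exact e.symm
    exact one_ne_zero (add_eq_left.mp h3)
  calc 3 = ({0, 1, 2} : Finset F).card := h.symm
    _ ≤ Fintype.card F := Finset.card_le_univ _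

lemma mu_D (h2 : (2 : F) ≠ 0) (hψ : ψ 1 ≠ 1) (hR : R1all ψ ρ) {i₀ : Fin n} {m : V} (hm : IsM ψ ρ i₀ m)
    {i : Fin n} (hi : i ≠ i₀) (d : F) (φ : WS F n) (hφ : ∀ x, x i₀ ≠ 1 → φ x = 0) :
    muMap ρ i₀ m (W.τ (D i d) φ) = ρ (D i d) (muMap ρ i₀ m φ) := by
  have hq := card_ge_three h2
  have hc : -(hh F) ≠ 0 := neg_ne_zero.mpr (inv_ne_zero h2)
  have hx : ∀ a : F, W.τ (UU (a • rk1 (ev i₀))) φ = ψ (-(hh F) * a) • φ := by
    intro a
    funext x
    rw [W.U]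
    by_cases hxi : x i₀ = 1
    · rw [qq_smul, qq_rk1, hxi]
      simp only [Pi.smul_apply, smul_eq_mul]
      congr 2
      ring
    · simp [hφ x hxi]
  have hTx : ∀ a : F, ρ (UU (a • rk1 (ev i₀))) (muMap ρ i₀ m φ) = ψ (-(hh F) * a) • muMap ρ i₀ m φ := by
    intro a
    rw [← mu_UU W ρ hm, hx, map_smul]
  have hT : ∀ b : F, muMap ρ i₀ m (W.τ (LL (el i i₀ hi b)) φ) = ρ (LL (el i i₀ hi b)) (muMap ρ i₀ m φ) := by
    intro b
    have hκ : ((W.κ (el i i₀ hi b) : ℂˣ) : ℂ) = 1 := by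
      rw [WtApi.kappa_el W hq]
      rfl
    have hτ : W.τ (LL (el i i₀ hi b)) φ =
        fun x => φ (((el i i₀ hi b : GL (Fin n) F) : Matrix (Fin n) (Fin n) F)ᵀ *ᵥ x) := by
      rw [W.L, LinearMap.smul_apply, hκ, one_smul]
      rfl
    rw [hτ]
    simp only [muMap_apply, map_sum]
    refine (Fintype.sum_equiv (Equiv.addRight (b • ev i)) _ _ (fun u => ?_)).symm
    have hi0 : (u + b • ev i : Fin n → F) i₀ = u i₀ := by
      simp [ev_ne i i₀ hi]
    have hi1 : (Equiv.addRight (b • ev i) u) i₀ = u i₀ := hi0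
    have hu2 : (Equiv.addRight (b • ev i) u) = u + b • ev i := rfl
    by_cases hu : u i₀ = 1
    · rw [if_pos hu, if_pos (hi1.trans hu), hu2]
      have h3 : ((el i i₀ hi b : GL (Fin n) F) : Matrix (Fin n) (Fin n) F)ᵀ *ᵥ (u + b • ev i) = u := by
        rw [el_t_mulVec, hi0, hu, one_smul]
        abel
      rw [h3, map_smul, ← Module.End.mul_apply, ← map_mul, ← Conj.LL_mul, el_mul_Ru]
    · rw [if_neg hu, if_neg (fun h => hu (hi1.symm.trans h)), map_zero]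
  exact K1.transfer ψ h2 hψ ρ hR W.τ (WtApi.r1 W h2 hψ) (muMap ρ i₀ m) i i₀ hi φ _ hc hx hTx hT d

lemma good_sw (h2 : (2 : F) ≠ 0) (hψ : ψ 1 ≠ 1) (hR : R1all ψ ρ) {i₀ : Fin n} {m : V} (hm : IsM ψ ρ i₀ m)
    {i : Fin n} (hi : i ≠ i₀) : Good W ρ i₀ m (sw i) := fun φ hφ => by
  refine ⟨?_, ?_⟩
  · intro x hx
    exact WtApi.tau_sw_supp W i i₀ hi (x i₀) φ (fun y hy => hφ y (by rw [hy]; exact hx)) x rfl
  · have g1 := good_UU W ρ hm (-(rk1 (ev i))) φ hφ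
    have g2 := mu_D W ρ h2 hψ hR hm hi (-1) (W.τ (UU (-(rk1 (ev i)))) φ) g1.1
    rw [Conj.sw_eq i]
    simp only [map_mul, Module.End.mul_apply]
    rw [mu_UU W ρ hm, g2, g1.2]

/-- The closure. -/
abbrev Hs (F : Type u) [Field F] [Fintype F] {n : ℕ} (i₀ : Fin n) : Subgroup (Gp F n) :=
  Subgroup.closure (Set.range (UU (F := F) (n := n)) ∪ (sw (F := F) (n := n)) '' {i | i ≠ i₀})

lemma UU_mem (i₀ : Fin n) (B : SymM F n) : UU B ∈ Hs F i₀ :=
  Subgroup.subset_closure (Or.inl ⟨B, rfl⟩)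

lemma sw_mem {i₀ i : Fin n} (hi : i ≠ i₀) : sw i ∈ Hs F i₀ :=
  Subgroup.subset_closure (Or.inr ⟨i, hi, rfl⟩)

lemma D_mem {i₀ i : Fin n} (hi : i ≠ i₀) (d : F) : D i d ∈ Hs F i₀ :=
  (Hs F i₀).mul_mem ((Hs F i₀).mul_mem (sw_mem hi) (UU_mem i₀ _)) ((Hs F i₀).inv_mem (sw_mem hi))

lemma dg_mem {i₀ j : Fin n} (hj : j ≠ i₀) (t : Fˣ) : LL (dg j t) ∈ Hs F i₀ := by
  rw [Conj.dg_eq]
  exact (Hs F i₀).mul_mem ((Hs F i₀).mul_mem ((Hs F i₀).mul_mem (UU_mem i₀ _) (D_mem hj _)) (UU_mem i₀ _))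
    ((Hs F i₀).inv_mem (sw_mem hj))

lemma el_mem {i₀ i j : Fin n} (hi : i ≠ i₀) (hij : i ≠ j) (b : F) : LL (el i j hij b) ∈ Hs F i₀ := by
  have h := Conj.sw_pl (F := F) i j hij b
  have h' : LL (el i j hij b) = sw i * UU (b • pl (ev i) (ev j)) * (sw i)⁻¹ := eq_mul_inv_of_mul_eq h.symm
  rw [h']
  exact (Hs F i₀).mul_mem ((Hs F i₀).mul_mem (sw_mem hi) (UU_mem i₀ _)) ((Hs F i₀).inv_mem (sw_mem hi))

lemma dg_fix {i₀ j : Fin n} (hj : j ≠ i₀) (t : Fˣ) :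
    (((dg j t)⁻¹ : GL (Fin n) F) : Matrix (Fin n) (Fin n) F)ᵀ *ᵥ ev i₀ = ev i₀ := by
  show (Matrix.diagonal (Function.update 1 j ((t⁻¹ : Fˣ) : F)))ᵀ *ᵥ ev i₀ = ev i₀
  rw [Matrix.diagonal_transpose]
  ext k
  rw [Matrix.mulVec_diagonal]
  by_cases hk : k = i₀
  · subst hk
    simp [Function.update_of_ne (Ne.symm hj), ev]
  · simp [ev, Pi.single_apply, hk]

lemma el_fix {i₀ i j : Fin n} (hij : i ≠ j) (hj : j ≠ i₀) (b : F) :
    (((el i j hij b)⁻¹ : GL (Fin n) F) : Matrix (Fin n) (Fin n) F)ᵀ *ᵥ ev i₀ = ev i₀ := by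
  show (1 + b • Matrix.single j i (1 : F))ᵀ *ᵥ ev i₀ = ev i₀
  ext k
  simp only [Matrix.mulVec, dotProduct, Matrix.transpose_apply, Matrix.add_apply, Matrix.smul_apply,
    Matrix.single_apply, Matrix.one_apply, smul_eq_mul]
  rw [Finset.sum_eq_single i₀]
  · by_cases hk : k = i₀
    · subst hk
      simp [ev, hj]
    · have hk' : i₀ ≠ k := Ne.symm hk
      simp [ev, hj, hk, hk', Pi.single_apply]
  · intro r _ hr
    simp [ev, Pi.single_apply, hr]
  · simp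

end SA

open SA in
theorem exists_mu (h2 : (2 : F) ≠ 0) (hψ : ψ 1 ≠ 1) (hR : R1all ψ ρ) (i₀ : Fin n) (m : V) (hm : IsM ψ ρ i₀ m) :
    ∃ μ : WS F n →ₗ[ℂ] V, μ (dl (ev i₀)) = m ∧
      ∀ g ∈ Subgroup.closure (Set.range (UU (F := F) (n := n)) ∪ (sw (F := F) (n := n)) '' {i | i ≠ i₀}),
        ∀ φ : WS F n, (∀ x, x i₀ ≠ 1 → φ x = 0) →
          (∀ x, x i₀ ≠ 1 → W.τ g φ x = 0) ∧ μ (W.τ g φ) = ρ g (μ φ) := by
  refine ⟨muMap ρ i₀ m, mu_ev ρ i₀ m, ?_⟩
  intro g hg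
  have hgood : Good W ρ i₀ m g := by
    induction hg using Subgroup.closure_induction with
    | mem x hx =>
      rcases hx with ⟨B, rfl⟩ | ⟨i, hi, rfl⟩
      · exact good_UU W ρ hm B
      · exact good_sw W ρ h2 hψ hR hm hi
    | one => exact good_one W ρ i₀ m
    | mul x y _ _ hx hy => exact good_mul W ρ hx hy
    | inv x _ hx => exact good_inv W ρ hx
  exact hgood

namespace SA

lemma scal (h2 : (2 : F) ≠ 0) (hψ : ψ 1 ≠ 1) (hR : R1all ψ ρ) {i₀ : Fin n} {v : V} (hv : IsM ψ ρ i₀ v)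
    (R : GL (Fin n) F) (hmem : LL R ∈ Hs F i₀)
    (hRe : ((R⁻¹ : GL (Fin n) F) : Matrix (Fin n) (Fin n) F)ᵀ *ᵥ ev i₀ = ev i₀) :
    ρ (LL R) v = (W.κ R : ℂ) • v := by
  obtain ⟨μ, h1, h3⟩ := exists_mu W ρ h2 hψ hR i₀ v hv
  have hsupp : ∀ x, x i₀ ≠ 1 → (dl (ev i₀) : WS F n) x = 0 := by
    intro x hx
    rw [dl_apply, if_neg]
    rintro rfl
    exact hx (by simp [ev])
  have h4 := (h3 (LL R) hmem (dl (ev i₀)) hsupp).2
  rw [WtApi.tau_dl_L, hRe, map_smul, h1] at h4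
  exact h4.symm

lemma rho_inj (g : Gp F n) {x y : V} (h : ρ g x = ρ g y) : x = y := by
  have h3 := congrArg (ρ g⁻¹ : V →ₗ[ℂ] V) h
  rw [← Module.End.mul_apply, ← Module.End.mul_apply, ← map_mul] at h3
  simpa using h3

lemma el_mul_el (i j : Fin n) (hij : i ≠ j) (b b' : F) : el i j hij b * el i j hij b' = el i j hij (b + b') := by
  apply Units.ext
  show (1 - b • Matrix.single j i (1 : F)) * (1 - b' • Matrix.single j i (1 : F)) = 1 - (b + b') • Matrix.single j i (1 : F)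
  have h0 : (b • Matrix.single j i (1 : F)) * (b' • Matrix.single j i 1) = 0 := by
    rw [smul_mul_assoc, mul_smul_comm, Matrix.single_mul_single_of_ne (h := hij)]
    simp
  rw [sub_mul, one_mul, mul_sub, mul_one, h0, add_smul]
  abel

lemma dg_el (i₀ j : Fin n) (hij : i₀ ≠ j) (t : Fˣ) (b : F) :
    dg j t * el i₀ j hij b = el i₀ j hij ((t : F) * b) * dg j t := by
  apply Units.ext
  show Matrix.diagonal (Function.update 1 j (t : F)) * (1 - b • Matrix.single j i₀ (1 : F)) =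
    (1 - ((t : F) * b) • Matrix.single j i₀ (1 : F)) * Matrix.diagonal (Function.update 1 j (t : F))
  ext r s
  rw [Matrix.diagonal_mul, Matrix.mul_diagonal]
  simp only [Matrix.sub_apply, Matrix.one_apply, Matrix.smul_apply, Matrix.single_apply, smul_eq_mul]
  by_cases hr : r = j
  · subst hr
    by_cases hs : s = i₀
    · subst hs
      have h' : r ≠ s := Ne.symm hij
      simp [Function.update_of_ne hij, h']
    · by_cases hrs : r = s
      · subst hrs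
        simp [hs, hij]
      · have h' : i₀ ≠ s := Ne.symm hs
        simp [hrs, h']
  · have h' : j ≠ r := Ne.symm hr
    by_cases hrs : r = s
    · subst hrs
      simp [Function.update_of_ne hr, h']
    · simp [hrs, h']

lemma el_top (h2 : (2 : F) ≠ 0) (hψ : ψ 1 ≠ 1) (hR : R1all ψ ρ) {i₀ j : Fin n} (hij : i₀ ≠ j) (hj : j ≠ i₀)
    (b : F) {v : V} (hv : IsM ψ ρ i₀ v) : ρ (LL (el i₀ j hij b)) v = (W.κ (el i₀ j hij b) : ℂ) • v := by
  have hq := card_ge_three h2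
  have hdep : ∀ (t : Fˣ) (b : F), ρ (LL (el i₀ j hij ((t : F) * b))) v = ρ (LL (el i₀ j hij b)) v := by
    intro t b
    have hM := isM_LL ρ hv (el i₀ j hij b) (el_fix hij hj b)
    have h3 := scal W ρ h2 hψ hR hM (dg j t) (dg_mem hj t) (dg_fix hj t)
    have h4 := scal W ρ h2 hψ hR hv (dg j t) (dg_mem hj t) (dg_fix hj t)
    have h5 : LL (dg j t) * LL (el i₀ j hij b) = LL (el i₀ j hij ((t : F) * b)) * LL (dg j t) := by
      rw [← Conj.LL_mul, ← Conj.LL_mul, dg_el]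
    have h6 : ρ (LL (dg j t)) (ρ (LL (el i₀ j hij b)) v) = ρ (LL (el i₀ j hij ((t : F) * b))) (ρ (LL (dg j t)) v) := by
      rw [← Module.End.mul_apply, ← map_mul, h5, map_mul, Module.End.mul_apply]
    rw [h3, h4, map_smul] at h6
    exact (smul_right_injective V (Units.ne_zero (W.κ (dg j t)))) h6.symm
  have h1 : ρ (LL (el i₀ j hij 1)) v = v := by
    have e1 : ρ (LL (el i₀ j hij 1)) (ρ (LL (el i₀ j hij 1)) v) = ρ (LL (el i₀ j hij 1)) v := by
      rw [← Module.End.mul_apply, ← map_mul, ← Conj.LL_mul, el_mul_el, one_add_one_eq_two]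
      have := hdep (Units.mk0 2 h2) 1
      simpa using this
    exact rho_inj ρ _ e1
  have hκ : ((W.κ (el i₀ j hij b) : ℂˣ) : ℂ) = 1 := by
    rw [WtApi.kappa_el W hq]
    rfl
  rw [hκ, one_smul]
  by_cases hb : b = 0
  · subst hb
    have e : el i₀ j hij (0 : F) = 1 := by
      apply Units.ext
      show 1 - (0 : F) • Matrix.single j i₀ (1 : F) = 1
      simp
    rw [e, LL_one']
    simp
  · have := hdep (Units.mk0 b hb) 1
    simp only [Units.val_mk0, mul_one] at this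
    rw [this, h1]

end SA

open SA in
theorem stab_main (h2 : (2 : F) ≠ 0) (hψ : ψ 1 ≠ 1) (hR : R1all ψ ρ) (i₀ : Fin n) (m : V) (hm : IsM ψ ρ i₀ m)
    (R : GL (Fin n) F) (hRow : ∀ k, (R : Matrix (Fin n) (Fin n) F) i₀ k = if k = i₀ then 1 else 0) :
    ρ (LL R) m = (W.κ R : ℂ) • m := by
  let Z : Subgroup (GL (Fin n) F) :=
    { carrier := {R | ∀ v, IsM ψ ρ i₀ v → ρ (LL R) v = (W.κ R : ℂ) • v}
      mul_mem' := by
        intro a b ha hb v hv
        rw [Conj.LL_mul, map_mul, Module.End.mul_apply, hb v hv, map_smul, ha v hv, map_mul, Units.val_mul,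
          smul_smul, mul_comm]
      one_mem' := by
        intro v hv
        rw [LL_one', map_one, map_one, Units.val_one, one_smul]
        rfl
      inv_mem' := by
        intro a ha v hv
        have h1 : ρ (LL a⁻¹) (ρ (LL a) v) = v := by
          rw [← Module.End.mul_apply, ← map_mul, ← Conj.LL_mul, inv_mul_cancel, LL_one', map_one]
          rfl
        rw [ha v hv, map_smul] at h1
        have h3 : ((W.κ a⁻¹ : ℂˣ) : ℂ) * ((W.κ a : ℂˣ) : ℂ) = 1 := by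
          rw [← Units.val_mul, ← map_mul, inv_mul_cancel, map_one, Units.val_one]
        calc ρ (LL a⁻¹) v = (((W.κ a⁻¹ : ℂˣ) : ℂ) * ((W.κ a : ℂˣ) : ℂ)) • ρ (LL a⁻¹) v := by rw [h3, one_smul]
          _ = ((W.κ a⁻¹ : ℂˣ) : ℂ) • (((W.κ a : ℂˣ) : ℂ) • ρ (LL a⁻¹) v) := mul_smul _ _ _
          _ = ((W.κ a⁻¹ : ℂˣ) : ℂ) • v := by rw [h1] }
  have hZ : R ∈ Z := by
    refine Gen.stab_gen i₀ Z ?_ ?_ R hRow
    · intro j hj t v hv
      exact scal W ρ h2 hψ hR hv (dg j t) (dg_mem hj t) (dg_fix hj t)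
    · intro i j hij hj b v hv
      by_cases hi : i = i₀
      · subst hi
        exact el_top W ρ h2 hψ hR hij hj b hv
      · exact scal W ρ h2 hψ hR hv (el i j hij b) (el_mem hi hij b) (el_fix hij hj b)
  exact hZ m hm

theorem stab_neg (h2 : (2 : F) ≠ 0) (hψ : ψ 1 ≠ 1) (hR : R1all ψ ρ) (i₀ : Fin n) (m : V) (hm : IsM ψ ρ i₀ m)
    (s : ℂ) (hs : ρ zI = (s * (W.κ (-1) : ℂ)) • (1 : Module.End ℂ V)) :
    ρ (LL (dg i₀ (-1))) m = (s * (W.κ (dg i₀ (-1)) : ℂ)) • m := by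
  let R : GL (Fin n) F := (dg i₀ (-1))⁻¹ * (-1)
  have hdec : dg i₀ (-1) * R = -1 := by
    simp [R]
  have hRow : ∀ k, (R : Matrix (Fin n) (Fin n) F) i₀ k = if k = i₀ then 1 else 0 := by
    intro k
    show (Matrix.diagonal (Function.update 1 i₀ (((-1 : Fˣ)⁻¹ : Fˣ) : F)) * (-1 : Matrix (Fin n) (Fin n) F)) i₀ k = _
    rw [Matrix.diagonal_mul]
    by_cases hk : k = i₀
    · subst hk
      simp
    · have h' : i₀ ≠ k := Ne.symm hk
      simp [hk, h', Matrix.one_apply]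
  have h1 := stab_main W ρ h2 hψ hR i₀ m hm R hRow
  have h3 : ρ zI m = (s * (W.κ (-1) : ℂ)) • m := by
    rw [hs]
    simp
  have h4 : (zI : Gp F n) = LL (dg i₀ (-1)) * LL R := by
    rw [← Conj.LL_mul, hdec]
    rfl
  rw [h4, map_mul, Module.End.mul_apply, h1, map_smul] at h3
  have h5 : ((W.κ (-1) : ℂˣ) : ℂ) = ((W.κ (dg i₀ (-1)) : ℂˣ) : ℂ) * ((W.κ R : ℂˣ) : ℂ) := by
    rw [← Units.val_mul, ← map_mul, hdec]
  rw [h5] at h3
  have h6 : ((W.κ R : ℂˣ) : ℂ) • ρ (LL (dg i₀ (-1))) m =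
      ((W.κ R : ℂˣ) : ℂ) • ((s * ((W.κ (dg i₀ (-1)) : ℂˣ) : ℂ)) • m) := by
    rw [h3, smul_smul]
    congr 1
    ring
  exact (smul_right_injective V (Units.ne_zero (W.κ R))) h6

end Cfsg.Agent.Lib.WeilGap.Stab
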